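import Cfsg.Agent.Lib.G2Spec.XShort
import Cfsg.Agent.Lib.ZornAlg

/-!
# Root elements of `G₂` on the octonions and the Lie algebra action
-/

set_option autoImplicit false
set_option linter.unusedSectionVars false
set_option linter.unusedVariables false
set_option linter.unusedSimpArgs false
set_option maxRecDepth 100000

namespace Cfsg.Agent.Lib.G2Spec

open Cfsg Cfsg.Lie Cfsg.Agent.Lib.Chev Cfsg.Agent.Lib.SL3G250 Cfsg.Agent.Lib.ZornAlg Matrix

variable {F : Type*} [Field F]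

/-- The root element `y_0(t)` on the octonions. -/
def yv0 (t : F) (v : Fin 8 → F) : Fin 8 → F :=
  ![v 0, v 1, v 2, v 3 + t * v 2, v 4, v 5 - t * v 6, v 6, v 7]

/-- The root element `y_1(t)` on the octonions. -/
def yv1 (t : F) (v : Fin 8 → F) : Fin 8 → F :=
  ![v 0, v 1, v 2, v 3 + t * v 1, v 4 - t * v 6, v 5, v 6, v 7]

/-- The root element `y_2(t)` on the octonions. -/
def yv2 (t : F) (v : Fin 8 → F) : Fin 8 → F :=
  ![v 0 - t * v 6, v 1, v 2, v 3 + t * v 0 - t * v 7 - t ^ 2 * v 6, v 4 - t * v 2, v 5 + t * v 1, v 6, v 7 + t * v 6]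

/-- The root element `y_3(t)` on the octonions. -/
def yv3 (t : F) (v : Fin 8 → F) : Fin 8 → F :=
  ![v 0 + t * v 2, v 1 - t * v 6, v 2, v 3 + t * v 4, v 4, v 5 - t * v 0 + t * v 7 - t ^ 2 * v 2, v 6, v 7 - t * v 2]

/-- The root element `y_4(t)` on the octonions. -/
def yv4 (t : F) (v : Fin 8 → F) : Fin 8 → F :=
  ![v 0 + t * v 1, v 1, v 2 + t * v 6, v 3 - t * v 5, v 4 - t * v 0 + t * v 7 - t ^ 2 * v 1, v 5, v 6, v 7 - t * v 1]

/-- The root element `y_5(t)` on the octonions. -/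
def yv5 (t : F) (v : Fin 8 → F) : Fin 8 → F :=
  ![v 0, v 1 + t * v 2, v 2, v 3, v 4, v 5 - t * v 4, v 6, v 7]

/-- The root element `y_6(t)` on the octonions. -/
def yv6 (t : F) (v : Fin 8 → F) : Fin 8 → F :=
  ![v 0, v 1, v 2 + t * v 1, v 3, v 4 - t * v 5, v 5, v 6, v 7]

/-- The root element `y_7(t)` on the octonions. -/
def yv7 (t : F) (v : Fin 8 → F) : Fin 8 → F :=
  ![v 0 - t * v 4, v 1 + t * v 0 - t * v 7 - t ^ 2 * v 4, v 2, v 3, v 4, v 5 - t * v 3, v 6 + t * v 2, v 7 + t * v 4]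

/-- The root element `y_8(t)` on the octonions. -/
def yv8 (t : F) (v : Fin 8 → F) : Fin 8 → F :=
  ![v 0 - t * v 5, v 1, v 2 + t * v 0 - t * v 7 - t ^ 2 * v 5, v 3, v 4 + t * v 3, v 5, v 6 - t * v 1, v 7 + t * v 5]

/-- The root element `y_9(t)` on the octonions. -/
def yv9 (t : F) (v : Fin 8 → F) : Fin 8 → F :=
  ![v 0 + t * v 3, v 1 + t * v 5, v 2 - t * v 4, v 3, v 4, v 5, v 6 - t * v 0 + t * v 7 - t ^ 2 * v 3, v 7 - t * v 3]

/-- The root element `y_10(t)` on the octonions. -/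
def yv10 (t : F) (v : Fin 8 → F) : Fin 8 → F :=
  ![v 0, v 1 + t * v 3, v 2, v 3, v 4, v 5, v 6 - t * v 4, v 7]

/-- The root element `y_11(t)` on the octonions. -/
def yv11 (t : F) (v : Fin 8 → F) : Fin 8 → F :=
  ![v 0, v 1, v 2 + t * v 3, v 3, v 4, v 5, v 6 - t * v 5, v 7]

/-- The action of the Lie algebra on the octonions. -/
def dV (u : V14 F) (v : Fin 8 → F) : Fin 8 → F :=
  ![- u (ee 2) * v 6 + u (ee 3) * v 2 + u (ee 4) * v 1 - u (ee 7) * v 4 - u (ee 8) * v 5 + u (ee 9) * v 3, 2 * u (hh 0) * v 1 - u (hh 1) * v 1 - u (ee 3) * v 6 + u (ee 5) * v 2 + u (ee 7) * v 0 - u (ee 7) * v 7 + u (ee 9) * v 5 + u (ee 10) * v 3, - u (hh 0) * v 2 + u (hh 1) * v 2 + u (ee 4) * v 6 + u (ee 6) * v 1 + u (ee 8) * v 0 - u (ee 8) * v 7 - u (ee 9) * v 4 + u (ee 11) * v 3, - u (hh 0) * v 3 + u (ee 0) * v 2 + u (ee 1) * v 1 + u (ee 2) * v 0 - u (ee 2) * v 7 + u (ee 3) * v 4 - u (ee 4) * v 5, - 2 * u (hh 0) * v 4 + u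 (hh 1) * v 4 - u (ee 1) * v 6 - u (ee 2) * v 2 - u (ee 4) * v 0 + u (ee 4) * v 7 - u (ee 6) * v 5 + u (ee 8) * v 3, u (hh 0) * v 5 - u (hh 1) * v 5 - u (ee 0) * v 6 + u (ee 2) * v 1 - u (ee 3) * v 0 + u (ee 3) * v 7 - u (ee 5) * v 4 - u (ee 7) * v 3, u (hh 0) * v 6 + u (ee 7) * v 2 - u (ee 8) * v 1 - u (ee 9) * v 0 + u (ee 9) * v 7 - u (ee 10) * v 4 - u (ee 11) * v 5, u (ee 2) * v 6 - u (ee 3) * v 2 - u (ee 4) * v 1 + u (ee 7) * v 4 + u (ee 8) * v 5 - u (ee 9) * v 3]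

lemma yv0_aut (t : F) (x z : Fin 8 → F) : yv0 t (zornMul x z) = zornMul (yv0 t x) (yv0 t z) := by
  apply ext8 <;> simp [yv0] <;> ring

lemma yv0_add (t : F) (x z : Fin 8 → F) : yv0 t (x + z) = yv0 t x + yv0 t z := by
  apply ext8 <;> simp [yv0] <;> ring

lemma yv0_smul (t c : F) (x : Fin 8 → F) : yv0 t (c • x) = c • yv0 t x := by
  apply ext8 <;> simp [yv0] <;> ring

lemma yv0_comp (s t : F) (x : Fin 8 → F) : yv0 s (yv0 t x) = yv0 (s + t) x := by
  apply ext8 <;> simp [yv0] <;> ring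

lemma yv0_zero (x : Fin 8 → F) : yv0 (0 : F) x = x := by
  apply ext8 <;> simp [yv0]

lemma yv0_eqv (t : F) (u : V14 F) (v : Fin 8 → F) : yv0 t (dV u v) = dV (nv0 t u) (yv0 t v) := by
  apply ext8 <;> simp [yv0, dV, nv0] <;> ring

lemma yv1_aut (t : F) (x z : Fin 8 → F) : yv1 t (zornMul x z) = zornMul (yv1 t x) (yv1 t z) := by
  apply ext8 <;> simp [yv1] <;> ring

lemma yv1_add (t : F) (x z : Fin 8 → F) : yv1 t (x + z) = yv1 t x + yv1 t z := by
  apply ext8 <;> simp [yv1] <;> ring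

lemma yv1_smul (t c : F) (x : Fin 8 → F) : yv1 t (c • x) = c • yv1 t x := by
  apply ext8 <;> simp [yv1] <;> ring

lemma yv1_comp (s t : F) (x : Fin 8 → F) : yv1 s (yv1 t x) = yv1 (s + t) x := by
  apply ext8 <;> simp [yv1] <;> ring

lemma yv1_zero (x : Fin 8 → F) : yv1 (0 : F) x = x := by
  apply ext8 <;> simp [yv1]

lemma yv1_eqv (t : F) (u : V14 F) (v : Fin 8 → F) : yv1 t (dV u v) = dV (nv1 t u) (yv1 t v) := by
  apply ext8 <;> simp [yv1, dV, nv1] <;> ring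

lemma yv2_aut (t : F) (x z : Fin 8 → F) : yv2 t (zornMul x z) = zornMul (yv2 t x) (yv2 t z) := by
  apply ext8 <;> simp [yv2] <;> ring

lemma yv2_add (t : F) (x z : Fin 8 → F) : yv2 t (x + z) = yv2 t x + yv2 t z := by
  apply ext8 <;> simp [yv2] <;> ring

lemma yv2_smul (t c : F) (x : Fin 8 → F) : yv2 t (c • x) = c • yv2 t x := by
  apply ext8 <;> simp [yv2] <;> ring

lemma yv2_comp (s t : F) (x : Fin 8 → F) : yv2 s (yv2 t x) = yv2 (s + t) x := by
  apply ext8 <;> simp [yv2] <;> ring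

lemma yv2_zero (x : Fin 8 → F) : yv2 (0 : F) x = x := by
  apply ext8 <;> simp [yv2]

lemma yv2_eqv (t : F) (u : V14 F) (v : Fin 8 → F) : yv2 t (dV u v) = dV (nv2 t u) (yv2 t v) := by
  apply ext8 <;> simp [yv2, dV, nv2] <;> ring

lemma yv3_aut (t : F) (x z : Fin 8 → F) : yv3 t (zornMul x z) = zornMul (yv3 t x) (yv3 t z) := by
  apply ext8 <;> simp [yv3] <;> ring

lemma yv3_add (t : F) (x z : Fin 8 → F) : yv3 t (x + z) = yv3 t x + yv3 t z := by
  apply ext8 <;> simp [yv3] <;> ring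

lemma yv3_smul (t c : F) (x : Fin 8 → F) : yv3 t (c • x) = c • yv3 t x := by
  apply ext8 <;> simp [yv3] <;> ring

lemma yv3_comp (s t : F) (x : Fin 8 → F) : yv3 s (yv3 t x) = yv3 (s + t) x := by
  apply ext8 <;> simp [yv3] <;> ring

lemma yv3_zero (x : Fin 8 → F) : yv3 (0 : F) x = x := by
  apply ext8 <;> simp [yv3]

lemma yv3_eqv (t : F) (u : V14 F) (v : Fin 8 → F) : yv3 t (dV u v) = dV (nv3 t u) (yv3 t v) := by
  apply ext8 <;> simp [yv3, dV, nv3] <;> ring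

lemma yv4_aut (t : F) (x z : Fin 8 → F) : yv4 t (zornMul x z) = zornMul (yv4 t x) (yv4 t z) := by
  apply ext8 <;> simp [yv4] <;> ring

lemma yv4_add (t : F) (x z : Fin 8 → F) : yv4 t (x + z) = yv4 t x + yv4 t z := by
  apply ext8 <;> simp [yv4] <;> ring

lemma yv4_smul (t c : F) (x : Fin 8 → F) : yv4 t (c • x) = c • yv4 t x := by
  apply ext8 <;> simp [yv4] <;> ring

lemma yv4_comp (s t : F) (x : Fin 8 → F) : yv4 s (yv4 t x) = yv4 (s + t) x := by
  apply ext8 <;> simp [yv4] <;> ring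

lemma yv4_zero (x : Fin 8 → F) : yv4 (0 : F) x = x := by
  apply ext8 <;> simp [yv4]

lemma yv4_eqv (t : F) (u : V14 F) (v : Fin 8 → F) : yv4 t (dV u v) = dV (nv4 t u) (yv4 t v) := by
  apply ext8 <;> simp [yv4, dV, nv4] <;> ring

lemma yv5_aut (t : F) (x z : Fin 8 → F) : yv5 t (zornMul x z) = zornMul (yv5 t x) (yv5 t z) := by
  apply ext8 <;> simp [yv5] <;> ring

lemma yv5_add (t : F) (x z : Fin 8 → F) : yv5 t (x + z) = yv5 t x + yv5 t z := by
  apply ext8 <;> simp [yv5] <;> ring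

lemma yv5_smul (t c : F) (x : Fin 8 → F) : yv5 t (c • x) = c • yv5 t x := by
  apply ext8 <;> simp [yv5] <;> ring

lemma yv5_comp (s t : F) (x : Fin 8 → F) : yv5 s (yv5 t x) = yv5 (s + t) x := by
  apply ext8 <;> simp [yv5] <;> ring

lemma yv5_zero (x : Fin 8 → F) : yv5 (0 : F) x = x := by
  apply ext8 <;> simp [yv5]

lemma yv5_eqv (t : F) (u : V14 F) (v : Fin 8 → F) : yv5 t (dV u v) = dV (nv5 t u) (yv5 t v) := by
  apply ext8 <;> simp [yv5, dV, nv5] <;> ring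

lemma yv6_aut (t : F) (x z : Fin 8 → F) : yv6 t (zornMul x z) = zornMul (yv6 t x) (yv6 t z) := by
  apply ext8 <;> simp [yv6] <;> ring

lemma yv6_add (t : F) (x z : Fin 8 → F) : yv6 t (x + z) = yv6 t x + yv6 t z := by
  apply ext8 <;> simp [yv6] <;> ring

lemma yv6_smul (t c : F) (x : Fin 8 → F) : yv6 t (c • x) = c • yv6 t x := by
  apply ext8 <;> simp [yv6] <;> ring

lemma yv6_comp (s t : F) (x : Fin 8 → F) : yv6 s (yv6 t x) = yv6 (s + t) x := by
  apply ext8 <;> simp [yv6] <;> ring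

lemma yv6_zero (x : Fin 8 → F) : yv6 (0 : F) x = x := by
  apply ext8 <;> simp [yv6]

lemma yv6_eqv (t : F) (u : V14 F) (v : Fin 8 → F) : yv6 t (dV u v) = dV (nv6 t u) (yv6 t v) := by
  apply ext8 <;> simp [yv6, dV, nv6] <;> ring

lemma yv7_aut (t : F) (x z : Fin 8 → F) : yv7 t (zornMul x z) = zornMul (yv7 t x) (yv7 t z) := by
  apply ext8 <;> simp [yv7] <;> ring

lemma yv7_add (t : F) (x z : Fin 8 → F) : yv7 t (x + z) = yv7 t x + yv7 t z := by
  apply ext8 <;> simp [yv7] <;> ring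

lemma yv7_smul (t c : F) (x : Fin 8 → F) : yv7 t (c • x) = c • yv7 t x := by
  apply ext8 <;> simp [yv7] <;> ring

lemma yv7_comp (s t : F) (x : Fin 8 → F) : yv7 s (yv7 t x) = yv7 (s + t) x := by
  apply ext8 <;> simp [yv7] <;> ring

lemma yv7_zero (x : Fin 8 → F) : yv7 (0 : F) x = x := by
  apply ext8 <;> simp [yv7]

lemma yv7_eqv (t : F) (u : V14 F) (v : Fin 8 → F) : yv7 t (dV u v) = dV (nv7 t u) (yv7 t v) := by
  apply ext8 <;> simp [yv7, dV, nv7] <;> ring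

lemma yv8_aut (t : F) (x z : Fin 8 → F) : yv8 t (zornMul x z) = zornMul (yv8 t x) (yv8 t z) := by
  apply ext8 <;> simp [yv8] <;> ring

lemma yv8_add (t : F) (x z : Fin 8 → F) : yv8 t (x + z) = yv8 t x + yv8 t z := by
  apply ext8 <;> simp [yv8] <;> ring

lemma yv8_smul (t c : F) (x : Fin 8 → F) : yv8 t (c • x) = c • yv8 t x := by
  apply ext8 <;> simp [yv8] <;> ring

lemma yv8_comp (s t : F) (x : Fin 8 → F) : yv8 s (yv8 t x) = yv8 (s + t) x := by
  apply ext8 <;> simp [yv8] <;> ring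

lemma yv8_zero (x : Fin 8 → F) : yv8 (0 : F) x = x := by
  apply ext8 <;> simp [yv8]

lemma yv8_eqv (t : F) (u : V14 F) (v : Fin 8 → F) : yv8 t (dV u v) = dV (nv8 t u) (yv8 t v) := by
  apply ext8 <;> simp [yv8, dV, nv8] <;> ring

lemma yv9_aut (t : F) (x z : Fin 8 → F) : yv9 t (zornMul x z) = zornMul (yv9 t x) (yv9 t z) := by
  apply ext8 <;> simp [yv9] <;> ring

lemma yv9_add (t : F) (x z : Fin 8 → F) : yv9 t (x + z) = yv9 t x + yv9 t z := by
  apply ext8 <;> simp [yv9] <;> ring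

lemma yv9_smul (t c : F) (x : Fin 8 → F) : yv9 t (c • x) = c • yv9 t x := by
  apply ext8 <;> simp [yv9] <;> ring

lemma yv9_comp (s t : F) (x : Fin 8 → F) : yv9 s (yv9 t x) = yv9 (s + t) x := by
  apply ext8 <;> simp [yv9] <;> ring

lemma yv9_zero (x : Fin 8 → F) : yv9 (0 : F) x = x := by
  apply ext8 <;> simp [yv9]

lemma yv9_eqv (t : F) (u : V14 F) (v : Fin 8 → F) : yv9 t (dV u v) = dV (nv9 t u) (yv9 t v) := by
  apply ext8 <;> simp [yv9, dV, nv9] <;> ring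

lemma yv10_aut (t : F) (x z : Fin 8 → F) : yv10 t (zornMul x z) = zornMul (yv10 t x) (yv10 t z) := by
  apply ext8 <;> simp [yv10] <;> ring

lemma yv10_add (t : F) (x z : Fin 8 → F) : yv10 t (x + z) = yv10 t x + yv10 t z := by
  apply ext8 <;> simp [yv10] <;> ring

lemma yv10_smul (t c : F) (x : Fin 8 → F) : yv10 t (c • x) = c • yv10 t x := by
  apply ext8 <;> simp [yv10] <;> ring

lemma yv10_comp (s t : F) (x : Fin 8 → F) : yv10 s (yv10 t x) = yv10 (s + t) x := by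
  apply ext8 <;> simp [yv10] <;> ring

lemma yv10_zero (x : Fin 8 → F) : yv10 (0 : F) x = x := by
  apply ext8 <;> simp [yv10]

lemma yv10_eqv (t : F) (u : V14 F) (v : Fin 8 → F) : yv10 t (dV u v) = dV (nv10 t u) (yv10 t v) := by
  apply ext8 <;> simp [yv10, dV, nv10] <;> ring

lemma yv11_aut (t : F) (x z : Fin 8 → F) : yv11 t (zornMul x z) = zornMul (yv11 t x) (yv11 t z) := by
  apply ext8 <;> simp [yv11] <;> ring

lemma yv11_add (t : F) (x z : Fin 8 → F) : yv11 t (x + z) = yv11 t x + yv11 t z := by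
  apply ext8 <;> simp [yv11] <;> ring

lemma yv11_smul (t c : F) (x : Fin 8 → F) : yv11 t (c • x) = c • yv11 t x := by
  apply ext8 <;> simp [yv11] <;> ring

lemma yv11_comp (s t : F) (x : Fin 8 → F) : yv11 s (yv11 t x) = yv11 (s + t) x := by
  apply ext8 <;> simp [yv11] <;> ring

lemma yv11_zero (x : Fin 8 → F) : yv11 (0 : F) x = x := by
  apply ext8 <;> simp [yv11]

lemma yv11_eqv (t : F) (u : V14 F) (v : Fin 8 → F) : yv11 t (dV u v) = dV (nv11 t u) (yv11 t v) := by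
  apply ext8 <;> simp [yv11, dV, nv11] <;> ring

end Cfsg.Agent.Lib.G2Spec
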