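import Cfsg.Agent.Lib.G2Spec.Base

/-!
# Trace and norm of the split octonions; automorphisms preserve them
-/

set_option autoImplicit false
set_option linter.unusedSectionVars false
set_option linter.unusedVariables false
set_option linter.unusedSimpArgs false
set_option maxRecDepth 100000

namespace Cfsg.Agent.Lib.G2Spec

open Cfsg Cfsg.Lie Cfsg.Agent.Lib.Chev Cfsg.Agent.Lib.SL3G250 Cfsg.Agent.Lib.ZornAlg Matrix

variable {F : Type*} [Field F]

/-- The trace. -/
def tr (x : O8 F) : F := x 0 + x 7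

/-- The norm. -/
def nm (x : O8 F) : F := x 0 * x 7 - (x 1 * x 4 + x 2 * x 5 + x 3 * x 6)

/-- The first idempotent. -/
def e0 : O8 F := ![1, 0, 0, 0, 0, 0, 0, 0]

/-- The second idempotent. -/
def e7 : O8 F := ![0, 0, 0, 0, 0, 0, 0, 1]

lemma quad (x : O8 F) : zornMul x x = tr x • x - nm x • zOne := by
  apply ext8 <;> simp [tr, nm, zOne] <;> ring

lemma one_ne_zero8 : (zOne : O8 F) ≠ 0 := by
  intro h
  have := congrFun h 0
  simp [zOne] at this

lemma gv_zOne {g : GL (Fin 8) F} (hg : g ∈ G2 F) : gv g zOne = zOne := by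
  have h := mem_G2.mp hg zOne (gv g⁻¹ zOne)
  rw [zOne_mul, gv_gv_inv, mul_zOne] at h
  exact h.symm

lemma tr_add (x y : O8 F) : tr (x + y) = tr x + tr y := by
  simp [tr]
  ring

lemma tr_smul (c : F) (x : O8 F) : tr (c • x) = c * tr x := by
  simp [tr]
  ring

lemma tr_sub (x y : O8 F) : tr (x - y) = tr x - tr y := by
  simp [tr]
  ring

lemma tr_zOne : tr (zOne : O8 F) = 2 := by
  simp [tr, zOne]
  norm_num

lemma tr_e0 : tr (e0 : O8 F) = 1 := by
  simp [tr, e0]

lemma nm_zOne : nm (zOne : O8 F) = 1 := by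
  simp [nm, zOne]

/-- Automorphisms preserve the trace. -/
lemma tr_gv {g : GL (Fin 8) F} (hg : g ∈ G2 F) (x : O8 F) : tr (gv g x) = tr x ∧ nm (gv g x) = nm x := by
  have h1 := mem_G2.mp hg x x
  rw [quad, quad, gv_sub, gv_smul, gv_smul, gv_zOne hg] at h1
  have h2 : (tr x - tr (gv g x)) • gv g x = (nm x - nm (gv g x)) • (zOne : O8 F) := by
    rw [sub_smul, sub_smul]
    have h3 := sub_eq_zero.mpr h1
    have : (tr x • gv g x - tr (gv g x) • gv g x) - (nm x • (zOne : O8 F) - nm (gv g x) • (zOne : O8 F)) =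
      (tr x • gv g x - nm x • zOne) - (tr (gv g x) • gv g x - nm (gv g x) • zOne) := by abel
    rw [← sub_eq_zero, this, h3]
  have htr : tr (gv g x) = tr x := by
    by_contra hne
    have hc : tr x - tr (gv g x) ≠ 0 := sub_ne_zero.mpr (Ne.symm hne)
    set c := (tr x - tr (gv g x))⁻¹ * (nm x - nm (gv g x)) with hcdef
    have h4 : gv g x = c • (zOne : O8 F) := by
      rw [hcdef, mul_smul, ← h2, smul_smul, inv_mul_cancel₀ hc, one_smul]
    have h5 : x = c • (zOne : O8 F) := by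
      apply gv_inj g
      rw [h4, gv_smul, gv_zOne hg]
    apply hne
    rw [h4, h5, tr_smul]
  refine ⟨htr, ?_⟩
  rw [htr, sub_self, zero_smul] at h2
  have h6 := h2.symm
  rw [smul_eq_zero] at h6
  rcases h6 with h6 | h6
  · exact (sub_eq_zero.mp h6).symm
  · exact absurd h6 one_ne_zero8

lemma tr_gv' {g : GL (Fin 8) F} (hg : g ∈ G2 F) (x : O8 F) : tr (gv g x) = tr x := (tr_gv hg x).1

lemma nm_gv {g : GL (Fin 8) F} (hg : g ∈ G2 F) (x : O8 F) : nm (gv g x) = nm x := (tr_gv hg x).2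

/-- An idempotent with trace 1 has norm 0 and conversely. -/
lemma idem_of (x : O8 F) (h1 : tr x = 1) (h2 : nm x = 0) : zornMul x x = x := by
  rw [quad, h1, h2, one_smul, zero_smul, sub_zero]

lemma tr_nm_of_idem {x : O8 F} (h : zornMul x x = x) (h0 : x ≠ 0) (h1 : x ≠ zOne) : tr x = 1 ∧ nm x = 0 := by
  have hid := h
  rw [quad] at h
  have h2 : (tr x - 1) • x = nm x • (zOne : O8 F) := by
    rw [sub_smul, one_smul]
    rw [sub_eq_iff_eq_add] at h
    rw [sub_eq_iff_eq_add, h]
    abel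
  have htr : tr x = 1 := by
    by_contra hne
    have hc : tr x - 1 ≠ 0 := sub_ne_zero.mpr hne
    set c := (tr x - 1)⁻¹ * nm x with hcdef
    have h4 : x = c • (zOne : O8 F) := by
      rw [hcdef, mul_smul, ← h2, smul_smul, inv_mul_cancel₀ hc, one_smul]
    have h5 : c * c = c := by
      have h6 : zornMul (c • (zOne : O8 F)) (c • zOne) = c • zOne := by
        rw [← h4]
        exact hid
      rw [zornMul_smul_left, zornMul_smul_right, zOne_mul, smul_smul] at h6
      have := congrFun h6 0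
      simpa [zOne] using this
    have h7 : c = 0 ∨ c = 1 := by
      have : c * (c - 1) = 0 := by rw [mul_sub, h5]; ring
      rcases mul_eq_zero.mp this with h8 | h8
      · exact Or.inl h8
      · exact Or.inr (sub_eq_zero.mp h8)
    rcases h7 with h7 | h7
    · apply h0
      rw [h4, h7, zero_smul]
    · apply h1
      rw [h4, h7, one_smul]
  refine ⟨htr, ?_⟩
  rw [htr, sub_self, zero_smul] at h2
  have h6 := h2.symm
  rw [smul_eq_zero] at h6
  rcases h6 with h6 | h6
  · exact h6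
  · exact absurd h6 one_ne_zero8

lemma e0_ne_zero : (e0 : O8 F) ≠ 0 := by
  intro h
  have := congrFun h 0
  simp [e0] at this

lemma e0_ne_one : (e0 : O8 F) ≠ zOne := by
  intro h
  have := congrFun h 7
  simp [e0, zOne] at this

lemma nm_e0 : nm (e0 : O8 F) = 0 := by
  simp [nm, e0]

lemma e0_add_e7 : (e0 : O8 F) + e7 = zOne := by
  apply ext8 <;> simp [e0, e7, zOne]

/-- The polar form is preserved. -/
lemma polar_gv {g : GL (Fin 8) F} (hg : g ∈ G2 F) (x y : O8 F) : zPolar (gv g x) (gv g y) = zPolar x y := by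
  have key : ∀ x y : O8 F, zPolar x y = nm (x + y) - nm x - nm y := by
    intro x y
    simp [zPolar, nm]
    ring
  rw [key, key, ← gv_add, nm_gv hg, nm_gv hg, nm_gv hg]

/-! ### The relation is a bijection -/

lemma dV_inj {u u' : V14 F} (H : ∀ v, dV u v = dV u' v) : u = u' := by
  have e0' := H ![1, 0, 0, 0, 0, 0, 0, 0]
  have e1' := H ![0, 1, 0, 0, 0, 0, 0, 0]
  have e2' := H ![0, 0, 1, 0, 0, 0, 0, 0]
  have e3' := H ![0, 0, 0, 1, 0, 0, 0, 0]
  have h0 : u (hh 0) = u' (hh 0) := by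
    have := congrFun e3' 3
    simpa [dV] using this
  have h1 : u (hh 1) = u' (hh 1) := by
    have := congrFun e2' 2
    simp only [dV] at this
    simp at this
    rw [h0] at this
    linear_combination this
  have r0 : u (ee 0) = u' (ee 0) := by simpa [dV] using congrFun e2' 3
  have r1 : u (ee 1) = u' (ee 1) := by simpa [dV] using congrFun e1' 3
  have r2 : u (ee 2) = u' (ee 2) := by simpa [dV] using congrFun e0' 3
  have r3 : u (ee 3) = u' (ee 3) := by simpa [dV] using congrFun e0' 5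
  have r4 : u (ee 4) = u' (ee 4) := by simpa [dV] using congrFun e0' 4
  have r5 : u (ee 5) = u' (ee 5) := by simpa [dV] using congrFun e2' 1
  have r6 : u (ee 6) = u' (ee 6) := by simpa [dV] using congrFun e1' 2
  have r7 : u (ee 7) = u' (ee 7) := by simpa [dV] using congrFun e0' 1
  have r8 : u (ee 8) = u' (ee 8) := by simpa [dV] using congrFun e0' 2
  have r9 : u (ee 9) = u' (ee 9) := by simpa [dV] using congrFun e0' 6
  have r10 : u (ee 10) = u' (ee 10) := by simpa [dV] using congrFun e3' 1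
  have r11 : u (ee 11) = u' (ee 11) := by simpa [dV] using congrFun e3' 2
  funext k
  revert k
  apply idx_ind
  · intro i
    fin_cases i
    · exact h0
    · exact h1
  · intro s
    fin_cases s
    exacts [r0, r1, r2, r3, r4, r5, r6, r7, r8, r9, r10, r11]

lemma rel_g_unique {g g' : GL chevG2.Idx F} {y : GL (Fin 8) F} (h : Rel g y) (h' : Rel g' y) : g = g' := by
  apply Units.ext
  have key : ∀ u, (g : Matrix chevG2.Idx chevG2.Idx F) *ᵥ u = (g' : Matrix chevG2.Idx chevG2.Idx F) *ᵥ u := by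
    intro u
    apply dV_inj
    intro v
    have h1 := h.2 u (gv y⁻¹ v)
    have h2 := h'.2 u (gv y⁻¹ v)
    rw [gv_gv_inv] at h1 h2
    rw [← h1, ← h2]
  apply Matrix.ext
  intro i j
  have h1 := congrFun (key (Pi.single j 1)) i
  simpa using h1

set_option maxHeartbeats 2000000 in
/-- An automorphism commuting with the Lie algebra action is trivial. -/
lemma eq_one_of_comm {y : GL (Fin 8) F} (hy : y ∈ G2 F) (hc : ∀ u v, gv y (dV u v) = dV u (gv y v)) : y = 1 := by
  set w : O8 F := gv y e0 with hw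
  -- the coordinates 1..6 of `w` vanish
  have hl : ∀ (u : V14 F), dV u e0 = 0 → dV u w = 0 := by
    intro u hu
    rw [hw, ← hc, hu, gv_zero]
  have w1 : w 1 = 0 := by
    have := congrFun (hl (uR 6) (by apply ext8 <;> simp [dV, uR, e0, Pi.single_apply])) 2
    simpa [dV, uR, Pi.single_apply] using this
  have w2 : w 2 = 0 := by
    have := congrFun (hl (uR 5) (by apply ext8 <;> simp [dV, uR, e0, Pi.single_apply])) 1
    simpa [dV, uR, Pi.single_apply] using this
  have w3 : w 3 = 0 := by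
    have := congrFun (hl (uR 10) (by apply ext8 <;> simp [dV, uR, e0, Pi.single_apply])) 1
    simpa [dV, uR, Pi.single_apply] using this
  have w4 : w 4 = 0 := by
    have := congrFun (hl (uR 5) (by apply ext8 <;> simp [dV, uR, e0, Pi.single_apply])) 5
    simpa [dV, uR, Pi.single_apply] using this
  have w5 : w 5 = 0 := by
    have := congrFun (hl (uR 6) (by apply ext8 <;> simp [dV, uR, e0, Pi.single_apply])) 4
    simpa [dV, uR, Pi.single_apply] using this
  have w6 : w 6 = 0 := by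
    have := congrFun (hl (uR 0) (by apply ext8 <;> simp [dV, uR, e0, Pi.single_apply])) 5
    simpa [dV, uR, Pi.single_apply] using this
  have hid : zornMul w w = w := by
    rw [hw, ← mem_G2.mp hy, show zornMul (e0 : O8 F) e0 = e0 by apply ext8 <;> simp [e0]]
  have h0 : w 0 * w 0 = w 0 := by
    have := congrFun hid 0
    simpa [w1, w2, w3, w4, w5, w6] using this
  have h7 : w 7 * w 7 = w 7 := by
    have := congrFun hid 7
    simpa [w1, w2, w3, w4, w5, w6] using this
  have hws : w 0 + w 7 = 1 := by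
    have := tr_gv' hy (e0 : O8 F)
    rwa [tr_e0] at this
  have hx : ∀ (u : V14 F) (z : O8 F), dV u e0 = z → gv y z = dV u w := by
    intro u z hz
    rw [hw, ← hc, hz]
  have hcases : w 7 = 0 := by
    by_contra h77
    have h71 : w 7 = 1 := by
      have : w 7 * (w 7 - 1) = 0 := by rw [mul_sub, h7]; ring
      rcases mul_eq_zero.mp this with h8 | h8
      · exact absurd h8 h77
      · exact sub_eq_zero.mp h8
    have h00 : w 0 = 0 := by rw [h71] at hws; linear_combination hws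
    -- `y x₀ = - x₀`, contradiction with `e₀ x₀ = x₀`
    have hx0 : gv y ![0, 1, 0, 0, 0, 0, 0, 0] = ![0, -1, 0, 0, 0, 0, 0, 0] := by
      rw [hx (uR 7) _ (by apply ext8 <;> simp [dV, uR, e0, Pi.single_apply])]
      apply ext8 <;> simp [dV, uR, Pi.single_apply, w1, w2, w3, w4, w5, w6, h00, h71]
    have hmul : zornMul (e0 : O8 F) ![0, 1, 0, 0, 0, 0, 0, 0] = ![0, 1, 0, 0, 0, 0, 0, 0] := by
      apply ext8 <;> simp [e0]
    have h3 := mem_G2.mp hy (e0 : O8 F) ![0, 1, 0, 0, 0, 0, 0, 0]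
    rw [hmul, hx0, ← hw] at h3
    have := congrFun h3 1
    simp [h00, h71, w5, w6] at this
  have h01 : w 0 = 1 := by rw [hcases] at hws; linear_combination hws
  have hwe : w = e0 := by
    apply ext8 <;> simp [e0, w1, w2, w3, w4, w5, w6, h01, hcases]
  have hv : ∀ (u : V14 F) (z : O8 F), dV u e0 = z → gv y z = z := by
    intro u z hz
    rw [hx u z hz, hwe, hz]
  have v1 : gv y ![0, 1, 0, 0, 0, 0, 0, 0] = ![0, 1, 0, 0, 0, 0, 0, 0] :=
    hv (uR 7) _ (by apply ext8 <;> simp [dV, uR, e0, Pi.single_apply])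
  have v2 : gv y ![0, 0, 1, 0, 0, 0, 0, 0] = ![0, 0, 1, 0, 0, 0, 0, 0] :=
    hv (uR 8) _ (by apply ext8 <;> simp [dV, uR, e0, Pi.single_apply])
  have v3 : gv y ![0, 0, 0, 1, 0, 0, 0, 0] = ![0, 0, 0, 1, 0, 0, 0, 0] :=
    hv (uR 2) _ (by apply ext8 <;> simp [dV, uR, e0, Pi.single_apply])
  have v4 : gv y ![0, 0, 0, 0, -1, 0, 0, 0] = ![0, 0, 0, 0, -1, 0, 0, 0] :=
    hv (uR 4) _ (by apply ext8 <;> simp [dV, uR, e0, Pi.single_apply])
  have v5 : gv y ![0, 0, 0, 0, 0, -1, 0, 0] = ![0, 0, 0, 0, 0, -1, 0, 0] :=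
    hv (uR 3) _ (by apply ext8 <;> simp [dV, uR, e0, Pi.single_apply])
  have v6 : gv y ![0, 0, 0, 0, 0, 0, -1, 0] = ![0, 0, 0, 0, 0, 0, -1, 0] :=
    hv (uR 9) _ (by apply ext8 <;> simp [dV, uR, e0, Pi.single_apply])
  have v0 : gv y e0 = e0 := by rw [← hw, hwe]
  have v7 : gv y e7 = e7 := by
    have : (e7 : O8 F) = zOne - e0 := by rw [← e0_add_e7]; abel
    rw [this, gv_sub, gv_zOne hy, v0]
  apply gv_ext
  intro v
  have hdec : v = v 0 • (e0 : O8 F) + v 1 • ![0, 1, 0, 0, 0, 0, 0, 0] + v 2 • ![0, 0, 1, 0, 0, 0, 0, 0] +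
      v 3 • ![0, 0, 0, 1, 0, 0, 0, 0] + (-v 4) • ![0, 0, 0, 0, -1, 0, 0, 0] + (-v 5) • ![0, 0, 0, 0, 0, -1, 0, 0] +
      (-v 6) • ![0, 0, 0, 0, 0, 0, -1, 0] + v 7 • (e7 : O8 F) := by
    apply ext8 <;> simp [e0, e7]
  rw [gv_one, hdec]
  simp only [gv_add, gv_smul, v0, v1, v2, v3, v4, v5, v6, v7]

lemma rel_y_unique {g : GL chevG2.Idx F} {y y' : GL (Fin 8) F} (h : Rel g y) (h' : Rel g y') : y = y' := by
  have h1 : Rel (g⁻¹ * g) (y⁻¹ * y') := h.inv.mul h'
  rw [inv_mul_cancel] at h1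
  have h2 : y⁻¹ * y' = 1 := by
    apply eq_one_of_comm h1.1
    intro u v
    have := h1.2 u v
    simpa using this
  exact (inv_mul_eq_one.mp h2)

end Cfsg.Agent.Lib.G2Spec
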