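import Cfsg.Agent.Lib.G2Spec.Act

/-!
# Root elements and the intertwining relation between the two models of `G₂`
-/

set_option autoImplicit false
set_option linter.unusedSectionVars false
set_option linter.unusedVariables false
set_option linter.unusedSimpArgs false
set_option maxRecDepth 100000

namespace Cfsg.Agent.Lib.G2Spec

open Cfsg Cfsg.Lie Cfsg.Agent.Lib.Chev Cfsg.Agent.Lib.SL3G250 Cfsg.Agent.Lib.ZornAlg Matrix

variable {F : Type*} [Field F]

/-- Octonion matrices. -/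
abbrev M8 (F : Type*) := Matrix (Fin 8) (Fin 8) F

/-- Octonions. -/
abbrev O8 (F : Type*) := Fin 8 → F

/-- The action of an invertible matrix. -/
def gv (g : GL (Fin 8) F) (v : O8 F) : O8 F := (g : M8 F) *ᵥ v

lemma gv_mul (g h : GL (Fin 8) F) (v : O8 F) : gv (g * h) v = gv g (gv h v) := by
  simp only [gv, Units.val_mul, Matrix.mulVec_mulVec]

@[simp] lemma gv_one (v : O8 F) : gv (1 : GL (Fin 8) F) v = v := by
  simp only [gv, Units.val_one, Matrix.one_mulVec]

@[simp] lemma gv_inv_gv (g : GL (Fin 8) F) (v : O8 F) : gv g⁻¹ (gv g v) = v := by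
  rw [← gv_mul, inv_mul_cancel, gv_one]

@[simp] lemma gv_gv_inv (g : GL (Fin 8) F) (v : O8 F) : gv g (gv g⁻¹ v) = v := by
  rw [← gv_mul, mul_inv_cancel, gv_one]

lemma gv_add (g : GL (Fin 8) F) (v w : O8 F) : gv g (v + w) = gv g v + gv g w :=
  Matrix.mulVec_add _ _ _

lemma gv_sub (g : GL (Fin 8) F) (v w : O8 F) : gv g (v - w) = gv g v - gv g w :=
  Matrix.mulVec_sub _ _ _

lemma gv_smul (g : GL (Fin 8) F) (c : F) (v : O8 F) : gv g (c • v) = c • gv g v :=
  Matrix.mulVec_smul _ _ _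

lemma gv_zero (g : GL (Fin 8) F) : gv g (0 : O8 F) = 0 := Matrix.mulVec_zero _

lemma gv_neg (g : GL (Fin 8) F) (v : O8 F) : gv g (-v) = - gv g v := Matrix.mulVec_neg _ _

lemma gv_inj (g : GL (Fin 8) F) {v w : O8 F} (h : gv g v = gv g w) : v = w := by
  have := congrArg (gv g⁻¹) h
  simpa using this

lemma gv_ext {g h : GL (Fin 8) F} (H : ∀ v, gv g v = gv h v) : g = h := by
  apply Units.ext
  apply Matrix.ext
  intro i j
  have h1 := congrFun (H (Pi.single j 1)) i
  simpa [gv] using h1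

lemma gv_pow_comm (g : GL (Fin 8) F) (v : O8 F) (n : ℕ) : gv (g ^ (n + 1)) v = gv (g ^ n) (gv g v) := by
  rw [pow_succ, gv_mul]

lemma mem_G2 {g : GL (Fin 8) F} : g ∈ G2 F ↔ ∀ x y, gv g (zornMul x y) = zornMul (gv g x) (gv g y) :=
  Iff.rfl

/-- An invertible matrix from a pair of linear maps. -/
noncomputable def ofLin (L L' : O8 F →ₗ[F] O8 F) (h : ∀ v, L (L' v) = v) (h' : ∀ v, L' (L v) = v) : GL (Fin 8) F where
  val := LinearMap.toMatrix' L
  inv := LinearMap.toMatrix' L'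
  val_inv := by
    rw [← LinearMap.toMatrix'_comp]
    have : L ∘ₗ L' = LinearMap.id := LinearMap.ext h
    rw [this, LinearMap.toMatrix'_id]
  inv_val := by
    rw [← LinearMap.toMatrix'_comp]
    have : L' ∘ₗ L = LinearMap.id := LinearMap.ext h'
    rw [this, LinearMap.toMatrix'_id]

@[simp] lemma gv_ofLin (L L' : O8 F →ₗ[F] O8 F) (h : ∀ v, L (L' v) = v) (h' : ∀ v, L' (L v) = v) (v : O8 F) :
    gv (ofLin L L' h h') v = L v := by
  simp only [gv, ofLin, LinearMap.toMatrix'_mulVec]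

/-- The root elements on the octonions. -/
def yv (r : Fin 12) (t : F) (v : O8 F) : O8 F :=
  (![yv0, yv1, yv2, yv3, yv4, yv5, yv6, yv7, yv8, yv9, yv10, yv11] : Fin 12 → F → O8 F → O8 F) r t v

/-- The root elements on the Lie algebra. -/
def xv (r : Fin 12) (t : F) (u : V14 F) : V14 F :=
  (![nv0, nv1, nv2, nv3, nv4, nv5, nv6, nv7, nv8, nv9, nv10, nv11] : Fin 12 → F → V14 F → V14 F) r t u

lemma yv_aut (r : Fin 12) (t : F) (x z : O8 F) : yv r t (zornMul x z) = zornMul (yv r t x) (yv r t z) := by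
  fin_cases r
  exacts [yv0_aut t x z, yv1_aut t x z, yv2_aut t x z, yv3_aut t x z, yv4_aut t x z, yv5_aut t x z, yv6_aut t x z, yv7_aut t x z, yv8_aut t x z, yv9_aut t x z, yv10_aut t x z, yv11_aut t x z]

lemma yv_add (r : Fin 12) (t : F) (x z : O8 F) : yv r t (x + z) = yv r t x + yv r t z := by
  fin_cases r
  exacts [yv0_add t x z, yv1_add t x z, yv2_add t x z, yv3_add t x z, yv4_add t x z, yv5_add t x z, yv6_add t x z, yv7_add t x z, yv8_add t x z, yv9_add t x z, yv10_add t x z, yv11_add t x z]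

lemma yv_smul (r : Fin 12) (t c : F) (x : O8 F) : yv r t (c • x) = c • yv r t x := by
  fin_cases r
  exacts [yv0_smul t c x, yv1_smul t c x, yv2_smul t c x, yv3_smul t c x, yv4_smul t c x, yv5_smul t c x, yv6_smul t c x, yv7_smul t c x, yv8_smul t c x, yv9_smul t c x, yv10_smul t c x, yv11_smul t c x]

lemma yv_comp (r : Fin 12) (s t : F) (x : O8 F) : yv r s (yv r t x) = yv r (s + t) x := by
  fin_cases r
  exacts [yv0_comp s t x, yv1_comp s t x, yv2_comp s t x, yv3_comp s t x, yv4_comp s t x, yv5_comp s t x, yv6_comp s t x, yv7_comp s t x, yv8_comp s t x, yv9_comp s t x, yv10_comp s t x, yv11_comp s t x]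

lemma yv_zero (r : Fin 12) (x : O8 F) : yv r (0 : F) x = x := by
  fin_cases r
  exacts [yv0_zero x, yv1_zero x, yv2_zero x, yv3_zero x, yv4_zero x, yv5_zero x, yv6_zero x, yv7_zero x, yv8_zero x, yv9_zero x, yv10_zero x, yv11_zero x]

lemma yv_eqv (r : Fin 12) (t : F) (u : V14 F) (v : O8 F) : yv r t (dV u v) = dV (xv r t u) (yv r t v) := by
  fin_cases r
  exacts [yv0_eqv t u v, yv1_eqv t u v, yv2_eqv t u v, yv3_eqv t u v, yv4_eqv t u v, yv5_eqv t u v, yv6_eqv t u v, yv7_eqv t u v, yv8_eqv t u v, yv9_eqv t u v, yv10_eqv t u v, yv11_eqv t u v]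

lemma x_mulVec' (r : Fin 12) (t : F) (u : V14 F) : chevG2.xMat F r t *ᵥ u = xv r t u := by
  have key : ∀ (r : Fin 12), chevG2.x F r.1 t *ᵥ u = xv r t u := by
    intro r
    fin_cases r
    exacts [x0_mulVec t u, x1_mulVec t u, x2_mulVec t u, x3_mulVec t u, x4_mulVec t u, x5_mulVec t u, x6_mulVec t u, x7_mulVec t u, x8_mulVec t u, x9_mulVec t u, x10_mulVec t u, x11_mulVec t u]
  have h := key r
  have hx : chevG2.x F r.1 t = chevG2.xMat F r t := by
    simp [ChevalleyDatum.x, show r.1 < chevG2.nroots from r.2]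
    rfl
  rw [hx] at h
  exact h

/-- The root element as a linear map. -/
def yL (r : Fin 12) (t : F) : O8 F →ₗ[F] O8 F where
  toFun := yv r t
  map_add' := yv_add r t
  map_smul' c x := yv_smul r t c x

/-- The root element as a group element. -/
noncomputable def yU (r : Fin 12) (t : F) : GL (Fin 8) F :=
  ofLin (yL r t) (yL r (-t))
    (fun v => by
      show yv r t (yv r (-t) v) = v
      rw [yv_comp, add_neg_cancel, yv_zero])
    (fun v => by
      show yv r (-t) (yv r t v) = v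
      rw [yv_comp, neg_add_cancel, yv_zero])

@[simp] lemma gv_yU (r : Fin 12) (t : F) (v : O8 F) : gv (yU r t) v = yv r t v := by
  simp only [yU, gv_ofLin]
  rfl

lemma yU_mem (r : Fin 12) (t : F) : yU r t ∈ G2 F := by
  rw [mem_G2]
  intro x y
  simp only [gv_yU, yv_aut]

lemma yU_add (r : Fin 12) (s t : F) : yU r (s + t) = yU r s * yU r t := by
  apply gv_ext
  intro v
  simp only [gv_mul, gv_yU, yv_comp]

lemma yU_zero (r : Fin 12) : yU r (0 : F) = 1 := by
  apply gv_ext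
  intro v
  simp only [gv_yU, yv_zero, gv_one]

lemma yU_inv (r : Fin 12) (t : F) : (yU r t)⁻¹ = yU r (-t) := by
  rw [inv_eq_iff_mul_eq_one, ← yU_add, add_neg_cancel, yU_zero]

/-- The group generated by the root elements. -/
def YG (F : Type*) [Field F] : Subgroup (GL (Fin 8) F) :=
  Subgroup.closure (Set.range fun p : Fin 12 × F => yU p.1 p.2)

lemma yU_mem_YG (r : Fin 12) (t : F) : yU r t ∈ YG F :=
  Subgroup.subset_closure ⟨(r, t), rfl⟩

lemma YG_le : YG F ≤ G2 F := by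
  rw [YG, Subgroup.closure_le]
  rintro _ ⟨p, rfl⟩
  exact yU_mem p.1 p.2

/-- The intertwining relation. -/
def Rel (g : GL chevG2.Idx F) (y : GL (Fin 8) F) : Prop :=
  y ∈ G2 F ∧ ∀ u v, gv y (dV u v) = dV ((g : Matrix chevG2.Idx chevG2.Idx F) *ᵥ u) (gv y v)

lemma Rel.one : Rel (1 : GL chevG2.Idx F) (1 : GL (Fin 8) F) := by
  refine ⟨one_mem _, fun u v => ?_⟩
  simp

lemma Rel.mul {g g' : GL chevG2.Idx F} {y y' : GL (Fin 8) F} (h : Rel g y) (h' : Rel g' y') :
    Rel (g * g') (y * y') := by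
  refine ⟨mul_mem h.1 h'.1, fun u v => ?_⟩
  rw [gv_mul, h'.2, h.2, gv_mul, Units.val_mul, Matrix.mulVec_mulVec]

lemma Rel.inv {g : GL chevG2.Idx F} {y : GL (Fin 8) F} (h : Rel g y) : Rel g⁻¹ y⁻¹ := by
  refine ⟨inv_mem h.1, fun u v => ?_⟩
  apply gv_inj y
  rw [gv_gv_inv, h.2, gv_gv_inv, Matrix.mulVec_mulVec, ← Units.val_mul, mul_inv_cancel, Units.val_one,
    Matrix.one_mulVec]

lemma rel_gen (r : Fin 12) (t : F) (g : GL chevG2.Idx F)
    (hg : (g : Matrix chevG2.Idx chevG2.Idx F) = chevG2.xMat F r t) : Rel g (yU r t) := by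
  refine ⟨yU_mem r t, fun u v => ?_⟩
  rw [hg, gv_yU, gv_yU, yv_eqv, x_mulVec']

/-- The root element of the Chevalley group as a group element. -/
theorem exists_rel {g : GL chevG2.Idx F} (hg : g ∈ chevG2.group F) : ∃ y, Rel g y := by
  unfold ChevalleyDatum.group at hg
  induction hg using Subgroup.closure_induction with
  | mem x hx =>
    obtain ⟨r, t, hx⟩ := hx
    exact ⟨_, rel_gen r t x hx⟩
  | one => exact ⟨1, Rel.one⟩
  | mul a b _ _ ha hb =>
    obtain ⟨y, hy⟩ := ha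
    obtain ⟨y', hy'⟩ := hb
    exact ⟨_, hy.mul hy'⟩
  | inv a _ ha =>
    obtain ⟨y, hy⟩ := ha
    exact ⟨_, hy.inv⟩

/-- A unit vector of the Lie algebra. -/
def uR (r : Fin 12) : V14 F := mkV ![0, 0] (Pi.single r 1)

end Cfsg.Agent.Lib.G2Spec
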