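import Cfsg.Agent.Lib.G2Spec.Trans

/-!
# Automorphisms of order prime to the characteristic fix a nontrivial idempotent
-/

set_option autoImplicit false
set_option linter.unusedSectionVars false
set_option linter.unusedVariables false
set_option linter.unusedSimpArgs false
set_option maxRecDepth 100000

namespace Cfsg.Agent.Lib.G2Spec

open Cfsg Cfsg.Lie Cfsg.Agent.Lib.Chev Cfsg.Agent.Lib.SL3G250 Cfsg.Agent.Lib.ZornAlg Matrix Polynomial

variable {E : Type*} [Field E]

/-! ### Determinant one -/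

lemma yU_pow (r : Fin 12) (t : E) (n : ℕ) : (yU r t) ^ n = yU r ((n : E) * t) := by
  induction n with
  | zero => simp [yU_zero]
  | succ k ih =>
    rw [pow_succ, ih, ← yU_add]
    congr 1
    push_cast
    ring

lemma det_eq_one_of_char (p : ℕ) [hp : Fact p.Prime] [CharP E p] {g : GL (Fin 8) E} (hg : g ∈ G2 E) :
    (g : M8 E).det = 1 := by
  rw [G2_eq_YG] at hg
  have key : ∀ g ∈ YG E, (g : M8 E).det = 1 := by
    intro g hg
    unfold YG at hg
    induction hg using Subgroup.closure_induction with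
    | mem x hx =>
      obtain ⟨q, rfl⟩ := hx
      have h1 : (yU q.1 q.2) ^ p = 1 := by
        rw [yU_pow, CharP.cast_eq_zero, zero_mul, yU_zero]
      have h2 : ((yU q.1 q.2 : GL (Fin 8) E) : M8 E).det ^ p = 1 := by
        rw [← Matrix.det_pow, ← Units.val_pow_eq_pow_val, h1, Units.val_one, Matrix.det_one]
      have h3 : (((yU q.1 q.2 : GL (Fin 8) E) : M8 E).det - 1) ^ p = 0 := by
        rw [sub_pow_char, h2, one_pow, sub_self]
      exact sub_eq_zero.mp (pow_eq_zero_iff (hp.out.ne_zero) |>.mp h3)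
    | one => simp
    | mul a b _ _ ha hb => rw [Units.val_mul, Matrix.det_mul, ha, hb, one_mul]
    | inv a _ ha =>
      have h1 : (a⁻¹ : GL (Fin 8) E).val.det * (a : M8 E).det = 1 := by
        rw [← Matrix.det_mul, ← Units.val_mul, inv_mul_cancel, Units.val_one, Matrix.det_one]
      rw [ha, mul_one] at h1
      exact h1
  exact key g hg

/-! ### Averaging -/

section avg

variable (s : GL (Fin 8) E) (m : ℕ)

/-- The average over a cyclic group. -/
noncomputable def avg (x : O8 E) : O8 E := (m : E)⁻¹ • ∑ i ∈ Finset.range m, gv (s ^ i) x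

variable {s m}

lemma gv_sum (g : GL (Fin 8) E) {ι : Type*} (S : Finset ι) (f : ι → O8 E) :
    gv g (∑ i ∈ S, f i) = ∑ i ∈ S, gv g (f i) := by
  classical
  induction S using Finset.induction_on with
  | empty => simp [gv_zero]
  | insert a S ha ih => rw [Finset.sum_insert ha, Finset.sum_insert ha, gv_add, ih]

lemma avg_fixed (hm : s ^ m = 1) (x : O8 E) : gv s (avg s m x) = avg s m x := by
  unfold avg
  rw [gv_smul, gv_sum]
  congr 1
  have h1 : ∀ i, gv s (gv (s ^ i) x) = gv (s ^ (i + 1)) x := by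
    intro i
    rw [← gv_mul, pow_succ']
  simp only [h1]
  have h2 := Finset.sum_range_succ (fun i => gv (s ^ i) x) m
  have h3 := Finset.sum_range_succ' (fun i => gv (s ^ i) x) m
  rw [h3, hm, gv_one, pow_zero, gv_one] at h2
  exact add_right_cancel h2

lemma tr_sum {ι : Type*} (S : Finset ι) (f : ι → O8 E) : tr (∑ i ∈ S, f i) = ∑ i ∈ S, tr (f i) := by
  classical
  induction S using Finset.induction_on with
  | empty => simp [tr]
  | insert a S ha ih => rw [Finset.sum_insert ha, Finset.sum_insert ha, tr_add, ih]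

lemma tr_avg (hs : s ∈ G2 E) (hm0 : (m : E) ≠ 0) (x : O8 E) : tr (avg s m x) = tr x := by
  unfold avg
  rw [tr_smul, tr_sum]
  have h1 : ∀ i, tr (gv (s ^ i) x) = tr x := fun i => tr_gv' (pow_mem hs i) x
  simp only [h1, Finset.sum_const, Finset.card_range, nsmul_eq_mul]
  field_simp

lemma polar_add_right (u v w : O8 E) : zPolar u (v + w) = zPolar u v + zPolar u w := by
  simp [zPolar]
  ring

lemma polar_smul_right (u v : O8 E) (c : E) : zPolar u (c • v) = c * zPolar u v := by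
  simp [zPolar]
  ring

lemma polar_sum_right (u : O8 E) {ι : Type*} (S : Finset ι) (f : ι → O8 E) :
    zPolar u (∑ i ∈ S, f i) = ∑ i ∈ S, zPolar u (f i) := by
  classical
  induction S using Finset.induction_on with
  | empty => simp [zPolar]
  | insert a S ha ih => rw [Finset.sum_insert ha, Finset.sum_insert ha, polar_add_right, ih]

lemma polar_add_left (u v w : O8 E) : zPolar (u + v) w = zPolar u w + zPolar v w := by
  simp [zPolar]
  ring

lemma polar_sub_left (u v w : O8 E) : zPolar (u - v) w = zPolar u w - zPolar v w := by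
  simp [zPolar]
  ring

lemma polar_sub_right (u v w : O8 E) : zPolar u (v - w) = zPolar u v - zPolar u w := by
  simp [zPolar]
  ring

lemma polar_one_right (x : O8 E) : zPolar x zOne = tr x := by
  simp [zPolar, zOne, tr]

lemma polar_one_left (x : O8 E) : zPolar zOne x = tr x := by
  simp [zPolar, zOne, tr]
  ring

lemma polar_avg (hs : s ∈ G2 E) (hm0 : (m : E) ≠ 0) {w : O8 E} (hw : gv s w = w) (y : O8 E) :
    zPolar w (avg s m y) = zPolar w y := by
  unfold avg
  rw [polar_smul_right, polar_sum_right]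
  have hw' : ∀ i : ℕ, gv (s ^ i) w = w := by
    intro i
    induction i with
    | zero => simp
    | succ k ih => rw [pow_succ, gv_mul, hw, ih]
  have h1 : ∀ i, zPolar w (gv (s ^ i) y) = zPolar w y := by
    intro i
    have := polar_gv (pow_mem hs i) w y
    rwa [hw'] at this
  simp only [h1, Finset.sum_const, Finset.card_range, nsmul_eq_mul]
  field_simp

end avg

lemma nm_add_smul_one (x : O8 E) (r : E) : nm (x + r • zOne) = nm x + r * tr x + r ^ 2 := by
  simp [nm, tr, zOne]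
  ring

lemma nm_smul (c : E) (x : O8 E) : nm (c • x) = c ^ 2 * nm x := by
  simp [nm]
  ring

lemma tr_smul_one (r : E) : tr (r • (zOne : O8 E)) = 2 * r := by
  simp [tr, zOne]
  ring

lemma gv_fixed_comb {s : GL (Fin 8) E} (hs : s ∈ G2 E) {w : O8 E} (hw : gv s w = w) (a c : E) :
    gv s (c • w + a • zOne) = c • w + a • zOne := by
  rw [gv_add, gv_smul, gv_smul, hw, gv_zOne hs]

/-! ### Characteristic two -/

lemma exists_idem_char2 [IsAlgClosed E] (h2 : (2 : E) = 0) {s : GL (Fin 8) E} (hs : s ∈ G2 E) {m : ℕ} (hm : s ^ m = 1)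
    (hm0 : (m : E) ≠ 0) : ∃ e : O8 E, Idem e ∧ gv s e = e := by
  set v := avg s m (e0 : O8 E) with hv
  have hv1 : gv s v = v := avg_fixed hm _
  have hv2 : tr v = 1 := by rw [hv, tr_avg hs hm0, tr_e0]
  obtain ⟨r, hr⟩ : ∃ r : E, r ^ 2 - r + nm v = 0 := by
    have hd : (X ^ 2 - X + C (nm v) : E[X]).degree ≠ 0 := by
      have h3 : (X ^ 2 - X + C (nm v) : E[X]).natDegree = 2 := by compute_degree!
      intro h
      have h4 : (X ^ 2 - X + C (nm v) : E[X]).natDegree = 0 := by
        rw [Polynomial.natDegree, h]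
        rfl
      rw [h3] at h4
      exact absurd h4 (by norm_num)
    obtain ⟨r, hr⟩ := IsAlgClosed.exists_root _ hd
    refine ⟨r, ?_⟩
    simpa [IsRoot] using hr
  refine ⟨v + r • zOne, ⟨?_, ?_⟩, ?_⟩
  · rw [tr_add, hv2, tr_smul_one, h2]
    ring
  · rw [nm_add_smul_one, hv2]
    linear_combination hr + r * h2
  · rw [gv_add, gv_smul, hv1, gv_zOne hs]

/-! ### Odd characteristic -/

/-- The Gram matrix of the polar form. -/
def gramQ (E : Type*) [Field E] : M8 E :=
  !![0, 0, 0, 0, 0, 0, 0, 1;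
     0, 0, 0, 0, -1, 0, 0, 0;
     0, 0, 0, 0, 0, -1, 0, 0;
     0, 0, 0, 0, 0, 0, -1, 0;
     0, -1, 0, 0, 0, 0, 0, 0;
     0, 0, -1, 0, 0, 0, 0, 0;
     0, 0, 0, -1, 0, 0, 0, 0;
     1, 0, 0, 0, 0, 0, 0, 0]

lemma polar_eq (u v : O8 E) : zPolar u v = u ⬝ᵥ (gramQ E *ᵥ v) := by
  simp [zPolar, gramQ, dotProduct, Matrix.mulVec, Fin.sum_univ_succ]
  ring

lemma gramQ_sq : gramQ E * gramQ E = 1 := by
  ext i j
  fin_cases i <;> fin_cases j <;> simp [gramQ, Matrix.mul_apply, Fin.sum_univ_succ]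

lemma gramQ_det : (gramQ E).det ≠ 0 := by
  intro h
  have h1 := congrArg Matrix.det (gramQ_sq (E := E))
  rw [Matrix.det_mul, h, zero_mul, Matrix.det_one] at h1
  exact zero_ne_one h1

/-- The trace as a row. -/
def trRow (E : Type*) [Field E] : Fin 8 → E := ![1, 0, 0, 0, 0, 0, 0, 1]

lemma tr_eq_dot (x : O8 E) : tr x = trRow E ⬝ᵥ x := by
  simp [tr, trRow, dotProduct, Fin.sum_univ_succ]

/-- The projection on the unit. -/
noncomputable def projP (E : Type*) [Field E] : M8 E := (2 : E)⁻¹ • Matrix.vecMulVec zOne (trRow E)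

lemma projP_mulVec (x : O8 E) : projP E *ᵥ x = ((2 : E)⁻¹ * tr x) • zOne := by
  rw [projP, Matrix.smul_mulVec, Matrix.vecMulVec_mulVec, ← tr_eq_dot, mul_smul]
  congr 1
  funext i
  simp [mul_comm]

lemma m8_ext {A B : M8 E} (H : ∀ v, A *ᵥ v = B *ᵥ v) : A = B := by
  apply Matrix.ext
  intro i j
  have h1 := congrFun (H (Pi.single j 1)) i
  simpa using h1

lemma m8_dot_ext {A B : M8 E} (H : ∀ x y, x ⬝ᵥ (A *ᵥ y) = x ⬝ᵥ (B *ᵥ y)) : A = B := by
  apply m8_ext
  intro v
  funext i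
  have := H (Pi.single i 1) v
  simpa using this

lemma det_refl (h2 : (2 : E) ≠ 0) : (1 - (2 : E) • projP E).det = -1 := by
  have h1 : (2 : E) • projP E = Matrix.vecMulVec (zOne : O8 E) (trRow E) := by
    rw [projP, smul_smul, mul_inv_cancel₀ h2, one_smul]
  rw [h1]
  have h3 : (1 - Matrix.vecMulVec (zOne : O8 E) (trRow E)) =
      1 + (Matrix.of fun i (_ : Unit) => -(zOne : O8 E) i) * (Matrix.of fun (_ : Unit) j => trRow E j) := by
    ext i j
    simp [Matrix.mul_apply, Matrix.vecMulVec_apply, sub_eq_add_neg]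
  rw [h3, Matrix.det_one_add_mul_comm]
  simp [Matrix.mul_apply, trRow, zOne, Fin.sum_univ_succ]

/-- A fixed trace-zero vector in odd characteristic. -/
lemma exists_fixed_tr0 (h2 : (2 : E) ≠ 0) {s : GL (Fin 8) E} (hs : s ∈ G2 E) (hdet : (s : M8 E).det = 1) :
    ∃ x : O8 E, x ≠ 0 ∧ tr x = 0 ∧ gv s x = x := by
  set M : M8 E := (s : M8 E) with hM
  set P := projP E with hP
  set Q := gramQ E with hQ
  set M' : M8 E := M - 1 + P with hM'
  have hMv : ∀ v, M *ᵥ v = gv s v := fun v => rfl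
  have hPM : P * M = P := by
    apply m8_ext
    intro v
    rw [← Matrix.mulVec_mulVec, hP, projP_mulVec, projP_mulVec, hMv, tr_gv' hs]
  have hMP : M * P = P := by
    apply m8_ext
    intro v
    rw [← Matrix.mulVec_mulVec, hP, projP_mulVec, Matrix.mulVec_smul, hMv, gv_zOne hs]
  have hPP : P * P = P := by
    apply m8_ext
    intro v
    rw [← Matrix.mulVec_mulVec, hP, projP_mulVec (projP E *ᵥ v), projP_mulVec v, tr_smul, tr_zOne]
    congr 1
    field_simp
  have hPv : ∀ x y : O8 E, zPolar (P *ᵥ x) y = zPolar x (P *ᵥ y) := by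
    intro x y
    rw [hP, projP_mulVec, projP_mulVec]
    simp [zPolar, tr, zOne]
    ring
  have hkey : M'ᵀ * Q * M = Q * (1 - M + P) := by
    apply m8_dot_ext
    intro x y
    have e1 : x ⬝ᵥ ((M'ᵀ * Q * M) *ᵥ y) = zPolar (M' *ᵥ x) (M *ᵥ y) := by
      rw [polar_eq, ← Matrix.mulVec_mulVec, ← Matrix.mulVec_mulVec, Matrix.dotProduct_mulVec, Matrix.vecMul_transpose]
    have e2 : x ⬝ᵥ ((Q * (1 - M + P)) *ᵥ y) = zPolar x ((1 - M + P) *ᵥ y) := by
      rw [polar_eq, ← Matrix.mulVec_mulVec]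
    rw [e1, e2, hM']
    have e3 : (M - 1 + P) *ᵥ x = M *ᵥ x - x + P *ᵥ x := by
      rw [Matrix.add_mulVec, Matrix.sub_mulVec, Matrix.one_mulVec]
    have e4 : (1 - M + P) *ᵥ y = y - M *ᵥ y + P *ᵥ y := by
      rw [Matrix.add_mulVec, Matrix.sub_mulVec, Matrix.one_mulVec]
    rw [e3, e4]
    have b1 : zPolar (M *ᵥ x) (M *ᵥ y) = zPolar x y := polar_gv hs x y
    have b2 : zPolar (P *ᵥ x) (M *ᵥ y) = zPolar x (P *ᵥ y) := by
      rw [hPv, Matrix.mulVec_mulVec, hPM]
    simp only [polar_add_left, polar_sub_left, polar_add_right, polar_sub_right, b1, b2]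
  have hd1 : M'.det = (1 - M + P).det := by
    have h3 := congrArg Matrix.det hkey
    rw [Matrix.det_mul, Matrix.det_mul, Matrix.det_mul, Matrix.det_transpose, hdet, mul_one, mul_comm] at h3
    exact mul_left_cancel₀ gramQ_det h3
  have hR : M' * (1 - (2 : E) • P) = M - 1 - P := by
    rw [hM', Matrix.mul_sub, Matrix.mul_one, Matrix.mul_smul, Matrix.add_mul, Matrix.sub_mul, Matrix.one_mul, hMP, hPP]
    simp only [sub_self, zero_add]
    rw [two_smul]
    abel
  have hneg : 1 - M + P = -(M' * (1 - (2 : E) • P)) := by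
    rw [hR]
    abel
  have hd2 : M'.det = 0 := by
    rw [hneg, Matrix.det_neg, Matrix.det_mul, hP, det_refl h2] at hd1
    simp only [Fintype.card_fin] at hd1
    have h5 : (2 : E) * M'.det = 0 := by
      have h6 : ((-1 : E)) ^ 8 = 1 := by norm_num
      rw [h6] at hd1
      linear_combination hd1
    exact (mul_eq_zero.mp h5).resolve_left h2
  obtain ⟨x, hx0, hx⟩ := Matrix.exists_mulVec_eq_zero_iff.mpr hd2
  have e3 : M' *ᵥ x = M *ᵥ x - x + P *ᵥ x := by
    rw [hM', Matrix.add_mulVec, Matrix.sub_mulVec, Matrix.one_mulVec]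
  rw [e3, hP, projP_mulVec, hMv] at hx
  have htr : tr x = 0 := by
    have h3 := congrArg tr hx
    rw [tr_add, tr_sub, tr_gv' hs, tr_smul, tr_zOne] at h3
    have h4 : tr (0 : O8 E) = 0 := by simp [tr]
    rw [h4] at h3
    have h5 : (2 : E)⁻¹ * tr x * 2 = tr x := by field_simp
    rw [h5] at h3
    linear_combination h3
  refine ⟨x, hx0, htr, ?_⟩
  rw [htr, mul_zero, zero_smul, add_zero, sub_eq_zero] at hx
  exact hx

/-- A nonisotropic fixed trace-zero vector. -/
lemma exists_fixed_nonisotropic (h2 : (2 : E) ≠ 0) {s : GL (Fin 8) E} (hs : s ∈ G2 E) (hdet : (s : M8 E).det = 1)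
    {m : ℕ} (hm : s ^ m = 1) (hm0 : (m : E) ≠ 0) : ∃ w : O8 E, tr w = 0 ∧ nm w ≠ 0 ∧ gv s w = w := by
  obtain ⟨x, hx0, hxtr, hxs⟩ := exists_fixed_tr0 h2 hs hdet
  obtain ⟨y, hy⟩ : ∃ y : O8 E, zPolar x y ≠ 0 := by
    obtain ⟨i, hi⟩ : ∃ i, x i ≠ 0 := by
      by_contra hc
      push Not at hc
      exact hx0 (funext hc)
    refine ⟨gramQ E *ᵥ Pi.single i 1, ?_⟩
    rw [polar_eq, Matrix.mulVec_mulVec, gramQ_sq, Matrix.one_mulVec]
    simpa using hi
  set y' := avg s m y with hy'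
  have hy1 : gv s y' = y' := avg_fixed hm y
  have hy2 : zPolar x y' ≠ 0 := by rw [hy', polar_avg hs hm0 hxs]; exact hy
  set z := (1 : E) • y' + (-((2 : E)⁻¹ * tr y')) • (zOne : O8 E) with hz
  have hz1 : gv s z = z := gv_fixed_comb hs hy1 _ _
  have hz2 : tr z = 0 := by
    rw [hz, tr_add, tr_smul, tr_smul, tr_zOne]
    field_simp
    ring
  have hz3 : zPolar x z ≠ 0 := by
    have : zPolar x z = zPolar x y' := by
      rw [hz, polar_add_right, polar_smul_right, polar_smul_right, polar_one_right, hxtr]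
      ring
    rw [this]
    exact hy2
  have hpol : nm (x + z) = nm x + nm z + zPolar x z := by
    simp [nm, zPolar]
    ring
  by_cases h3 : nm x = 0
  · by_cases h4 : nm z = 0
    · refine ⟨x + z, by rw [tr_add, hxtr, hz2, add_zero], ?_, by rw [gv_add, hxs, hz1]⟩
      rw [hpol, h3, h4, zero_add, zero_add]
      exact hz3
    · exact ⟨z, hz2, h4, hz1⟩
  · exact ⟨x, hxtr, h3, hxs⟩

lemma exists_idem_odd [IsAlgClosed E] (h2 : (2 : E) ≠ 0) {s : GL (Fin 8) E} (hs : s ∈ G2 E) (hdet : (s : M8 E).det = 1)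
    {m : ℕ} (hm : s ^ m = 1) (hm0 : (m : E) ≠ 0) : ∃ e : O8 E, Idem e ∧ gv s e = e := by
  obtain ⟨w, hw1, hw2, hw3⟩ := exists_fixed_nonisotropic h2 hs hdet hm hm0
  obtain ⟨r, hr⟩ : ∃ r : E, r ^ 2 = - nm w := IsAlgClosed.exists_pow_nat_eq _ (by norm_num)
  have hr0 : r ≠ 0 := by
    rintro rfl
    apply hw2
    simpa using hr.symm
  refine ⟨((2 * r)⁻¹) • w + ((2 : E)⁻¹) • zOne, ⟨?_, ?_⟩, gv_fixed_comb hs hw3 _ _⟩
  · rw [tr_add, tr_smul, hw1, tr_smul, tr_zOne]
    field_simp
    ring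
  · rw [nm_add_smul_one, tr_smul, hw1, nm_smul]
    have h3 : nm w = - r ^ 2 := by rw [hr]; ring
    rw [h3]
    field_simp
    ring

/-- Automorphisms of finite order prime to the characteristic fix a nontrivial idempotent. -/
theorem exists_fixed_idem (p : ℕ) [hp : Fact p.Prime] [CharP E p] [IsAlgClosed E] {s : GL (Fin 8) E} (hs : s ∈ G2 E)
    {m : ℕ} (hm : s ^ m = 1) (hm0 : (m : E) ≠ 0) : ∃ e : O8 E, Idem e ∧ gv s e = e := by
  by_cases h2 : (2 : E) = 0
  · exact exists_idem_char2 h2 hs hm hm0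
  · exact exists_idem_odd h2 hs (det_eq_one_of_char p hs) hm hm0

end Cfsg.Agent.Lib.G2Spec
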