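import Mathlib

/-!
# Signed permutations and Frobenius: a computation in commutative groups
-/

set_option autoImplicit false
set_option linter.unusedSectionVars false
set_option linter.unusedVariables false

namespace Cfsg.Agent.Lib.G2Spec

variable {G : Type*} [CommGroup G]

/-- The relation `x^q = y^{±1}`. -/
def SS (q : ℕ) (x y : G) : Prop := x ^ q = y ∨ x ^ q = y⁻¹

lemma inv_eq_of_two {u v w : G} (h1 : u * w * v = 1) (h2 : u * w * v⁻¹ = 1) : v⁻¹ = v :=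
  mul_left_cancel (h2.trans h1.symm)

lemma inv_eq_of_two' {u v w : G} (h1 : u * w * v = 1) (h2 : (u * w)⁻¹ * v = 1) : v⁻¹ = v := by
  have h3 : u * w = v⁻¹ := eq_inv_of_mul_eq_one_left h1
  rw [h3, inv_inv] at h2
  exact inv_eq_of_mul_eq_one_right h2

/-- Mixed signs can be made uniform. -/
lemma uniform {q : ℕ} {x1 x2 x3 y1 y2 y3 : G} (hx : x1 * x2 * x3 = 1) (hy : y1 * y2 * y3 = 1)
    (h1 : SS q x1 y1) (h2 : SS q x2 y2) (h3 : SS q x3 y3) :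
    (x1 ^ q = y1 ∧ x2 ^ q = y2 ∧ x3 ^ q = y3) ∨ (x1 ^ q = y1⁻¹ ∧ x2 ^ q = y2⁻¹ ∧ x3 ^ q = y3⁻¹) := by
  have hp : x1 ^ q * x2 ^ q * x3 ^ q = 1 := by rw [← mul_pow, ← mul_pow, hx, one_pow]
  have hy1 : y2 * y3 * y1 = 1 := by rw [← hy]; ac_rfl
  have hy2 : y1 * y3 * y2 = 1 := by rw [← hy]; ac_rfl
  have hy3 : y1 * y2 * y3 = 1 := hy
  rcases h1 with h1 | h1 <;> rcases h2 with h2 | h2 <;> rcases h3 with h3 | h3 <;> rw [h1, h2, h3] at hp
  · exact Or.inl ⟨h1, h2, h3⟩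
  · have e : y3⁻¹ = y3 := inv_eq_of_two hy3 hp
    exact Or.inl ⟨h1, h2, h3.trans e⟩
  · have e : y2⁻¹ = y2 := inv_eq_of_two hy2 (by rw [← hp]; ac_rfl)
    exact Or.inl ⟨h1, h2.trans e, h3⟩
  · have e : y1⁻¹ = y1 := inv_eq_of_two' hy1 (by rw [← hp, mul_inv]; ac_rfl)
    exact Or.inr ⟨h1.trans e.symm, h2, h3⟩
  · have e : y1⁻¹ = y1 := inv_eq_of_two hy1 (by rw [← hp]; ac_rfl)
    exact Or.inl ⟨h1.trans e, h2, h3⟩
  · have e : y2⁻¹ = y2 := inv_eq_of_two' hy2 (by rw [← hp, mul_inv]; ac_rfl)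
    exact Or.inr ⟨h1, h2.trans e.symm, h3⟩
  · have e : y3⁻¹ = y3 := inv_eq_of_two' hy3 (by rw [← hp, mul_inv])
    exact Or.inr ⟨h1, h2, h3.trans e.symm⟩
  · exact Or.inr ⟨h1, h2, h3⟩

lemma ss_fix {q : ℕ} {a b c : G} (h : a * b * c = 1) (h1 : SS q a a) (h2 : SS q b b) (h3 : SS q c c) (hq : 1 ≤ q) :
    (a ^ (q - 1) = 1 ∧ b ^ (q - 1) = 1 ∧ c ^ (q - 1) = 1) ∨ (a ^ (q + 1) = 1 ∧ b ^ (q + 1) = 1 ∧ c ^ (q + 1) = 1) := by
  have key1 : ∀ x : G, x ^ q = x → x ^ (q - 1) = 1 := by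
    intro x hx
    have e : x ^ (q - 1) * x = x ^ q := by
      rw [← pow_succ]
      congr 1
      omega
    exact mul_eq_right.mp (e.trans hx)
  have key2 : ∀ x : G, x ^ q = x⁻¹ → x ^ (q + 1) = 1 := by
    intro x hx
    rw [pow_succ, hx, inv_mul_cancel]
  rcases uniform h h h1 h2 h3 with ⟨e1, e2, e3⟩ | ⟨e1, e2, e3⟩
  · exact Or.inl ⟨key1 _ e1, key1 _ e2, key1 _ e3⟩
  · exact Or.inr ⟨key2 _ e1, key2 _ e2, key2 _ e3⟩

/-- The three shapes of exponents. -/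
def Good (q : ℕ) (a b c : G) : Prop :=
  (a ^ (q ^ 2 - 1) = 1 ∧ b ^ (q ^ 2 - 1) = 1 ∧ c ^ (q ^ 2 - 1) = 1) ∨
  (a ^ (q ^ 2 + q + 1) = 1 ∧ b ^ (q ^ 2 + q + 1) = 1 ∧ c ^ (q ^ 2 + q + 1) = 1) ∨
  (a ^ (q ^ 2 - q + 1) = 1 ∧ b ^ (q ^ 2 - q + 1) = 1 ∧ c ^ (q ^ 2 - q + 1) = 1)

lemma good_of_sq {q : ℕ} (hq : 1 ≤ q) {a b c : G} (h1 : a ^ (q ^ 2) = a) (h2 : b ^ (q ^ 2) = b) (h3 : c ^ (q ^ 2) = c) :
    Good q a b c := by
  have key : ∀ x : G, x ^ (q ^ 2) = x → x ^ (q ^ 2 - 1) = 1 := by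
    intro x hx
    have hq2 : 1 ≤ q ^ 2 := Nat.one_le_pow _ _ (by omega)
    have e : x ^ (q ^ 2 - 1) * x = x ^ (q ^ 2) := by
      rw [← pow_succ]
      congr 1
      omega
    exact mul_eq_right.mp (e.trans hx)
  exact Or.inl ⟨key _ h1, key _ h2, key _ h3⟩

lemma good_cycle {q : ℕ} (hq : 1 ≤ q) {a b c : G} (h : a * b * c = 1) (h1 : SS q a b) (h2 : SS q b c) (h3 : SS q c a) :
    Good q a b c := by
  have hy : b * c * a = 1 := by rw [← h]; ac_rfl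
  rcases uniform h hy h1 h2 h3 with ⟨e1, e2, e3⟩ | ⟨e1, e2, e3⟩
  · right; left
    have eb : b = a ^ q := e1.symm
    have ec : c = a ^ (q ^ 2) := by rw [← e2, ← e1, ← pow_mul, sq]
    have hpow : a ^ (q ^ 2 + q + 1) = 1 := by
      rw [pow_succ, pow_add, ← ec, ← eb, mul_comm (c) b, ← h]
      ac_rfl
    refine ⟨hpow, ?_, ?_⟩
    · rw [eb, ← pow_mul, mul_comm, pow_mul, hpow, one_pow]
    · rw [ec, ← pow_mul, mul_comm, pow_mul, hpow, one_pow]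
  · right; right
    have eb : b = (a ^ q)⁻¹ := by rw [e1, inv_inv]
    have ec : c = a ^ (q ^ 2) := by
      have : (a ^ q) ^ q = (b⁻¹) ^ q := by rw [e1]
      rw [← pow_mul, inv_pow, e2, inv_inv, ← sq] at this
      exact this.symm
    have hq2 : q ≤ q ^ 2 := by nlinarith
    have hpow : a ^ (q ^ 2 - q + 1) = 1 := by
      have e : a ^ (q ^ 2 - q + 1) * a ^ q = a ^ (q ^ 2) * a := by
        rw [← pow_add, ← pow_succ]
        congr 1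
        omega
      have e2' : a ^ (q ^ 2) * a = a ^ q := by
        rw [← ec]
        have : a * b * c = 1 := h
        rw [eb] at this
        have h5 : a * c * (a ^ q)⁻¹ = 1 := by rw [← this]; ac_rfl
        have h6 := mul_inv_eq_one.mp h5
        rw [mul_comm]
        exact h6
      exact mul_eq_right.mp (e.trans e2')
    refine ⟨hpow, ?_, ?_⟩
    · rw [eb, inv_pow, ← pow_mul, mul_comm, pow_mul, hpow, one_pow, inv_one]
    · rw [ec, ← pow_mul, mul_comm, pow_mul, hpow, one_pow]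

lemma good_trans {q : ℕ} (hq : 1 ≤ q) {a b c : G} (h : a * b * c = 1) (h1 : SS q a b) (h2 : SS q b a) (h3 : SS q c c) :
    Good q a b c := by
  have hy : b * a * c = 1 := by rw [← h]; ac_rfl
  have hcc : c ^ (q ^ 2) = c := by
    rw [sq, pow_mul]
    rcases h3 with e | e
    · rw [e, e]
    · rw [e, inv_pow, e, inv_inv]
  rcases uniform h hy h1 h2 h3 with ⟨e1, e2, e3⟩ | ⟨e1, e2, e3⟩
  · apply good_of_sq hq
    · rw [sq, pow_mul, e1, e2]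
    · rw [sq, pow_mul, e2, e1]
    · exact hcc
  · apply good_of_sq hq
    · rw [sq, pow_mul, e1, inv_pow, e2, inv_inv]
    · rw [sq, pow_mul, e2, inv_pow, e1, inv_inv]
    · exact hcc

lemma good_id {q : ℕ} (hq : 1 ≤ q) {a b c : G} (h1 : SS q a a) (h2 : SS q b b) (h3 : SS q c c) : Good q a b c := by
  have key : ∀ x : G, SS q x x → x ^ (q ^ 2) = x := by
    intro x hx
    rw [sq, pow_mul]
    rcases hx with e | e
    · rw [e, e]
    · rw [e, inv_pow, e, inv_inv]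
  exact good_of_sq hq (key _ h1) (key _ h2) (key _ h3)

lemma Good.perm12 {q : ℕ} {a b c : G} (h : Good q a b c) : Good q b a c := by
  rcases h with ⟨e1, e2, e3⟩ | ⟨e1, e2, e3⟩ | ⟨e1, e2, e3⟩
  · exact Or.inl ⟨e2, e1, e3⟩
  · exact Or.inr (Or.inl ⟨e2, e1, e3⟩)
  · exact Or.inr (Or.inr ⟨e2, e1, e3⟩)

lemma Good.perm23 {q : ℕ} {a b c : G} (h : Good q a b c) : Good q a c b := by
  rcases h with ⟨e1, e2, e3⟩ | ⟨e1, e2, e3⟩ | ⟨e1, e2, e3⟩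
  · exact Or.inl ⟨e1, e3, e2⟩
  · exact Or.inr (Or.inl ⟨e1, e3, e2⟩)
  · exact Or.inr (Or.inr ⟨e1, e3, e2⟩)

/-- All six shapes. -/
theorem good_of_signed {q : ℕ} (hq : 1 ≤ q) {a b c : G} (h : a * b * c = 1)
    (H : (SS q a a ∧ SS q b b ∧ SS q c c) ∨ (SS q a a ∧ SS q b c ∧ SS q c b) ∨ (SS q a b ∧ SS q b a ∧ SS q c c) ∨
      (SS q a b ∧ SS q b c ∧ SS q c a) ∨ (SS q a c ∧ SS q b a ∧ SS q c b) ∨ (SS q a c ∧ SS q b b ∧ SS q c a)) :
    Good q a b c := by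
  rcases H with ⟨h1, h2, h3⟩ | ⟨h1, h2, h3⟩ | ⟨h1, h2, h3⟩ | ⟨h1, h2, h3⟩ | ⟨h1, h2, h3⟩ | ⟨h1, h2, h3⟩
  · exact good_id hq h1 h2 h3
  · -- transposition of `b`, `c`
    have := good_trans hq (a := b) (b := c) (c := a) (by rw [← h]; ac_rfl) h2 h3 h1
    rcases this with ⟨e1, e2, e3⟩ | ⟨e1, e2, e3⟩ | ⟨e1, e2, e3⟩
    · exact Or.inl ⟨e3, e1, e2⟩
    · exact Or.inr (Or.inl ⟨e3, e1, e2⟩)
    · exact Or.inr (Or.inr ⟨e3, e1, e2⟩)
  · exact good_trans hq h h1 h2 h3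
  · exact good_cycle hq h h1 h2 h3
  · -- the other cycle
    have := good_cycle hq (a := a) (b := c) (c := b) (by rw [← h]; ac_rfl) h1 h3 h2
    exact this.perm23
  · -- transposition of `a`, `c`
    have := good_trans hq (a := a) (b := c) (c := b) (by rw [← h]; ac_rfl) h1 h3 h2
    exact this.perm23

end Cfsg.Agent.Lib.G2Spec
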