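import Cfsg.Agent.Lib.G2Spec.Torus
import Cfsg.Agent.Lib.G2Spec.Group3

/-!
# Extension of scalars and the Frobenius action on eigenvalues
-/

set_option autoImplicit false
set_option linter.unusedSectionVars false
set_option linter.unusedVariables false
set_option linter.unusedSimpArgs false
set_option maxRecDepth 100000

namespace Cfsg.Agent.Lib.G2Spec

open Cfsg Cfsg.Lie Cfsg.Agent.Lib.ZornAlg Matrix Polynomial Module

section ext

variable {F E : Type*} [Field F] [Field E] (ι : F →+* E)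

/-- Extension of scalars. -/
noncomputable def gE (g : GL (Fin 8) F) : GL (Fin 8) E := Matrix.GeneralLinearGroup.map ι g

lemma gE_coe (g : GL (Fin 8) F) : ((gE ι g : GL (Fin 8) E) : M8 E) = (g : M8 F).map ι := rfl

lemma gE_mul (g h : GL (Fin 8) F) : gE ι (g * h) = gE ι g * gE ι h := map_mul _ _ _

lemma gE_one : gE ι (1 : GL (Fin 8) F) = 1 := map_one _

lemma gE_pow (g : GL (Fin 8) F) (n : ℕ) : gE ι (g ^ n) = gE ι g ^ n := map_pow _ _ _

lemma gE_inj {g h : GL (Fin 8) F} (H : gE ι g = gE ι h) : g = h := by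
  apply Units.ext
  apply Matrix.ext
  intro i j
  have h1 := congrArg (fun X : GL (Fin 8) E => (X : M8 E) i j) H
  simp only [gE_coe, Matrix.map_apply] at h1
  exact ι.injective h1

lemma zorn_map (x y : O8 F) : ι ∘ zornMul x y = zornMul (ι ∘ x) (ι ∘ y) := by
  apply ext8 <;> simp

lemma gE_mulVec (g : GL (Fin 8) F) (x : O8 F) : gv (gE ι g) (ι ∘ x) = ι ∘ gv g x := by
  funext i
  simp only [gv, gE_coe, Function.comp, Matrix.mulVec, dotProduct, Matrix.map_apply, map_sum, map_mul]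

/-- A bilinear product. -/
noncomputable def zL' : O8 E →ₗ[E] O8 E →ₗ[E] O8 E :=
  LinearMap.mk₂ E zornMul zornMul_add_left zornMul_smul_left zornMul_add_right zornMul_smul_right

lemma gE_mem {g : GL (Fin 8) F} (hg : g ∈ G2 F) : gE ι g ∈ G2 E := by
  rw [mem_G2]
  intro x y
  have key : (zL' (E := E)).compr₂ ((gE ι g : GL (Fin 8) E) : M8 E).mulVecLin =
      (zL' (E := E)).compl₁₂ ((gE ι g : GL (Fin 8) E) : M8 E).mulVecLin ((gE ι g : GL (Fin 8) E) : M8 E).mulVecLin := by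
    apply (Pi.basisFun E (Fin 8)).ext
    intro i
    apply (Pi.basisFun E (Fin 8)).ext
    intro j
    have e : ∀ k : Fin 8, (Pi.single k 1 : O8 E) = ι ∘ (Pi.single k 1 : O8 F) := by
      intro k
      funext l
      by_cases h : l = k
      · subst h; simp
      · simp [Pi.single_apply, h]
    have h1 := mem_G2.mp hg (Pi.single i 1) (Pi.single j 1)
    have h2 := congrArg (fun z => ι ∘ z) h1
    simp only [← gE_mulVec, zorn_map] at h2
    simp only [Pi.basisFun_apply, LinearMap.compr₂_apply, LinearMap.compl₁₂_apply, Matrix.mulVecLin_apply, zL', LinearMap.mk₂_apply]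
    rw [e i, e j]
    exact h2
  have := congrArg (fun f => f x y) key
  simpa [zL', gv] using this

lemma gE_charpoly (g : GL (Fin 8) F) : ((gE ι g : GL (Fin 8) E) : M8 E).charpoly = (g : M8 F).charpoly.map ι := by
  rw [gE_coe]
  exact Matrix.charpoly_map _ _

end ext

section mset

variable {α : Type*}

/-- Pairs in a multiset. -/
lemma pair_eq {x y x' y' : α} (h : (↑[x, y] : Multiset α) = ↑[x', y']) :
    (x = x' ∧ y = y') ∨ (x = y' ∧ y = x') := by
  have h1 : List.Perm [x, y] [x', y'] := Multiset.coe_eq_coe.mp h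
  rcases List.perm_pair.mp h1 with h2 | h2
  · left
    simpa using h2
  · right
    simpa using h2

/-- Triples in a multiset. -/
lemma triple_eq {x y z x' y' z' : α} (h : (↑[x, y, z] : Multiset α) = ↑[x', y', z']) :
    (x = x' ∧ y = y' ∧ z = z') ∨ (x = x' ∧ y = z' ∧ z = y') ∨ (x = y' ∧ y = x' ∧ z = z') ∨
    (x = y' ∧ y = z' ∧ z = x') ∨ (x = z' ∧ y = x' ∧ z = y') ∨ (x = z' ∧ y = y' ∧ z = x') := by
  have h1 : x ::ₘ (↑[y, z] : Multiset α) = x' ::ₘ ↑[y', z'] := h
  rcases (Multiset.cons_eq_cons.mp h1) with ⟨h2, h3⟩ | ⟨h2, cs, h3, h4⟩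
  · rcases pair_eq h3 with ⟨h5, h6⟩ | ⟨h5, h6⟩
    · exact Or.inl ⟨h2, h5, h6⟩
    · exact Or.inr (Or.inl ⟨h2, h5, h6⟩)
  · have hc : Multiset.card cs = 1 := by
      have := congrArg Multiset.card h3
      simp at this
      omega
    obtain ⟨w, rfl⟩ := Multiset.card_eq_one.mp hc
    have h5 : (↑[y, z] : Multiset α) = ↑[x', w] := h3
    have h6 : (↑[y', z'] : Multiset α) = ↑[x, w] := h4
    rcases pair_eq h5 with ⟨a1, a2⟩ | ⟨a1, a2⟩ <;> rcases pair_eq h6 with ⟨b1, b2⟩ | ⟨b1, b2⟩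
    · -- y = x', z = w, y' = x, z' = w
      exact Or.inr (Or.inr (Or.inl ⟨b1.symm, a1, a2.trans b2.symm⟩))
    · -- y = x', z = w, y' = w, z' = x
      exact Or.inr (Or.inr (Or.inr (Or.inr (Or.inl ⟨b2.symm, a1, a2.trans b1.symm⟩))))
    · -- y = w, z = x', y' = x, z' = w
      exact Or.inr (Or.inr (Or.inr (Or.inl ⟨b1.symm, a1.trans b2.symm, a2⟩)))
    · -- y = w, z = x', y' = w, z' = x
      exact Or.inr (Or.inr (Or.inr (Or.inr (Or.inr ⟨b2.symm, a1.trans b1.symm, a2⟩))))

end mset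

section frob

variable {E : Type*} [Field E]

/-- The trace-like function `x + x⁻¹`. -/
noncomputable def tf (x : E) : E := x + x⁻¹

lemma tf_inv (x : E) : tf x⁻¹ = tf x := by
  simp [tf, add_comm]

lemma tf_eq {x y : E} (hx : x ≠ 0) (hy : y ≠ 0) (h : tf x = tf y) : x = y ∨ x = y⁻¹ := by
  simp only [tf] at h
  have h1 : (x - y) * (x * y - 1) = 0 := by
    field_simp at h
    linear_combination h
  rcases mul_eq_zero.mp h1 with h2 | h2
  · exact Or.inl (sub_eq_zero.mp h2)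
  · right
    field_simp
    linear_combination h2

/-- The multiset of traces. -/
noncomputable def TT (a b c : Eˣ) : Multiset E := ↑[tf (a : E), tf (b : E), tf (c : E)]

/-- Stability under a map. -/
def TS (φ : E →+* E) (a b c : Eˣ) : Prop := (TT a b c).map φ = TT a b c

lemma TS.rot {φ : E →+* E} {a b c : Eˣ} (h : TS φ a b c) : TS φ b c a := by
  have e : TT b c a = TT a b c := by
    simp only [TT]
    apply Multiset.coe_eq_coe.mpr
    exact (List.Perm.cons _ (List.Perm.swap _ _ _)).trans (List.Perm.swap _ _ _)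
  rw [TS, e]
  exact h

lemma TS.swap {φ : E →+* E} {a b c : Eˣ} (h : TS φ a b c) : TS φ b a c := by
  have e : TT b a c = TT a b c := by
    simp only [TT]
    apply Multiset.coe_eq_coe.mpr
    exact List.Perm.swap _ _ _
  rw [TS, e]
  exact h

lemma tf_map (φ : E →+* E) (x : E) : φ (tf x) = tf (φ x) := by
  simp [tf, map_add, map_inv₀]

/-- The eigenvalue relation. -/
theorem TS_of_prod {φ : E →+* E} {a b c : Eˣ}
    (h : ∏ i, (X - C (φ (lam a b c i))) = ∏ i, (X - C (lam a b c i))) : TS φ a b c := by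
  classical
  have key : ∀ f : Fin 8 → E, (∏ i, (X - C (f i))).roots = ↑(List.ofFn f) := by
    intro f
    have e : ∏ i, (X - C (f i)) = ((↑(List.ofFn f) : Multiset E).map fun z => X - C z).prod := by
      rw [← Fin.univ_val_map, Multiset.map_map]
      rfl
    rw [e, Polynomial.roots_multiset_prod_X_sub_C]
  have h1 := congrArg Polynomial.roots h
  rw [key, key] at h1
  simp only [List.ofFn_succ, List.ofFn_zero] at h1
  set a' := ((a⁻¹ : Eˣ) : E) with ha'
  set b' := ((b⁻¹ : Eˣ) : E) with hb'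
  set c' := ((c⁻¹ : Eˣ) : E) with hc'
  have hl : ∀ k : Fin 8, lam a b c k = (![1, (a : E), b, c, a', b', c', 1] : Fin 8 → E) k := fun _ => rfl
  simp only [hl] at h1
  simp at h1
  have h2 : List.Perm [φ (a : E), φ (b : E), φ (c : E), φ a', φ b', φ c'] [(a : E), (b : E), (c : E), a', b', c'] :=
    (List.perm_append_right_iff [1]).mp h1
  have h3 := h2.map tf
  have ea : a' = (a : E)⁻¹ := Units.val_inv_eq_inv_val a
  have eb : b' = (b : E)⁻¹ := Units.val_inv_eq_inv_val b
  have ec : c' = (c : E)⁻¹ := Units.val_inv_eq_inv_val c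
  simp only [List.map_cons, List.map_nil, ea, eb, ec, map_inv₀, tf_inv] at h3
  set x := tf (φ (a : E)) with hx
  set y := tf (φ (b : E)) with hy
  set z := tf (φ (c : E)) with hz
  set x' := tf (a : E) with hx'
  set y' := tf (b : E) with hy'
  set z' := tf (c : E) with hz'
  have h4 : (↑[x, y, z] : Multiset E) + ↑[x, y, z] = ↑[x', y', z'] + ↑[x', y', z'] := by
    rw [Multiset.coe_add, Multiset.coe_add]
    exact Multiset.coe_eq_coe.mpr h3
  have h5 : (↑[x, y, z] : Multiset E) = ↑[x', y', z'] := by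
    ext w
    have := congrArg (Multiset.count w) h4
    rw [Multiset.count_add, Multiset.count_add] at this
    omega
  have h6 : TT a b c = (↑[x', y', z'] : Multiset E) := rfl
  rw [TS, h6]
  rw [← h5]
  rw [h5]
  simp only [Multiset.map_coe, List.map_cons, List.map_nil]
  rw [hx', hy', hz', tf_map, tf_map, tf_map, ← hx, ← hy, ← hz]
  exact h5

/-- From stability to signed permutations. -/
theorem signed_of_TS {q : ℕ} {φ : E →+* E} (hφ : ∀ x, φ x = x ^ q) {a b c : Eˣ} (h : TS φ a b c) :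
    (SS q a a ∧ SS q b b ∧ SS q c c) ∨ (SS q a a ∧ SS q b c ∧ SS q c b) ∨ (SS q a b ∧ SS q b a ∧ SS q c c) ∨
      (SS q a b ∧ SS q b c ∧ SS q c a) ∨ (SS q a c ∧ SS q b a ∧ SS q c b) ∨ (SS q a c ∧ SS q b b ∧ SS q c a) := by
  have key : ∀ x y : Eˣ, φ (tf (x : E)) = tf (y : E) → SS q x y := by
    intro x y hxy
    rw [tf_map, hφ] at hxy
    have h1 : (x : E) ^ q ≠ 0 := pow_ne_zero _ x.ne_zero
    rcases tf_eq h1 y.ne_zero hxy with h2 | h2
    · left
      apply Units.ext
      simpa using h2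
    · right
      apply Units.ext
      simpa using h2
  have h1 : (↑[φ (tf (a : E)), φ (tf (b : E)), φ (tf (c : E))] : Multiset E) = ↑[tf (a : E), tf (b : E), tf (c : E)] := h
  rcases triple_eq h1 with ⟨e1, e2, e3⟩ | ⟨e1, e2, e3⟩ | ⟨e1, e2, e3⟩ | ⟨e1, e2, e3⟩ | ⟨e1, e2, e3⟩ | ⟨e1, e2, e3⟩
  · exact Or.inl ⟨key _ _ e1, key _ _ e2, key _ _ e3⟩
  · exact Or.inr (Or.inl ⟨key _ _ e1, key _ _ e2, key _ _ e3⟩)
  · exact Or.inr (Or.inr (Or.inl ⟨key _ _ e1, key _ _ e2, key _ _ e3⟩))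
  · exact Or.inr (Or.inr (Or.inr (Or.inl ⟨key _ _ e1, key _ _ e2, key _ _ e3⟩)))
  · exact Or.inr (Or.inr (Or.inr (Or.inr (Or.inl ⟨key _ _ e1, key _ _ e2, key _ _ e3⟩))))
  · exact Or.inr (Or.inr (Or.inr (Or.inr (Or.inr ⟨key _ _ e1, key _ _ e2, key _ _ e3⟩))))

/-- The consequence of two traces being equal. -/
theorem fix_of_pair {q : ℕ} {φ : E →+* E} (hφ : ∀ x, φ x = x ^ q) {a b c : Eˣ} (h : TS φ a b c)
    (hab : tf (a : E) = tf (b : E)) : SS q a a ∧ SS q b b ∧ SS q c c := by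
  have key : ∀ x y : Eˣ, φ (tf (x : E)) = tf (y : E) → SS q x y := by
    intro x y hxy
    rw [tf_map, hφ] at hxy
    have h1 : (x : E) ^ q ≠ 0 := pow_ne_zero _ x.ne_zero
    rcases tf_eq h1 y.ne_zero hxy with h2 | h2
    · left
      apply Units.ext
      simpa using h2
    · right
      apply Units.ext
      simpa using h2
  have h1 : (↑[φ (tf (a : E)), φ (tf (b : E)), φ (tf (c : E))] : Multiset E) = ↑[tf (a : E), tf (b : E), tf (c : E)] := h
  rw [← hab] at h1
  have fa : φ (tf (a : E)) = tf (a : E) ∧ φ (tf (c : E)) = tf (c : E) := by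
    rcases triple_eq h1 with ⟨e1, e2, e3⟩ | ⟨e1, e2, e3⟩ | ⟨e1, e2, e3⟩ | ⟨e1, e2, e3⟩ | ⟨e1, e2, e3⟩ | ⟨e1, e2, e3⟩
    · exact ⟨e1, e3⟩
    · exact ⟨e1, e3.trans (e1.symm.trans e2)⟩
    · exact ⟨e1, e3⟩
    · exact ⟨e1, e3.trans (e1.symm.trans e2)⟩
    · exact ⟨e2, e3.trans (e2.symm.trans e1)⟩
    · exact ⟨e2, e3.trans (e2.symm.trans e1)⟩
  have fb : φ (tf (b : E)) = tf (b : E) := by rw [← hab]; exact fa.1
  exact ⟨key _ _ fa.1, key _ _ fb, key _ _ fa.2⟩

/-- A general statement on a polynomial over a subfield. -/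
theorem TS_of_charpoly {F : Type*} [Field F] (ι : F →+* E) {φ : E →+* E} (hφ : ∀ y, φ (ι y) = ι y)
    {A : M8 F} {a b c : Eˣ} (hA : (A.charpoly).map ι = ∏ i, (X - C (lam a b c i))) : TS φ a b c := by
  apply TS_of_prod (φ := φ)
  have h1 : (A.charpoly.map ι).map φ = A.charpoly.map ι := by
    rw [Polynomial.map_map]
    congr 1
    ext y
    exact hφ y
  rw [hA] at h1
  rw [Polynomial.map_prod] at h1
  simpa using h1

end frob

end Cfsg.Agent.Lib.G2Spec
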