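import Cfsg.Agent.Lib.G2Spec.Trans

/-!
# The Chevalley group `G₂` and the automorphism group of the Zorn algebra have the same element orders
-/

set_option autoImplicit false
set_option linter.unusedSectionVars false
set_option linter.unusedVariables false
set_option linter.unusedSimpArgs false

namespace Cfsg.Agent.Lib.G2Spec

open Cfsg Cfsg.Lie Cfsg.Agent.Lib.ZornAlg Matrix

variable {F : Type*} [Field F]

lemma Rel.pow {g : GL chevG2.Idx F} {y : GL (Fin 8) F} (h : Rel g y) (n : ℕ) : Rel (g ^ n) (y ^ n) := by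
  induction n with
  | zero => simpa using Rel.one
  | succ n ih => rw [pow_succ, pow_succ]; exact ih.mul h

lemma rel_pow_iff {g : GL chevG2.Idx F} {y : GL (Fin 8) F} (h : Rel g y) (n : ℕ) : g ^ n = 1 ↔ y ^ n = 1 := by
  constructor
  · intro e
    have h1 := h.pow n
    rw [e] at h1
    exact rel_y_unique h1 Rel.one
  · intro e
    have h1 := h.pow n
    rw [e] at h1
    exact rel_g_unique h1 Rel.one

lemma rel_orderOf {g : GL chevG2.Idx F} {y : GL (Fin 8) F} (h : Rel g y) : orderOf g = orderOf y := by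
  apply Nat.dvd_antisymm
  · rw [orderOf_dvd_iff_pow_eq_one, rel_pow_iff h]
    exact pow_orderOf_eq_one y
  · rw [orderOf_dvd_iff_pow_eq_one, ← rel_pow_iff h]
    exact pow_orderOf_eq_one g

/-- Element orders agree. -/
theorem range_orderOf_eq :
    Set.range (orderOf : ↥(chevG2.group F) → ℕ) = Set.range (orderOf : ↥(G2 F) → ℕ) := by
  ext n
  constructor
  · rintro ⟨⟨g, hg⟩, rfl⟩
    obtain ⟨y, hy⟩ := exists_rel hg
    refine ⟨⟨y, hy.1⟩, ?_⟩
    rw [Subgroup.orderOf_mk, Subgroup.orderOf_mk]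
    exact (rel_orderOf hy).symm
  · rintro ⟨⟨y, hy⟩, rfl⟩
    obtain ⟨g, hg, hr⟩ := exists_rel_of_G2 hy
    refine ⟨⟨g, hg⟩, ?_⟩
    rw [Subgroup.orderOf_mk, Subgroup.orderOf_mk]
    exact rel_orderOf hr

end Cfsg.Agent.Lib.G2Spec
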