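import Cfsg.Agent.Lib.G2Spec.Tw

/-!
# Unipotent elements of small exponent, over the prime field
-/

set_option autoImplicit false
set_option linter.unusedSectionVars false
set_option linter.unusedVariables false
set_option linter.unusedSimpArgs false
set_option maxRecDepth 100000

namespace Cfsg.Agent.Lib.G2Spec

open Cfsg Cfsg.Lie Cfsg.Agent.Lib.ZornAlg Matrix

/-- Same powers, same order. -/
lemma order_eq_of_iff {G H : Type*} [Monoid G] [Monoid H] {x : G} {y : H} (h : ∀ n : ℕ, x ^ n = 1 ↔ y ^ n = 1) :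
    orderOf x = orderOf y := by
  apply Nat.dvd_antisymm
  · rw [orderOf_dvd_iff_pow_eq_one, h]
    exact pow_orderOf_eq_one y
  · rw [orderOf_dvd_iff_pow_eq_one, ← h]
    exact pow_orderOf_eq_one x

section word

variable {F : Type*} [Field F]

lemma gl_eq_one_of_basis {g : GL (Fin 8) F} (h : ∀ i, gv g (Pi.single i 1) = Pi.single i 1) : g = 1 := by
  apply Units.ext
  ext j i
  have h1 := congrFun (h i) j
  have h2 : gv g (Pi.single i 1) j = (g : M8 F) j i := by
    simp [gv, Matrix.mulVec_single_one]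
  rw [h2] at h1
  rw [h1]
  simp [Matrix.one_apply, Pi.single_apply, eq_comm]

lemma gv_pow_iter (g : GL (Fin 8) F) (n : ℕ) (v : O8 F) : gv (g ^ n) v = (gv g)^[n] v := by
  induction n generalizing v with
  | zero => simp
  | succ n ih => rw [gv_pow_comm, ih, Function.iterate_succ_apply]

lemma pow_ne_one_of {g : GL (Fin 8) F} {n : ℕ} {v : O8 F} (h : (gv g)^[n] v ≠ v) : g ^ n ≠ 1 := by
  intro e
  apply h
  rw [← gv_pow_iter, e]
  simp

lemma pow_eq_one_of {g : GL (Fin 8) F} {n : ℕ} (h : ∀ i, (gv g)^[n] (Pi.single i 1) = Pi.single i 1) : g ^ n = 1 := by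
  apply gl_eq_one_of_basis
  intro i
  rw [gv_pow_iter]
  exact h i

/-- The product of two root elements. -/
noncomputable def uu (F : Type*) [Field F] : GL (Fin 8) F := yU 2 1 * yU 10 1

lemma gv_uu (v : O8 F) : gv (uu F) v = yv 2 1 (yv 10 1 v) := by
  rw [uu, gv_mul, gv_yU, gv_yU]

lemma uu_mem : uu F ∈ G2 F := mul_mem (yU_mem _ _) (yU_mem _ _)

/-- The product of three root elements. -/
noncomputable def uw (F : Type*) [Field F] : GL (Fin 8) F := yU 0 1 * yU 2 1 * yU 9 1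

lemma gv_uw (v : O8 F) : gv (uw F) v = yv 0 1 (yv 2 1 (yv 9 1 v)) := by
  rw [uw, gv_mul, gv_mul, gv_yU, gv_yU, gv_yU]

lemma uw_mem : uw F ∈ G2 F := mul_mem (mul_mem (yU_mem _ _) (yU_mem _ _)) (yU_mem _ _)

end word

section small

instance fact5' : Fact (Nat.Prime 5) := ⟨by norm_num⟩

lemma uu3_pow : (uu (ZMod 3)) ^ 9 = 1 := by
  apply pow_eq_one_of
  have e : gv (uu (ZMod 3)) = fun v => yv 2 1 (yv 10 1 v) := funext gv_uu
  rw [e]
  decide +kernel

lemma uu3_ne : (uu (ZMod 3)) ^ 3 ≠ 1 := by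
  apply pow_ne_one_of (v := Pi.single 0 1)
  have e : gv (uu (ZMod 3)) = fun v => yv 2 1 (yv 10 1 v) := funext gv_uu
  rw [e]
  decide +kernel

lemma uu3_order : orderOf (uu (ZMod 3)) = 9 := by
  have := orderOf_eq_prime_pow (p := 3) (n := 1) (x := uu (ZMod 3)) (by simpa using uu3_ne) (by simpa using uu3_pow)
  simpa using this

lemma uu5_pow : (uu (ZMod 5)) ^ 25 = 1 := by
  apply pow_eq_one_of
  have e : gv (uu (ZMod 5)) = fun v => yv 2 1 (yv 10 1 v) := funext gv_uu
  rw [e]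
  decide +kernel

lemma uu5_ne : (uu (ZMod 5)) ^ 5 ≠ 1 := by
  apply pow_ne_one_of (v := Pi.single 2 1)
  have e : gv (uu (ZMod 5)) = fun v => yv 2 1 (yv 10 1 v) := funext gv_uu
  rw [e]
  decide +kernel

lemma uu5_order : orderOf (uu (ZMod 5)) = 25 := by
  have := orderOf_eq_prime_pow (p := 5) (n := 1) (x := uu (ZMod 5)) (by simpa using uu5_ne) (by simpa using uu5_pow)
  simpa using this

lemma uu2_pow : (uu (ZMod 2)) ^ 8 = 1 := by
  apply pow_eq_one_of
  have e : gv (uu (ZMod 2)) = fun v => yv 2 1 (yv 10 1 v) := funext gv_uu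
  rw [e]
  decide +kernel

lemma uu2_ne : (uu (ZMod 2)) ^ 4 ≠ 1 := by
  apply pow_ne_one_of (v := Pi.single 2 1)
  have e : gv (uu (ZMod 2)) = fun v => yv 2 1 (yv 10 1 v) := funext gv_uu
  rw [e]
  decide +kernel

lemma uu2_order : orderOf (uu (ZMod 2)) = 8 := by
  have := orderOf_eq_prime_pow (p := 2) (n := 2) (x := uu (ZMod 2)) (by simpa using uu2_ne) (by simpa using uu2_pow)
  simpa using this

lemma uw2_pow : (uw (ZMod 2)) ^ 12 = 1 := by
  apply pow_eq_one_of
  have e : gv (uw (ZMod 2)) = fun v => yv 0 1 (yv 2 1 (yv 9 1 v)) := funext gv_uw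
  rw [e]
  decide +kernel

lemma uw2_ne6 : (uw (ZMod 2)) ^ 6 ≠ 1 := by
  apply pow_ne_one_of (v := Pi.single 2 1)
  have e : gv (uw (ZMod 2)) = fun v => yv 0 1 (yv 2 1 (yv 9 1 v)) := funext gv_uw
  rw [e]
  decide +kernel

lemma uw2_ne4 : (uw (ZMod 2)) ^ 4 ≠ 1 := by
  apply pow_ne_one_of (v := Pi.single 0 1)
  have e : gv (uw (ZMod 2)) = fun v => yv 0 1 (yv 2 1 (yv 9 1 v)) := funext gv_uw
  rw [e]
  decide +kernel

lemma uw2_order : orderOf (uw (ZMod 2)) = 12 := by
  apply orderOf_eq_of_pow_and_pow_div_prime (by norm_num) uw2_pow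
  intro r hr hd
  have h12 : r ∣ 2 ^ 2 * 3 := by simpa using hd
  rcases (Nat.Prime.dvd_mul hr).mp h12 with h | h
  · have : r = 2 := (Nat.prime_dvd_prime_iff_eq hr Nat.prime_two).mp (hr.dvd_of_dvd_pow h)
    subst this
    exact uw2_ne6
  · have : r = 3 := (Nat.prime_dvd_prime_iff_eq hr Nat.prime_three).mp h
    subst this
    exact uw2_ne4

end small

section embed

variable {F : Type*} [Field F] (p : ℕ) [hp : Fact p.Prime] [CharP F p]

lemma exists_of_prime_field {u : GL (Fin 8) (ZMod p)} (hu : u ∈ G2 (ZMod p)) :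
    ∃ y ∈ G2 F, orderOf y = orderOf u := by
  let ι : ZMod p →+* F := ZMod.castHom (dvd_refl p) F
  refine ⟨gE ι u, gE_mem ι hu, order_eq_of_iff fun n => ?_⟩
  rw [← gE_pow]
  constructor
  · intro h
    apply gE_inj ι
    rw [h, gE_one]
  · intro h
    rw [h, gE_one]

theorem exists_order9 (h : p = 3) : ∃ y ∈ G2 F, orderOf y = 9 := by
  subst h
  obtain ⟨y, hy, e⟩ := exists_of_prime_field (F := F) 3 (uu_mem (F := ZMod 3))
  exact ⟨y, hy, e.trans uu3_order⟩

theorem exists_order25 (h : p = 5) : ∃ y ∈ G2 F, orderOf y = 25 := by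
  subst h
  obtain ⟨y, hy, e⟩ := exists_of_prime_field (F := F) 5 (uu_mem (F := ZMod 5))
  exact ⟨y, hy, e.trans uu5_order⟩

theorem exists_order8 (h : p = 2) : ∃ y ∈ G2 F, orderOf y = 8 := by
  subst h
  obtain ⟨y, hy, e⟩ := exists_of_prime_field (F := F) 2 (uu_mem (F := ZMod 2))
  exact ⟨y, hy, e.trans uu2_order⟩

theorem exists_order12 (h : p = 2) : ∃ y ∈ G2 F, orderOf y = 12 := by
  subst h
  obtain ⟨y, hy, e⟩ := exists_of_prime_field (F := F) 2 (uw_mem (F := ZMod 2))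
  exact ⟨y, hy, e.trans uw2_order⟩

end embed

end Cfsg.Agent.Lib.G2Spec
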