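import Cfsg.Agent.Lib.G2Spec.Lower1

/-!
# Elements from `SL₃`: the regular representation, the blocks and the commuting short root element
-/

set_option autoImplicit false
set_option linter.unusedSectionVars false
set_option linter.unusedVariables false
set_option linter.unusedSimpArgs false
set_option maxRecDepth 100000

namespace Cfsg.Agent.Lib.G2Spec

open Cfsg Cfsg.Lie Cfsg.Agent.Lib.ZornAlg Matrix Module

section reg

variable {F K : Type*} [Field F] [Field K] [Algebra F K] [FiniteDimensional F K]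

lemma exists_reg {d : ℕ} (hd : finrank F K = d) (z : Kˣ) :
    ∃ B : GL (Fin d) F, (B : Matrix (Fin d) (Fin d) F).det = Algebra.norm F (z : K) ∧ ∀ n : ℕ, B ^ n = 1 ↔ z ^ n = 1 := by
  let b := Module.finBasisOfFinrankEq F K hd
  let f : Kˣ →* GL (Fin d) F := Units.map (Algebra.leftMulMatrix b).toRingHom.toMonoidHom
  have hf : Function.Injective f := by
    intro x y h
    apply Units.ext
    have h1 : (f x : Matrix (Fin d) (Fin d) F) = f y := congrArg _ h
    exact Algebra.leftMulMatrix_injective b h1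
  refine ⟨f z, ?_, fun n => ?_⟩
  · exact (Algebra.norm_eq_matrix_det b (z : K)).symm
  · rw [← map_pow]
    constructor
    · intro h
      apply hf
      rw [h, map_one]
    · intro h
      rw [h, map_one]

end reg

section jj

variable {F : Type*} [Field F]

/-- A block. -/
noncomputable def jj (B : GL (Fin 2) F) : SL3 F :=
  ⟨!![((B : Matrix (Fin 2) (Fin 2) F).det)⁻¹, 0, 0; 0, (B : Matrix (Fin 2) (Fin 2) F) 0 0, (B : Matrix (Fin 2) (Fin 2) F) 0 1;
    0, (B : Matrix (Fin 2) (Fin 2) F) 1 0, (B : Matrix (Fin 2) (Fin 2) F) 1 1], by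
    have h : (B : Matrix (Fin 2) (Fin 2) F).det ≠ 0 := by
      have := B.isUnit.map (Matrix.detMonoidHom)
      exact this.ne_zero
    rw [Matrix.det_fin_three]
    simp only [Matrix.of_apply, Matrix.cons_val', Matrix.cons_val_zero, Matrix.cons_val_one,
      Matrix.cons_val, Matrix.empty_val', Matrix.cons_val_fin_one]
    rw [Matrix.det_fin_two] at h ⊢
    field_simp
    ring⟩

lemma coe_jj (B : GL (Fin 2) F) : ((jj B : SL3 F) : M3 F) =
  !![((B : Matrix (Fin 2) (Fin 2) F).det)⁻¹, 0, 0; 0, (B : Matrix (Fin 2) (Fin 2) F) 0 0, (B : Matrix (Fin 2) (Fin 2) F) 0 1;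
    0, (B : Matrix (Fin 2) (Fin 2) F) 1 0, (B : Matrix (Fin 2) (Fin 2) F) 1 1] := rfl

lemma jj_mul (B C : GL (Fin 2) F) : jj (B * C) = jj B * jj C := by
  apply Subtype.ext
  show ((jj (B * C) : SL3 F) : M3 F) = ((jj B : SL3 F) : M3 F) * ((jj C : SL3 F) : M3 F)
  rw [coe_jj, coe_jj, coe_jj]
  have e : ((B * C : GL (Fin 2) F) : Matrix (Fin 2) (Fin 2) F) = (B : Matrix (Fin 2) (Fin 2) F) * (C : Matrix (Fin 2) (Fin 2) F) := rfl
  rw [e, Matrix.det_mul]
  ext i j
  fin_cases i <;> fin_cases j <;> simp [Matrix.mul_apply, Fin.sum_univ_three, Fin.sum_univ_two, mul_comm]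

lemma jj_one : jj (1 : GL (Fin 2) F) = 1 := by
  apply Subtype.ext
  show ((jj (1 : GL (Fin 2) F) : SL3 F) : M3 F) = 1
  rw [coe_jj]
  ext i j
  fin_cases i <;> fin_cases j <;> simp

/-- The block homomorphism. -/
noncomputable def jjHom (F : Type*) [Field F] : GL (Fin 2) F →* SL3 F where
  toFun := jj
  map_one' := jj_one
  map_mul' := jj_mul

lemma jj_inj {B C : GL (Fin 2) F} (h : jj B = jj C) : B = C := by
  apply Units.ext
  have h1 : ((jj B : SL3 F) : M3 F) = ((jj C : SL3 F) : M3 F) := congrArg _ h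
  rw [coe_jj, coe_jj] at h1
  ext i j
  have := congrFun (congrFun h1 i.succ) j.succ
  fin_cases i <;> fin_cases j <;> simpa using this

/-- Power relation through the embedding. -/
lemma iota_jj_pow (B : GL (Fin 2) F) (n : ℕ) : (iota (jj B)) ^ n = 1 ↔ B ^ n = 1 := by
  have e : iota (jj B) ^ n = iota (jj (B ^ n)) := by
    rw [← iota_pow]
    congr 1
    exact (map_pow (jjHom F) B n).symm
  rw [e]
  constructor
  · intro h
    apply jj_inj
    apply iota_inj
    rw [h, jj_one, iota_one]
  · intro h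
    rw [h, jj_one, iota_one]

/-- The block commutes with a short root element if it has determinant one. -/
lemma iota_jj_comm {B : GL (Fin 2) F} (hB : (B : Matrix (Fin 2) (Fin 2) F).det = 1) (t : F) :
    iota (jj B) * yU 7 t = yU 7 t * iota (jj B) := by
  have hdet := hB
  rw [Matrix.det_fin_two] at hdet
  have e : bM (jj B) = !![1, 0, 0; 0, (B : Matrix (Fin 2) (Fin 2) F) 1 1, -(B : Matrix (Fin 2) (Fin 2) F) 1 0;
      0, -(B : Matrix (Fin 2) (Fin 2) F) 0 1, (B : Matrix (Fin 2) (Fin 2) F) 0 0] := by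
    simp only [bM]
    rw [Matrix.SpecialLinearGroup.coe_inv, coe_jj, hB, Matrix.adjugate_fin_three]
    ext i j
    fin_cases i <;> fin_cases j <;> simp [Matrix.det_fin_two, hdet]
  apply gv_ext
  intro v
  rw [gv_mul, gv_mul, gv_iota, gv_iota, gv_yU, gv_yU, e, coe_jj, hB]
  apply ext8 <;> simp [iotaV, yv, yv7] <;> ring

end jj

section tau

variable {F : Type*} [Field F] (p : ℕ) [hp : Fact p.Prime] [CharP F p]

lemma tau_order : orderOf (yU 7 (1 : F)) = p := by
  apply orderOf_eq_prime
  · rw [yU_pow]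
    simp [yU_zero]
  · intro h
    have h1 := gv_yU 7 (1 : F) ![0, 0, 0, 0, 1, 0, 0, 0]
    rw [h] at h1
    have h2 := congrFun h1 0
    simp [gv, yv, yv7] at h2

include p in
/-- The product with the short root element. -/
lemma exists_mul_tau {B : GL (Fin 2) F} (hB : (B : Matrix (Fin 2) (Fin 2) F).det = 1) (hc : Nat.Coprime (orderOf B) p) :
    ∃ y ∈ G2 F, orderOf y = orderOf B * p := by
  have e1 : orderOf (iota (jj B)) = orderOf B := order_eq_of_iff (iota_jj_pow B)
  refine ⟨iota (jj B) * yU 7 1, mul_mem (YG_le (iota_mem_YG _)) (yU_mem _ _), ?_⟩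
  have hcomm : Commute (iota (jj B)) (yU 7 (1 : F)) := iota_jj_comm hB 1
  rw [hcomm.orderOf_mul_eq_mul_orderOf_of_coprime (by rw [e1, tau_order p]; exact hc), e1, tau_order p]

end tau

end Cfsg.Agent.Lib.G2Spec
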