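import Cfsg.Agent.Lib.G2Spec.Lower2
import Cfsg.Agent.Lib.SUSpecRz
import Cfsg.Agent.Lib.SL2Torus

/-!
# Elements of the expected orders
-/

set_option autoImplicit false
set_option linter.unusedSectionVars false
set_option linter.unusedVariables false
set_option linter.unusedSimpArgs false
set_option maxRecDepth 100000

namespace Cfsg.Agent.Lib.G2Spec

open Cfsg Cfsg.Lie Cfsg.Agent.Lib.ZornAlg Matrix Module

section arith

lemma q2_fac {q : ℕ} (hq : 1 ≤ q) : q ^ 2 - 1 = (q + 1) * (q - 1) := by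
  obtain ⟨t, rfl⟩ : ∃ t, q = t + 1 := ⟨q - 1, by omega⟩
  simp only [Nat.add_sub_cancel]
  apply Nat.sub_eq_of_eq_add
  ring

lemma q3_fac {q : ℕ} (hq : 1 ≤ q) : q ^ 3 - 1 = (q ^ 2 + q + 1) * (q - 1) := by
  obtain ⟨t, rfl⟩ : ∃ t, q = t + 1 := ⟨q - 1, by omega⟩
  simp only [Nat.add_sub_cancel]
  apply Nat.sub_eq_of_eq_add
  ring

end arith

section core

variable {F K : Type*} [Field F] [Fintype F] [Field K] [Fintype K] [Algebra F K] {q : ℕ}

lemma norm_pow2 (hF : Fintype.card F = q) (hK : Fintype.card K = q ^ 2) (x : K) :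
    algebraMap F K (Algebra.norm F x) = x ^ (q + 1) := by
  have h1 := FiniteField.algebraMap_norm_eq_pow (K := F) (K' := K) (x := x)
  have hq : 2 ≤ q := hF ▸ Fintype.one_lt_card
  rw [Nat.card_eq_fintype_card, Nat.card_eq_fintype_card, hF, hK, q2_fac (by omega),
    Nat.mul_div_cancel _ (by omega)] at h1
  exact h1

lemma norm_pow3 (hF : Fintype.card F = q) (hK : Fintype.card K = q ^ 3) (x : K) :
    algebraMap F K (Algebra.norm F x) = x ^ (q ^ 2 + q + 1) := by
  have h1 := FiniteField.algebraMap_norm_eq_pow (K := F) (K' := K) (x := x)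
  have hq : 2 ≤ q := hF ▸ Fintype.one_lt_card
  rw [Nat.card_eq_fintype_card, Nat.card_eq_fintype_card, hF, hK, q3_fac (by omega),
    Nat.mul_div_cancel _ (by omega)] at h1
  exact h1

lemma exists_gen (K : Type*) [Field K] [Fintype K] : ∃ γ : Kˣ, orderOf γ = Fintype.card K - 1 := by
  classical
  obtain ⟨γ, hγ⟩ := IsCyclic.exists_ofOrder_eq_natCard (α := Kˣ)
  refine ⟨γ, ?_⟩
  rw [hγ, Nat.card_eq_fintype_card, Fintype.card_units]

/-- Order `q ^ 2 - 1`. -/
theorem exists_q2m1_core (hd : finrank F K = 2) (hF : Fintype.card F = q) (hK : Fintype.card K = q ^ 2) :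
    ∃ y ∈ G2 F, orderOf y = q ^ 2 - 1 := by
  obtain ⟨γ, hγ⟩ := exists_gen K
  obtain ⟨B, -, hB⟩ := exists_reg (F := F) hd γ
  refine ⟨iota (jj B), YG_le (iota_mem_YG _), ?_⟩
  rw [order_eq_of_iff (iota_jj_pow B), order_eq_of_iff hB, hγ, hK]

/-- Order `q + 1` in the block. -/
lemma exists_block_qp1 (hd : finrank F K = 2) (hF : Fintype.card F = q) (hK : Fintype.card K = q ^ 2) :
    ∃ B : GL (Fin 2) F, (B : Matrix (Fin 2) (Fin 2) F).det = 1 ∧ orderOf B = q + 1 := by
  have hq : 2 ≤ q := hF ▸ Fintype.one_lt_card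
  obtain ⟨γ, hγ⟩ := exists_gen K
  rw [hK, q2_fac (by omega)] at hγ
  have hz : orderOf (γ ^ (q - 1)) = q + 1 := by
    rw [orderOf_pow_of_dvd (by omega) (by rw [hγ]; exact dvd_mul_left _ _), hγ]
    exact Nat.mul_div_cancel _ (by omega)
  obtain ⟨B, hdet, hB⟩ := exists_reg (F := F) hd (γ ^ (q - 1))
  refine ⟨B, ?_, by rw [order_eq_of_iff hB, hz]⟩
  rw [hdet]
  apply (algebraMap F K).injective
  rw [norm_pow2 hF hK, map_one, ← Units.val_pow_eq_pow_val, ← hz, pow_orderOf_eq_one, Units.val_one]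

/-- Order `q ^ 2 + q + 1`. -/
theorem exists_q2q1_core (hd : finrank F K = 3) (hF : Fintype.card F = q) (hK : Fintype.card K = q ^ 3) :
    ∃ y ∈ G2 F, orderOf y = q ^ 2 + q + 1 := by
  have hq : 2 ≤ q := hF ▸ Fintype.one_lt_card
  obtain ⟨γ, hγ⟩ := exists_gen K
  rw [hK, q3_fac (by omega)] at hγ
  have hz : orderOf (γ ^ (q - 1)) = q ^ 2 + q + 1 := by
    rw [orderOf_pow_of_dvd (by omega) (by rw [hγ]; exact dvd_mul_left _ _), hγ]
    exact Nat.mul_div_cancel _ (by omega)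
  obtain ⟨B, hdet, hB⟩ := exists_reg (F := F) hd (γ ^ (q - 1))
  have hdet1 : (B : Matrix (Fin 3) (Fin 3) F).det = 1 := by
    rw [hdet]
    apply (algebraMap F K).injective
    rw [norm_pow3 hF hK, map_one, ← Units.val_pow_eq_pow_val, ← hz, pow_orderOf_eq_one, Units.val_one]
  let A : SL3 F := ⟨B, hdet1⟩
  refine ⟨iota A, YG_le (iota_mem_YG _), ?_⟩
  rw [← hz]
  apply order_eq_of_iff
  intro n
  rw [← hB]
  rw [← iota_pow]
  constructor
  · intro h
    have h1 : A ^ n = 1 := by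
      apply iota_inj
      rw [h, iota_one]
    apply Units.ext
    have h2 := coe_pow_sl (A := A) n
    rw [h1] at h2
    rw [Units.val_pow_eq_pow_val]
    exact h2.symm
  · intro h
    have h2 := coe_pow_sl (A := A) n
    have h1 : A ^ n = 1 := by
      apply Subtype.ext
      rw [h2]
      have := congrArg (fun X : GL (Fin 3) F => (X : M3 F)) h
      simpa using this
    rw [h1, iota_one]

/-- Order `q - 1` in the block. -/
lemma exists_block_qm1 (hF : Fintype.card F = q) :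
    ∃ B : GL (Fin 2) F, (B : Matrix (Fin 2) (Fin 2) F).det = 1 ∧ orderOf B = q - 1 := by
  obtain ⟨x, hx⟩ := exists_gen F
  rw [hF] at hx
  have hx0 : (x : F) ≠ 0 := x.ne_zero
  let B : GL (Fin 2) F := ⟨!![(x : F), 0; 0, (x : F)⁻¹], !![(x : F)⁻¹, 0; 0, (x : F)],
    by ext i j; fin_cases i <;> fin_cases j <;> simp [hx0],
    by ext i j; fin_cases i <;> fin_cases j <;> simp [hx0]⟩
  have hdiag : (B : Matrix (Fin 2) (Fin 2) F) = Matrix.diagonal ![(x : F), (x : F)⁻¹] := by
    ext i j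
    fin_cases i <;> fin_cases j <;> simp [B]
  refine ⟨B, ?_, ?_⟩
  · rw [hdiag]
    simp [Matrix.det_fin_two, hx0]
  · rw [← hx]
    apply order_eq_of_iff
    intro n
    constructor
    · intro h
      have h1 := congrArg (fun X : GL (Fin 2) F => (X : Matrix (Fin 2) (Fin 2) F) 0 0) h
      simp only [Units.val_pow_eq_pow_val, hdiag, Matrix.diagonal_pow] at h1
      apply Units.ext
      simpa using h1
    · intro h
      have h1 : (x : F) ^ n = 1 := by
        rw [← Units.val_pow_eq_pow_val, h, Units.val_one]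
      apply Units.ext
      rw [Units.val_pow_eq_pow_val, hdiag, Matrix.diagonal_pow, Units.val_one, ← Matrix.diagonal_one]
      congr 1
      funext i
      fin_cases i <;> simp [h1]

end core

section tw

open Cfsg.Agent.Lib.SUSpec Cfsg.Agent.Lib.UnitaryBasic

variable {F K : Type*} [Field F] [Fintype F] [Field K] [Fintype K] [Algebra F K] {q : ℕ}

lemma exists_not_fixed (hF : Fintype.card F = q) (hK : Fintype.card K = q ^ 2) (hq : 2 ≤ q) : ∃ ν : K, ν ^ q ≠ ν := by
  by_contra hall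
  push Not at hall
  have hs : Function.Surjective (algebraMap F K) := fun x => by
    obtain ⟨l, hl⟩ := Cfsg.Agent.Lib.SL2Torus.mem_range_of_pow_card (F := F) x (by rw [hF]; exact hall x)
    exact ⟨l, hl⟩
  have h1 := Fintype.card_le_of_surjective _ hs
  rw [hF, hK] at h1
  nlinarith

/-- Order `q ^ 2 - q + 1`. -/
theorem exists_tw_core (p : ℕ) [hp : Fact p.Prime] [CharP F p] (hpq : p ∣ q) (hF : Fintype.card F = q)
    (hK : Fintype.card K = q ^ 2) : ∃ y ∈ G2 F, orderOf y = q ^ 2 - q + 1 := by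
  classical
  have hq : 2 ≤ q := hF ▸ Fintype.one_lt_card
  haveI : CharP K p := charP_of_injective_algebraMap (algebraMap F K).injective p
  haveI : CharP (AlgebraicClosure K) p :=
    charP_of_injective_algebraMap (algebraMap K (AlgebraicClosure K)).injective p
  obtain ⟨n, hn⟩ : ∃ n, n = q ^ 2 - q + 1 := ⟨_, rfl⟩
  have hnq : n + q = q ^ 2 + 1 := by
    have : q ≤ q ^ 2 := by nlinarith
    omega
  have hn3 : q ^ 3 + 1 = n * (q + 1) := by
    have h1 : n * (q + 1) + q * (q + 1) = (q ^ 2 + 1) * (q + 1) := by rw [← hnq]; ring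
    have h2 : (q ^ 2 + 1) * (q + 1) = q ^ 3 + 1 + q * (q + 1) := by ring
    omega
  have hn0 : ((n : ℕ) : AlgebraicClosure K) ≠ 0 := by
    rw [Ne, CharP.cast_eq_zero_iff (AlgebraicClosure K) p n]
    intro h
    have h1 : p ∣ q ^ 2 - q := by
      apply Nat.dvd_sub
      · exact hpq.trans (dvd_pow_self q two_ne_zero)
      · exact hpq
    rw [hn] at h
    have h2 := (Nat.dvd_add_right h1).mp h
    exact hp.out.one_lt.ne' (Nat.dvd_one.mp h2)
  haveI : NeZero ((n : ℕ) : AlgebraicClosure K) := ⟨hn0⟩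
  obtain ⟨z, hz⟩ := HasEnoughRootsOfUnity.exists_primitiveRoot (AlgebraicClosure K) n
  have hn1 : n ≠ 0 := by omega
  have hz1 : z ^ n = 1 := hz.pow_eq_one
  have hz0 : z ≠ 0 := hz.ne_zero hn1
  have hz3 : (z ^ (q ^ 2)) ^ q * z = 1 := by
    rw [← pow_mul]
    have : q ^ 2 * q = q ^ 3 := by ring
    rw [this, ← pow_succ, hn3, pow_mul, hz1, one_pow]
  let M : Multiset (AlgebraicClosure K) := ↑[z, (z ^ q)⁻¹, z ^ (q ^ 2)]
  have hM : M.map (tw q) = M := by
    have e1 : tw q (z ^ q)⁻¹ = z ^ (q ^ 2) := by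
      simp only [tw_def, inv_pow, inv_inv]
      rw [← pow_mul, pow_two]
    have e2 : tw q (z ^ (q ^ 2)) = z := by
      simp only [tw_def]
      exact inv_eq_of_mul_eq_one_right hz3
    have e3 : tw q z = (z ^ q)⁻¹ := rfl
    show (↑(List.map (tw q) [z, (z ^ q)⁻¹, z ^ (q ^ 2)]) : Multiset (AlgebraicClosure K)) = ↑[z, (z ^ q)⁻¹, z ^ (q ^ 2)]
    simp only [List.map_cons, List.map_nil]
    rw [e1, e2, e3]
    apply Multiset.coe_eq_coe.mpr
    exact (List.Perm.cons _ (List.Perm.swap _ _ _)).trans (List.Perm.swap _ _ _)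
  have hM0 : ∀ w ∈ M, w ≠ 0 := by
    intro w hw
    have hw' : w = z ∨ w = (z ^ q)⁻¹ ∨ w = z ^ (q ^ 2) := by simpa [M] using hw
    rcases hw' with rfl | rfl | rfl
    · exact hz0
    · exact inv_ne_zero (pow_ne_zero _ hz0)
    · exact pow_ne_zero _ hz0
  have hR : Rz hK 3 M 1 := (Rz.realize hK M hM hM0).cast hK (by simp [M]) rfl rfl
  obtain ⟨-, y, hy1, hy2, hy3⟩ := hR
  have hdet : y.det = 1 := by
    apply (algebraMap K (AlgebraicClosure K)).injective
    rw [hy2, map_one]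
    have hprod : M.prod = z * ((z ^ q)⁻¹ * z ^ (q ^ 2)) := by simp [M]
    rw [hprod]
    have h1 : z * z ^ (q ^ 2) = z ^ q := by
      rw [← pow_succ', ← hnq, pow_add, hz1, one_mul]
    have h2 : z ^ q ≠ 0 := pow_ne_zero _ hz0
    field_simp
    rw [h1]
  let U : SL3 K := ⟨y, hdet⟩
  obtain ⟨ν, hν⟩ := exists_not_fixed hF hK hq
  obtain ⟨r, hr⟩ := FiniteField.norm_surjective F K (-1)
  have hr2 : r ^ (q + 1) = -1 := by
    rw [← norm_pow2 hF hK, hr, map_neg, map_one]
  obtain ⟨y₀, hy₀, hiff⟩ := exists_of_su (algebraMap F K) (σ := sigma hK) (sigma_sigma hK)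
    (fun x hx => Cfsg.Agent.Lib.SL2Torus.mem_range_of_pow_card (F := F) x (by rw [hF]; exact hx))
    (r := r) (ν := ν) (by rw [sigma_apply, ← pow_succ]; exact hr2) (by rw [sigma_apply]; exact hν) U hy1
  have hfin : orderOf y₀ ≠ 0 := (orderOf_pos_iff.mpr (isOfFinOrder_of_finite y₀)).ne'
  have hdvd : n ∣ orderOf y₀ := by
    have h1 : U ^ (orderOf y₀) = 1 := (hiff _).mp (pow_orderOf_eq_one y₀)
    have h2 : y ^ (orderOf y₀) = (1 : K) • 1 := by
      have h3 := coe_pow_sl (A := U) (orderOf y₀)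
      rw [h1] at h3
      rw [one_smul]
      exact h3.symm
    have h4 := (hy3 _ _ h2).1 z (by simp [M])
    rw [map_one] at h4
    exact hz.dvd_of_pow_eq_one _ h4
  refine ⟨y₀ ^ (orderOf y₀ / n), pow_mem hy₀ _, ?_⟩
  rw [orderOf_pow_orderOf_div hfin hdvd, hn]

end tw

section final

variable {F : Type*} [Field F] [Fintype F] (p k : ℕ) [hp : Fact p.Prime] [CharP F p]

include p in
lemma exists_ext (d : ℕ) (hd : d ≠ 0) (hF : Fintype.card F = p ^ k) :
    ∃ (K : Type) (_ : Field K) (_ : Fintype K) (_ : Algebra F K), finrank F K = d ∧ Fintype.card K = (p ^ k) ^ d := by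
  haveI : NeZero d := ⟨hd⟩
  letI inst : Fintype (FiniteField.Extension F p d) := Fintype.ofFinite _
  refine ⟨FiniteField.Extension F p d, inferInstance, inst, inferInstance, FiniteField.finrank_extension F p d, ?_⟩
  rw [← Nat.card_eq_fintype_card, FiniteField.natCard_extension, Nat.card_eq_fintype_card, hF]

theorem exists_q2m1 (hF : Fintype.card F = p ^ k) : ∃ y ∈ G2 F, orderOf y = (p ^ k) ^ 2 - 1 := by
  obtain ⟨K, _, _, _, h1, h2⟩ := exists_ext p k 2 two_ne_zero hF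
  exact exists_q2m1_core h1 hF h2

theorem exists_q2q1 (hF : Fintype.card F = p ^ k) : ∃ y ∈ G2 F, orderOf y = (p ^ k) ^ 2 + p ^ k + 1 := by
  obtain ⟨K, _, _, _, h1, h2⟩ := exists_ext p k 3 (by norm_num) hF
  exact exists_q2q1_core h1 hF h2

lemma k_ne_zero (hF : Fintype.card F = p ^ k) : k ≠ 0 := by
  rintro rfl
  have : 1 < Fintype.card F := Fintype.one_lt_card
  rw [hF] at this
  simp at this

theorem exists_tw (hF : Fintype.card F = p ^ k) : ∃ y ∈ G2 F, orderOf y = (p ^ k) ^ 2 - p ^ k + 1 := by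
  obtain ⟨K, _, _, _, h1, h2⟩ := exists_ext p k 2 two_ne_zero hF
  exact exists_tw_core p (dvd_pow_self p (k_ne_zero p k hF)) hF h2

theorem exists_pp (hF : Fintype.card F = p ^ k) : ∃ y ∈ G2 F, orderOf y = (p ^ k + 1) * p := by
  obtain ⟨K, _, _, _, h1, h2⟩ := exists_ext p k 2 two_ne_zero hF
  obtain ⟨B, hdet, hB⟩ := exists_block_qp1 h1 hF h2
  have hk := k_ne_zero p k hF
  have hc : Nat.Coprime (orderOf B) p := by
    rw [hB, Nat.coprime_comm, Nat.Prime.coprime_iff_not_dvd hp.out]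
    intro h
    have h3 := (Nat.dvd_add_right (dvd_pow_self p hk)).mp h
    exact hp.out.one_lt.ne' (Nat.dvd_one.mp h3)
  obtain ⟨y, hy, e⟩ := exists_mul_tau p hdet hc
  exact ⟨y, hy, by rw [e, hB]⟩

theorem exists_pm (hF : Fintype.card F = p ^ k) : ∃ y ∈ G2 F, orderOf y = (p ^ k - 1) * p := by
  obtain ⟨B, hdet, hB⟩ := exists_block_qm1 hF
  have hk := k_ne_zero p k hF
  have hq1 : 1 ≤ p ^ k := Nat.one_le_pow _ _ hp.out.pos
  have hc : Nat.Coprime (orderOf B) p := by
    rw [hB, Nat.coprime_comm, Nat.Prime.coprime_iff_not_dvd hp.out]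
    intro h
    have h3 : p ∣ p ^ k - (p ^ k - 1) := Nat.dvd_sub (dvd_pow_self p hk) h
    have h4 : p ^ k - (p ^ k - 1) = 1 := by omega
    rw [h4] at h3
    exact hp.out.one_lt.ne' (Nat.dvd_one.mp h3)
  obtain ⟨y, hy, e⟩ := exists_mul_tau p hdet hc
  exact ⟨y, hy, by rw [e, hB]⟩

end final

end Cfsg.Agent.Lib.G2Spec
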