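import Cfsg.Agent.Lib.G2Spec.Lower3
import Cfsg.Agent.Lib.G2Spec.Iso

/-!
# The spectrum of `G₂(q)`
-/

set_option autoImplicit false
set_option linter.unusedSectionVars false
set_option linter.unusedVariables false
set_option linter.unusedSimpArgs false
set_option maxRecDepth 100000

namespace Cfsg.Agent.Lib.G2Spec

open Cfsg Cfsg.Lie

section arith

variable {p q : ℕ}

lemma nd1 (hp : p.Prime) (hpq : p ∣ q) {X k : ℕ} (h : X = q * k + 1) : ¬ p ∣ X := by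
  intro hd
  rw [h] at hd
  have h1 := (Nat.dvd_add_right (hpq.trans (dvd_mul_right q k))).mp hd
  exact hp.one_lt.ne' (Nat.dvd_one.mp h1)

lemma nd2 (hp : p.Prime) (hpq : p ∣ q) {X k : ℕ} (h : X + 1 = q * k) : ¬ p ∣ X := by
  intro hd
  have h0 : p ∣ X + 1 := by
    rw [h]
    exact hpq.trans (dvd_mul_right q k)
  have h1 := (Nat.dvd_add_right hd).mp h0
  exact hp.one_lt.ne' (Nat.dvd_one.mp h1)

lemma cop_of (hp : p.Prime) {X : ℕ} (h : ¬ p ∣ X) : Nat.Coprime X p :=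
  ((Nat.Prime.coprime_iff_not_dvd hp).mpr h).symm

lemma not_dvd_sm {X Y : ℕ} (h0 : 0 < Y) (h : Y < X) : ¬ X ∣ Y := fun hd => absurd (Nat.le_of_dvd h0 hd) (by omega)

/-- The antichain property, in the variables. -/
theorem antichain (hp : p.Prime) (hpq : p ∣ q) (hq : 5 ≤ q) {A B C D E P : ℕ}
    (hA : A = p * (q + 1)) (hB : B = p * (q - 1)) (hC : C = q ^ 2 - 1) (hD : D = q ^ 2 + q + 1) (hE : E = q ^ 2 - q + 1)
    (hP : P = p ^ 2) :
    (¬ A ∣ B ∧ ¬ A ∣ C ∧ ¬ A ∣ D ∧ ¬ A ∣ E ∧ ¬ A ∣ P) ∧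
    (¬ B ∣ A ∧ ¬ B ∣ C ∧ ¬ B ∣ D ∧ ¬ B ∣ E ∧ ¬ B ∣ P) ∧
    (¬ C ∣ A ∧ ¬ C ∣ B ∧ ¬ C ∣ D ∧ ¬ C ∣ E ∧ ¬ C ∣ P) ∧
    (¬ D ∣ A ∧ ¬ D ∣ B ∧ ¬ D ∣ C ∧ ¬ D ∣ E ∧ ¬ D ∣ P) ∧
    (¬ E ∣ A ∧ ¬ E ∣ B ∧ ¬ E ∣ C ∧ ¬ E ∣ D ∧ ¬ E ∣ P) ∧
    (¬ P ∣ A ∧ ¬ P ∣ B ∧ ¬ P ∣ C ∧ ¬ P ∣ D ∧ ¬ P ∣ E) := by
  have hp0 : 0 < p := hp.pos
  have hple : p ≤ q := Nat.le_of_dvd (by omega) hpq
  obtain ⟨B', hB'⟩ : ∃ B', B' + 1 = q := ⟨q - 1, by omega⟩
  have hq1 : q - 1 = B' := by omega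
  rw [hq1] at hB
  have hCe : C + 1 = q * q := by
    have : 1 ≤ q ^ 2 := Nat.one_le_pow _ _ (by omega)
    rw [hC, pow_two] at *
    omega
  have hEe : E + q = q * q + 1 := by
    have : q ≤ q ^ 2 := by nlinarith
    rw [hE]
    rw [pow_two] at *
    omega
  have hDe : D = q * (q + 1) + 1 := by rw [hD]; ring
  have hC2 : C = (q + 1) * B' := by
    subst hB'
    have : C + 1 = (B' + 1 + 1) * B' + 1 := by rw [hCe]; ring
    omega
  have hE2 : E = q * B' + 1 := by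
    subst hB'
    have : E + (B' + 1) = (B' + 1) * B' + 1 + (B' + 1) := by rw [hEe]; ring
    omega
  have n1 : ¬ p ∣ q + 1 := nd1 hp hpq (k := 1) (by ring)
  have n2 : ¬ p ∣ B' := nd2 hp hpq (k := 1) (by rw [hB']; ring)
  have n3 : ¬ p ∣ C := nd2 hp hpq (k := q) hCe
  have n4 : ¬ p ∣ D := nd1 hp hpq hDe
  have n5 : ¬ p ∣ E := nd1 hp hpq hE2
  have sp : ∀ {X Y : ℕ}, p ∣ X → X ∣ Y → ¬ p ∣ Y → False := fun h1 h2 h3 => h3 (h1.trans h2)
  have pA : p ∣ A := by rw [hA]; exact dvd_mul_right _ _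
  have pB : p ∣ B := by rw [hB]; exact dvd_mul_right _ _
  have pP : p ∣ P := by rw [hP]; exact dvd_pow_self p two_ne_zero
  have hB2 : 5 ≤ B' + 1 := by omega
  have hB'pos : 0 < B' := by omega
  have hqpos : 0 < q + 1 := by omega
  have hm : 0 < p := hp0
  -- `B' ∣ p` is impossible
  have nB'p : ¬ B' ∣ p := by
    intro h
    rcases (Nat.dvd_prime hp).mp h with h1 | h1
    · omega
    · have : p ∣ 1 := by
        have h3 : p ∣ B' + 1 := by rw [hB']; exact hpq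
        exact (Nat.dvd_add_right (by rw [h1])).mp h3
      exact hp.one_lt.ne' (Nat.dvd_one.mp this)
  have nqp : ¬ (q + 1) ∣ p := not_dvd_sm hp0 (by omega)
  have hqq : 5 * q ≤ q * q := Nat.mul_le_mul_right q hq
  have hDe' : D = q * q + q + 1 := by rw [hDe]; ring
  have hDsize : q + 1 < D := by omega
  have hDsize' : B' < D := by omega
  have hEsize : q + 1 < E := by omega
  have hEsize' : B' < E := by omega
  have hCsize : C < D := by omega
  have hEDsize : E < D := by omega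
  have hECsize : E < C := by omega
  have hC1 : 1 < C := by omega
  have hD1 : 1 < D := by omega
  have hE1 : 1 < E := by omega
  have cP : ∀ {X : ℕ}, ¬ p ∣ X → 1 < X → ¬ X ∣ P := by
    intro X hX h1 hd
    have hc : Nat.Coprime X p := cop_of hp hX
    rw [hP] at hd
    have := Nat.Coprime.eq_one_of_dvd (Nat.Coprime.pow_right 2 hc) hd
    omega
  refine ⟨⟨?_, fun h => sp pA h n3, fun h => sp pA h n4, fun h => sp pA h n5, ?_⟩,
    ⟨?_, fun h => sp pB h n3, fun h => sp pB h n4, fun h => sp pB h n5, ?_⟩,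
    ⟨?_, ?_, ?_, ?_, cP n3 hC1⟩,
    ⟨?_, ?_, not_dvd_sm (by omega) hCsize, not_dvd_sm (by omega) hEDsize, cP n4 hD1⟩,
    ⟨?_, ?_, ?_, ?_, cP n5 hE1⟩,
    ⟨?_, ?_, ?_, ?_, ?_⟩⟩
  · -- A ∣ B
    rw [hA, hB]
    intro h
    have h1 := (Nat.mul_dvd_mul_iff_left hp0).mp h
    exact not_dvd_sm hB'pos (by omega) h1
  · -- A ∣ P
    rw [hA, hP, pow_two]
    intro h
    exact nqp ((Nat.mul_dvd_mul_iff_left hp0).mp h)
  · -- B ∣ A
    rw [hA, hB]
    intro h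
    have h1 := (Nat.mul_dvd_mul_iff_left hp0).mp h
    have h2 : B' ∣ 2 := by
      have h3 : B' ∣ B' + 2 := by
        have : q + 1 = B' + 2 := by omega
        rwa [this] at h1
      exact (Nat.dvd_add_right (dvd_refl B')).mp h3
    have := Nat.le_of_dvd (by norm_num) h2
    omega
  · -- B ∣ P
    rw [hB, hP, pow_two]
    intro h
    exact nB'p ((Nat.mul_dvd_mul_iff_left hp0).mp h)
  · -- C ∣ A
    rw [hA, hC2, mul_comm (q + 1) B']
    intro h
    exact nB'p ((Nat.mul_dvd_mul_iff_right hqpos).mp h)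
  · -- C ∣ B
    rw [hB, hC2]
    intro h
    exact nqp ((Nat.mul_dvd_mul_iff_right hB'pos).mp h)
  · -- C ∣ D
    intro h
    have h1 : C ∣ q + 2 := by
      have h2 : D = C + (q + 2) := by
        rw [hDe]
        have : q * (q + 1) + 1 + 1 = q * q + q + 2 := by ring
        omega
      rw [h2] at h
      exact (Nat.dvd_add_right (dvd_refl C)).mp h
    have h3 := Nat.le_of_dvd (by omega) h1
    omega
  · -- C ∣ E
    exact not_dvd_sm (by omega) hECsize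
  · -- D ∣ A
    rw [hA]
    intro h
    have h1 := Nat.Coprime.dvd_of_dvd_mul_left (cop_of hp n4) h
    exact not_dvd_sm hqpos hDsize h1
  · -- D ∣ B
    rw [hB]
    intro h
    have h1 := Nat.Coprime.dvd_of_dvd_mul_left (cop_of hp n4) h
    exact not_dvd_sm hB'pos hDsize' h1
  · -- E ∣ A
    rw [hA]
    intro h
    have h1 := Nat.Coprime.dvd_of_dvd_mul_left (cop_of hp n5) h
    exact not_dvd_sm hqpos hEsize h1
  · -- E ∣ B
    rw [hB]
    intro h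
    have h1 := Nat.Coprime.dvd_of_dvd_mul_left (cop_of hp n5) h
    exact not_dvd_sm hB'pos hEsize' h1
  · -- E ∣ C
    intro h
    have h1 : E ∣ q - 2 := by
      have h2 : C = E + (q - 2) := by
        have : C + 1 = q * q := hCe
        have : E + q = q * q + 1 := hEe
        omega
      rw [h2] at h
      exact (Nat.dvd_add_right (dvd_refl E)).mp h
    have h3 := Nat.le_of_dvd (by omega) h1
    omega
  · -- E ∣ D
    intro h
    have h1 : E ∣ 2 * q := by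
      have h2 : D = E + 2 * q := by
        rw [hDe]
        have : E + q = q * q + 1 := hEe
        have : q * (q + 1) + 1 = q * q + q + 1 := by ring
        omega
      rw [h2] at h
      exact (Nat.dvd_add_right (dvd_refl E)).mp h
    have hcq : Nat.Coprime E q := by
      rw [hE2]
      simp
    have h2 := Nat.Coprime.dvd_of_dvd_mul_right hcq h1
    have h3 := Nat.le_of_dvd (by norm_num) h2
    omega
  · -- P ∣ A
    rw [hA, hP, pow_two]
    intro h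
    exact n1 ((Nat.mul_dvd_mul_iff_left hp0).mp h)
  · -- P ∣ B
    rw [hB, hP, pow_two]
    intro h
    exact n2 ((Nat.mul_dvd_mul_iff_left hp0).mp h)
  · exact fun h => n3 (pP.trans h)
  · exact fun h => n4 (pP.trans h)
  · exact fun h => n5 (pP.trans h)

end arith

section orders

variable {F : Type*} [Field F]

lemma mem_range_iff {n : ℕ} : n ∈ Set.range (orderOf : ↥(chevG2.group F) → ℕ) ↔ ∃ y ∈ G2 F, orderOf y = n := by
  rw [range_orderOf_eq]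
  constructor
  · rintro ⟨⟨y, hy⟩, rfl⟩
    exact ⟨y, hy, (Subgroup.orderOf_mk y hy).symm⟩
  · rintro ⟨y, hy, rfl⟩
    exact ⟨⟨y, hy⟩, Subgroup.orderOf_mk y hy⟩

/-- General shape of the conclusion. -/
lemma maximal_eq {O L : Set ℕ} (hLO : L ⊆ O) (hOL : ∀ n ∈ O, ∃ l ∈ L, n ∣ l) (hanti : ∀ x ∈ L, ∀ y ∈ L, x ∣ y → y = x) :
    {n : ℕ | n ∈ O ∧ ∀ m ∈ O, n ∣ m → m = n} = L := by
  ext n
  constructor
  · rintro ⟨h1, h2⟩
    obtain ⟨l, hl, hd⟩ := hOL n h1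
    rw [← h2 l (hLO hl) hd]
    exact hl
  · intro hn
    refine ⟨hLO hn, fun m hm hd => ?_⟩
    obtain ⟨l, hl, hd2⟩ := hOL m hm
    have h1 := hanti n hn l hl (hd.trans hd2)
    rw [h1] at hd2
    exact Nat.dvd_antisymm hd2 hd

lemma maximal_sub {O L : Set ℕ} (hLO : L ⊆ O) (hOL : ∀ n ∈ O, ∃ l ∈ L, n ∣ l) :
    {n : ℕ | n ∈ O ∧ ∀ m ∈ O, n ∣ m → m = n} ⊆ L := by
  rintro n ⟨h1, h2⟩
  obtain ⟨l, hl, hd⟩ := hOL n h1
  rw [← h2 l (hLO hl) hd]
  exact hl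

end orders

section main

variable {F : Type*} [Field F] [Fintype F]

lemma charP_of_card {p a : ℕ} (hp : p.Prime) (ha : 1 ≤ a) (hF : Fintype.card F = p ^ a) : CharP F p := by
  obtain ⟨p', hp'⟩ := CharP.exists F
  haveI := hp'
  obtain ⟨n, hpp', hn⟩ := FiniteField.card F p'
  have h1 : p ∣ p' ^ (n : ℕ) := by
    rw [← hn, hF]
    exact dvd_pow_self p (by omega)
  have h2 := hp.dvd_of_dvd_pow h1
  have h3 := (Nat.prime_dvd_prime_iff_eq hp hpp').mp h2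
  rw [h3]
  exact hp'

theorem main_odd (p a : ℕ) (hp : p.Prime) (hp2 : p ≠ 2) (ha : 1 ≤ a) (hF : Fintype.card F = p ^ a)
    (hq5 : 5 ≤ Fintype.card F) :
    {n : ℕ | n ∈ Set.range (orderOf : ↥(Cfsg.Lie.chevG2.group F) → ℕ) ∧
        ∀ m ∈ Set.range (orderOf : ↥(Cfsg.Lie.chevG2.group F) → ℕ), n ∣ m → m = n} =
      ({p * (p ^ a + 1), p * (p ^ a - 1), p ^ (2 * a) - 1, p ^ (2 * a) + p ^ a + 1, p ^ (2 * a) - p ^ a + 1} : Set ℕ) ∪
        (if p = 3 ∨ p = 5 then ({p ^ 2} : Set ℕ) else ∅) := by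
  classical
  haveI : Fact p.Prime := ⟨hp⟩
  haveI : CharP F p := charP_of_card hp ha hF
  have e : p ^ (2 * a) = (p ^ a) ^ 2 := by rw [mul_comm, pow_mul]
  rw [e]
  have hpq : p ∣ p ^ a := dvd_pow_self _ (by omega)
  have hq : 5 ≤ p ^ a := hF ▸ hq5
  obtain ⟨h1, h2, h3, h4, h5, h6⟩ := antichain hp hpq hq rfl rfl rfl rfl rfl rfl
  apply maximal_eq
  · -- list elements occur
    rintro n (hn | hn)
    · simp only [Set.mem_insert_iff, Set.mem_singleton_iff] at hn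
      rw [mem_range_iff]
      rcases hn with rfl | rfl | rfl | rfl | rfl
      · rw [mul_comm]
        exact exists_pp p a hF
      · rw [mul_comm]
        exact exists_pm p a hF
      · exact exists_q2m1 p a hF
      · exact exists_q2q1 p a hF
      · exact exists_tw p a hF
    · split_ifs at hn with hc
      · rw [Set.mem_singleton_iff] at hn
        rw [mem_range_iff, hn]
        rcases hc with rfl | rfl
        · exact exists_order9 3 rfl
        · exact exists_order25 5 rfl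
      · exact absurd hn (Set.notMem_empty n)
  · intro n hn
    rw [mem_range_iff] at hn
    obtain ⟨y, hy, rfl⟩ := hn
    have hsl : ∀ x : ℕ, x ∈ ({p * (p ^ a + 1), p * (p ^ a - 1), (p ^ a) ^ 2 - 1, (p ^ a) ^ 2 + p ^ a + 1, (p ^ a) ^ 2 - p ^ a + 1} : Set ℕ) →
      x ∈ ({p * (p ^ a + 1), p * (p ^ a - 1), (p ^ a) ^ 2 - 1, (p ^ a) ^ 2 + p ^ a + 1, (p ^ a) ^ 2 - p ^ a + 1} : Set ℕ) ∪
        (if p = 3 ∨ p = 5 then ({p ^ 2} : Set ℕ) else ∅) := fun x hx => Or.inl hx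
    rcases upper p a hF hy with h | h | h | h | h | ⟨h0, h⟩ | ⟨h0, h⟩ | ⟨h0, h⟩ | ⟨h0, h⟩ | h
    · exact ⟨(p ^ a) ^ 2 - 1, hsl _ (by simp), h⟩
    · exact ⟨(p ^ a) ^ 2 + p ^ a + 1, hsl _ (by simp), h⟩
    · exact ⟨(p ^ a) ^ 2 - p ^ a + 1, hsl _ (by simp), h⟩
    · exact ⟨p * (p ^ a - 1), hsl _ (by simp), by rwa [mul_comm]⟩
    · exact ⟨p * (p ^ a + 1), hsl _ (by simp), by rwa [mul_comm]⟩
    · exact absurd h0 hp2
    · exact absurd h0 hp2
    · refine ⟨p ^ 2, Or.inr ?_, by rw [h0]; exact h⟩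
      rw [if_pos (Or.inl h0)]
      rfl
    · refine ⟨p ^ 2, Or.inr ?_, by rw [h0]; exact h⟩
      rw [if_pos (Or.inr h0)]
      rfl
    · exact ⟨p * (p ^ a + 1), hsl _ (by simp), h.trans (dvd_mul_right _ _)⟩
  · -- antichain
    have hL : ∀ x ∈ ({p * (p ^ a + 1), p * (p ^ a - 1), (p ^ a) ^ 2 - 1, (p ^ a) ^ 2 + p ^ a + 1, (p ^ a) ^ 2 - p ^ a + 1} : Set ℕ) ∪
        (if p = 3 ∨ p = 5 then ({p ^ 2} : Set ℕ) else ∅),
        x = p * (p ^ a + 1) ∨ x = p * (p ^ a - 1) ∨ x = (p ^ a) ^ 2 - 1 ∨ x = (p ^ a) ^ 2 + p ^ a + 1 ∨ x = (p ^ a) ^ 2 - p ^ a + 1 ∨ x = p ^ 2 := by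
      rintro x (hx | hx)
      · simp only [Set.mem_insert_iff, Set.mem_singleton_iff] at hx
        tauto
      · split_ifs at hx with hc
        · rw [Set.mem_singleton_iff] at hx
          tauto
        · exact absurd hx (Set.notMem_empty x)
    intro x hx y hy hd
    obtain ⟨a1, a2, a3, a4, a5⟩ := h1
    obtain ⟨b1, b2, b3, b4, b5⟩ := h2
    obtain ⟨c1, c2, c3, c4, c5⟩ := h3
    obtain ⟨d1, d2, d3, d4, d5⟩ := h4
    obtain ⟨e1, e2, e3, e4, e5⟩ := h5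
    obtain ⟨f1, f2, f3, f4, f5⟩ := h6
    rcases hL x hx with rfl | rfl | rfl | rfl | rfl | rfl <;> rcases hL y hy with rfl | rfl | rfl | rfl | rfl | rfl <;>
      first
      | rfl
      | exact absurd hd a1 | exact absurd hd a2 | exact absurd hd a3 | exact absurd hd a4 | exact absurd hd a5
      | exact absurd hd b1 | exact absurd hd b2 | exact absurd hd b3 | exact absurd hd b4 | exact absurd hd b5
      | exact absurd hd c1 | exact absurd hd c2 | exact absurd hd c3 | exact absurd hd c4 | exact absurd hd c5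
      | exact absurd hd d1 | exact absurd hd d2 | exact absurd hd d3 | exact absurd hd d4 | exact absurd hd d5
      | exact absurd hd e1 | exact absurd hd e2 | exact absurd hd e3 | exact absurd hd e4 | exact absurd hd e5
      | exact absurd hd f1 | exact absurd hd f2 | exact absurd hd f3 | exact absurd hd f4 | exact absurd hd f5

theorem main_two (a : ℕ) (ha : 2 ≤ a) (hF : Fintype.card F = 2 ^ a) :
    {n : ℕ | n ∈ Set.range (orderOf : ↥(Cfsg.Lie.chevG2.group F) → ℕ) ∧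
        ∀ m ∈ Set.range (orderOf : ↥(Cfsg.Lie.chevG2.group F) → ℕ), n ∣ m → m = n} ⊆
      ({8, 12, 2 * (2 ^ a + 1), 2 * (2 ^ a - 1), 2 ^ (2 * a) - 1, 2 ^ (2 * a) + 2 ^ a + 1, 2 ^ (2 * a) - 2 ^ a + 1} : Set ℕ) ∧
    ({8, 12, 2 * (2 ^ a + 1), 2 * (2 ^ a - 1), 2 ^ (2 * a) - 1, 2 ^ (2 * a) + 2 ^ a + 1, 2 ^ (2 * a) - 2 ^ a + 1} : Set ℕ) ⊆
      Set.range (orderOf : ↥(Cfsg.Lie.chevG2.group F) → ℕ) := by
  classical
  haveI : Fact (Nat.Prime 2) := ⟨Nat.prime_two⟩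
  haveI : CharP F 2 := charP_of_card Nat.prime_two (by omega) hF
  have e : (2 : ℕ) ^ (2 * a) = (2 ^ a) ^ 2 := by rw [mul_comm, pow_mul]
  rw [e]
  have hLO : ({8, 12, 2 * (2 ^ a + 1), 2 * (2 ^ a - 1), (2 ^ a) ^ 2 - 1, (2 ^ a) ^ 2 + 2 ^ a + 1, (2 ^ a) ^ 2 - 2 ^ a + 1} : Set ℕ) ⊆
      Set.range (orderOf : ↥(Cfsg.Lie.chevG2.group F) → ℕ) := by
    intro n hn
    simp only [Set.mem_insert_iff, Set.mem_singleton_iff] at hn
    rw [mem_range_iff]
    rcases hn with rfl | rfl | rfl | rfl | rfl | rfl | rfl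
    · exact exists_order8 2 rfl
    · exact exists_order12 2 rfl
    · rw [mul_comm]
      exact exists_pp 2 a hF
    · rw [mul_comm]
      exact exists_pm 2 a hF
    · exact exists_q2m1 2 a hF
    · exact exists_q2q1 2 a hF
    · exact exists_tw 2 a hF
  refine ⟨maximal_sub hLO ?_, hLO⟩
  intro n hn
  rw [mem_range_iff] at hn
  obtain ⟨y, hy, rfl⟩ := hn
  rcases upper 2 a hF hy with h | h | h | h | h | ⟨h0, h⟩ | ⟨h0, h⟩ | ⟨h0, h⟩ | ⟨h0, h⟩ | h
  · exact ⟨(2 ^ a) ^ 2 - 1, by simp, h⟩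
  · exact ⟨(2 ^ a) ^ 2 + 2 ^ a + 1, by simp, h⟩
  · exact ⟨(2 ^ a) ^ 2 - 2 ^ a + 1, by simp, h⟩
  · exact ⟨2 * (2 ^ a - 1), by simp, by rwa [mul_comm]⟩
  · exact ⟨2 * (2 ^ a + 1), by simp, by rwa [mul_comm]⟩
  · exact ⟨12, by simp, h⟩
  · exact ⟨8, by simp, h⟩
  · exact absurd h0 (by norm_num)
  · exact absurd h0 (by norm_num)
  · exact ⟨8, by simp, h.trans (by norm_num)⟩

end main

end Cfsg.Agent.Lib.G2Spec
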