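import Cfsg.Agent.Lib.G2Spec.Alg
import Cfsg.Agent.Lib.SLGen

/-!
# `SL₃` inside `G₂`, the stabiliser of an idempotent, transitivity on idempotents
-/

set_option autoImplicit false
set_option linter.unusedSectionVars false
set_option linter.unusedVariables false
set_option linter.unusedSimpArgs false
set_option maxRecDepth 100000

namespace Cfsg.Agent.Lib.G2Spec

open Cfsg Cfsg.Lie Cfsg.Agent.Lib.Chev Cfsg.Agent.Lib.SL3G250 Cfsg.Agent.Lib.ZornAlg Matrix

variable {F : Type*} [Field F]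

/-- `3 × 3` matrices. -/
abbrev M3 (F : Type*) := Matrix (Fin 3) (Fin 3) F

/-- `SL₃`. -/
abbrev SL3 (F : Type*) [Field F] := SpecialLinearGroup (Fin 3) F

/-- The block action. -/
def iotaV (A B : M3 F) (v : O8 F) : O8 F :=
  ![v 0, A 0 0 * v 1 + A 0 1 * v 2 + A 0 2 * v 3, A 1 0 * v 1 + A 1 1 * v 2 + A 1 2 * v 3,
    A 2 0 * v 1 + A 2 1 * v 2 + A 2 2 * v 3, B 0 0 * v 4 + B 0 1 * v 5 + B 0 2 * v 6,
    B 1 0 * v 4 + B 1 1 * v 5 + B 1 2 * v 6, B 2 0 * v 4 + B 2 1 * v 5 + B 2 2 * v 6, v 7]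

lemma iotaV_comp (A B A' B' : M3 F) (v : O8 F) : iotaV A B (iotaV A' B' v) = iotaV (A * A') (B * B') v := by
  apply ext8 <;> simp [iotaV, Matrix.mul_apply, Fin.sum_univ_three] <;> ring

lemma iotaV_one (v : O8 F) : iotaV (1 : M3 F) 1 v = v := by
  apply ext8 <;> simp [iotaV, Matrix.one_apply]

/-- The block action as a linear map. -/
def iotaL (A B : M3 F) : O8 F →ₗ[F] O8 F where
  toFun := iotaV A B
  map_add' x y := by apply ext8 <;> simp [iotaV] <;> ring
  map_smul' c x := by apply ext8 <;> simp [iotaV] <;> ring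

/-- The inverse transpose. -/
def bM (A : SL3 F) : M3 F := ((A⁻¹ : SL3 F) : M3 F)ᵀ

lemma bM_mul (A A' : SL3 F) : bM (A * A') = bM A * bM A' := by
  have e : (((A * A')⁻¹ : SL3 F) : M3 F) = ((A'⁻¹ : SL3 F) : M3 F) * ((A⁻¹ : SL3 F) : M3 F) := by
    rw [_root_.mul_inv_rev]
    exact Matrix.SpecialLinearGroup.coe_mul A'⁻¹ A⁻¹
  simp only [bM]
  rw [e, Matrix.transpose_mul]

lemma bM_one : bM (1 : SL3 F) = 1 := by
  have e : (((1 : SL3 F)⁻¹ : SL3 F) : M3 F) = 1 := by
    rw [inv_one]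
    rfl
  simp only [bM]
  rw [e, Matrix.transpose_one]

lemma coe_mul_inv (A : SL3 F) : (A : M3 F) * ((A⁻¹ : SL3 F) : M3 F) = 1 := mul_inv_coe A

lemma coe_inv_mul (A : SL3 F) : ((A⁻¹ : SL3 F) : M3 F) * (A : M3 F) = 1 := inv_mul_coe A

/-- The group element attached to a matrix of `SL₃`. -/
noncomputable def iota (A : SL3 F) : GL (Fin 8) F :=
  ofLin (iotaL A (bM A)) (iotaL (A⁻¹ : SL3 F) (bM (A⁻¹ : SL3 F)))
    (fun v => by
      show iotaV A (bM A) (iotaV (A⁻¹ : SL3 F) (bM (A⁻¹ : SL3 F)) v) = v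
      rw [iotaV_comp, ← bM_mul, mul_inv_cancel, bM_one, coe_mul_inv, iotaV_one])
    (fun v => by
      show iotaV (A⁻¹ : SL3 F) (bM (A⁻¹ : SL3 F)) (iotaV A (bM A) v) = v
      rw [iotaV_comp, ← bM_mul, inv_mul_cancel, bM_one, coe_inv_mul, iotaV_one])

@[simp] lemma gv_iota (A : SL3 F) (v : O8 F) : gv (iota A) v = iotaV A (bM A) v := by
  simp only [iota, gv_ofLin]
  rfl

lemma iota_mul (A A' : SL3 F) : iota (A * A') = iota A * iota A' := by
  apply gv_ext
  intro v
  rw [gv_mul, gv_iota, gv_iota, gv_iota, iotaV_comp, bM_mul]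
  congr 1

lemma iota_one : iota (1 : SL3 F) = 1 := by
  apply gv_ext
  intro v
  rw [gv_iota, bM_one, gv_one]
  exact iotaV_one v

/-- `iota` as a homomorphism. -/
noncomputable def iotaHom (F : Type*) [Field F] : SL3 F →* GL (Fin 8) F where
  toFun := iota
  map_one' := iota_one
  map_mul' := iota_mul

lemma iota_inv (A : SL3 F) : iota (A⁻¹ : SL3 F) = (iota A)⁻¹ := map_inv (iotaHom F) A

lemma iota_pow (A : SL3 F) (n : ℕ) : iota (A ^ n) = (iota A) ^ n := map_pow (iotaHom F) A n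

lemma iota_inj {A A' : SL3 F} (h : iota A = iota A') : A = A' := by
  apply Subtype.ext
  apply Matrix.ext
  have key : ∀ v, gv (iota A) v = gv (iota A') v := fun v => by rw [h]
  intro i j
  have hj : ∀ j : Fin 3, ∃ v : O8 F, v 1 = (if j = 0 then 1 else 0) ∧ v 2 = (if j = 1 then 1 else 0) ∧ v 3 = (if j = 2 then 1 else 0) := by
    intro j
    exact ⟨![0, if j = 0 then 1 else 0, if j = 1 then 1 else 0, if j = 2 then 1 else 0, 0, 0, 0, 0], by simp, by simp, by simp⟩
  obtain ⟨v, h1, h2, h3⟩ := hj j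
  have hk := key v
  rw [gv_iota, gv_iota] at hk
  fin_cases i <;> fin_cases j
  all_goals
    simp at h1 h2 h3
    first
      | simpa [iotaV, h1, h2, h3] using congrFun hk 1
      | simpa [iotaV, h1, h2, h3] using congrFun hk 2
      | simpa [iotaV, h1, h2, h3] using congrFun hk 3

lemma iota_tv5 (h : (0 : Fin 3) ≠ 1) (c : F) : iota (SpecialLinearGroup.transvection h c) = yU 5 c := by
  apply gv_ext
  intro v
  rw [gv_iota, gv_yU, bM, transvection_inv]
  show iotaV (Matrix.transvection (0 : Fin 3) 1 c) (Matrix.transvection (0 : Fin 3) 1 (-c))ᵀ v = _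
  rw [tr5, tr5]
  apply ext8 <;> simp [iotaV, yv, yv5] <;> ring

lemma iota_tv6 (h : (1 : Fin 3) ≠ 0) (c : F) : iota (SpecialLinearGroup.transvection h c) = yU 6 c := by
  apply gv_ext
  intro v
  rw [gv_iota, gv_yU, bM, transvection_inv]
  show iotaV (Matrix.transvection (1 : Fin 3) 0 c) (Matrix.transvection (1 : Fin 3) 0 (-c))ᵀ v = _
  rw [tr6, tr6]
  apply ext8 <;> simp [iotaV, yv, yv6] <;> ring

lemma iota_tv10 (h : (0 : Fin 3) ≠ 2) (c : F) : iota (SpecialLinearGroup.transvection h c) = yU 10 c := by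
  apply gv_ext
  intro v
  rw [gv_iota, gv_yU, bM, transvection_inv]
  show iotaV (Matrix.transvection (0 : Fin 3) 2 c) (Matrix.transvection (0 : Fin 3) 2 (-c))ᵀ v = _
  rw [tr10, tr10]
  apply ext8 <;> simp [iotaV, yv, yv10] <;> ring

lemma iota_tv1 (h : (2 : Fin 3) ≠ 0) (c : F) : iota (SpecialLinearGroup.transvection h c) = yU 1 c := by
  apply gv_ext
  intro v
  rw [gv_iota, gv_yU, bM, transvection_inv]
  show iotaV (Matrix.transvection (2 : Fin 3) 0 c) (Matrix.transvection (2 : Fin 3) 0 (-c))ᵀ v = _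
  rw [tr1, tr1]
  apply ext8 <;> simp [iotaV, yv, yv1] <;> ring

lemma iota_tv11 (h : (1 : Fin 3) ≠ 2) (c : F) : iota (SpecialLinearGroup.transvection h c) = yU 11 c := by
  apply gv_ext
  intro v
  rw [gv_iota, gv_yU, bM, transvection_inv]
  show iotaV (Matrix.transvection (1 : Fin 3) 2 c) (Matrix.transvection (1 : Fin 3) 2 (-c))ᵀ v = _
  rw [tr11, tr11]
  apply ext8 <;> simp [iotaV, yv, yv11] <;> ring

lemma iota_tv0 (h : (2 : Fin 3) ≠ 1) (c : F) : iota (SpecialLinearGroup.transvection h c) = yU 0 c := by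
  apply gv_ext
  intro v
  rw [gv_iota, gv_yU, bM, transvection_inv]
  show iotaV (Matrix.transvection (2 : Fin 3) 1 c) (Matrix.transvection (2 : Fin 3) 1 (-c))ᵀ v = _
  rw [tr0, tr0]
  apply ext8 <;> simp [iotaV, yv, yv0] <;> ring

lemma iota_mem_YG (A : SL3 F) : iota A ∈ YG F := by
  have key : (YG F).comap (iotaHom F) = ⊤ := by
    apply Cfsg.Agent.Lib.SLGen.eq_top_of_forall_transvection_mem
    intro i j hij c
    show iota _ ∈ YG F
    fin_cases i <;> fin_cases j
    · exact absurd rfl hij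
    · rw [show SpecialLinearGroup.transvection hij c = SpecialLinearGroup.transvection (show (0 : Fin 3) ≠ 1 by decide) c from rfl, iota_tv5]
      exact yU_mem_YG _ _
    · rw [show SpecialLinearGroup.transvection hij c = SpecialLinearGroup.transvection (show (0 : Fin 3) ≠ 2 by decide) c from rfl, iota_tv10]
      exact yU_mem_YG _ _
    · rw [show SpecialLinearGroup.transvection hij c = SpecialLinearGroup.transvection (show (1 : Fin 3) ≠ 0 by decide) c from rfl, iota_tv6]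
      exact yU_mem_YG _ _
    · exact absurd rfl hij
    · rw [show SpecialLinearGroup.transvection hij c = SpecialLinearGroup.transvection (show (1 : Fin 3) ≠ 2 by decide) c from rfl, iota_tv11]
      exact yU_mem_YG _ _
    · rw [show SpecialLinearGroup.transvection hij c = SpecialLinearGroup.transvection (show (2 : Fin 3) ≠ 0 by decide) c from rfl, iota_tv1]
      exact yU_mem_YG _ _
    · rw [show SpecialLinearGroup.transvection hij c = SpecialLinearGroup.transvection (show (2 : Fin 3) ≠ 1 by decide) c from rfl, iota_tv0]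
      exact yU_mem_YG _ _
    · exact absurd rfl hij
  have h : A ∈ (YG F).comap (iotaHom F) := by rw [key]; trivial
  exact h

/-! ### The stabiliser of the idempotent -/

lemma e0_mul (x : O8 F) : zornMul (e0 : O8 F) x = ![x 0, x 1, x 2, x 3, 0, 0, 0, 0] := by
  apply ext8 <;> simp [e0]

lemma mul_e0 (x : O8 F) : zornMul x (e0 : O8 F) = ![x 0, 0, 0, 0, x 4, x 5, x 6, 0] := by
  apply ext8 <;> simp [e0]

/-- The eight unit vectors. -/
def uA (i : Fin 3) : O8 F := ![0, if i = 0 then 1 else 0, if i = 1 then 1 else 0, if i = 2 then 1 else 0, 0, 0, 0, 0]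

/-- The eight unit vectors. -/
def uB (i : Fin 3) : O8 F := ![0, 0, 0, 0, if i = 0 then 1 else 0, if i = 1 then 1 else 0, if i = 2 then 1 else 0, 0]

lemma dec8 (v : O8 F) : v = v 0 • (e0 : O8 F) + v 1 • uA 0 + v 2 • uA 1 + v 3 • uA 2 + v 4 • uB 0 + v 5 • uB 1 + v 6 • uB 2 + v 7 • (e7 : O8 F) := by
  apply ext8 <;> simp [e0, e7, uA, uB]

lemma e7_eq : (e7 : O8 F) = zOne - e0 := by rw [← e0_add_e7]; abel

set_option maxHeartbeats 4000000 in
/-- An automorphism fixing the idempotent comes from `SL₃`. -/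
theorem stab {g : GL (Fin 8) F} (hg : g ∈ G2 F) (h : gv g e0 = e0) : ∃ A : SL3 F, g = iota A := by
  have hm := mem_G2.mp hg
  have hplus : ∀ i : Fin 3, ∀ k : Fin 8, (k = 0 ∨ k = 4 ∨ k = 5 ∨ k = 6 ∨ k = 7) → gv g (uA i) k = 0 := by
    intro i k hk
    have h1 : zornMul (e0 : O8 F) (uA i) = uA i := by
      rw [e0_mul]
      apply ext8 <;> simp [uA]
    have h2 : zornMul (uA i) (e0 : O8 F) = 0 := by
      rw [mul_e0]
      apply ext8 <;> simp [uA]
    have h3 := hm e0 (uA i)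
    rw [h1, h] at h3
    have h4 := hm (uA i) e0
    rw [h2, h, gv_zero] at h4
    rw [e0_mul] at h3
    rw [mul_e0] at h4
    rcases hk with rfl | rfl | rfl | rfl | rfl
    · simpa using (congrFun h4 0).symm
    · rw [h3]; simp
    · rw [h3]; simp
    · rw [h3]; simp
    · rw [h3]; simp
  have hminus : ∀ i : Fin 3, ∀ k : Fin 8, (k = 0 ∨ k = 1 ∨ k = 2 ∨ k = 3 ∨ k = 7) → gv g (uB i) k = 0 := by
    intro i k hk
    have h1 : zornMul (e0 : O8 F) (uB i) = 0 := by
      rw [e0_mul]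
      apply ext8 <;> simp [uB]
    have h2 : zornMul (uB i) (e0 : O8 F) = uB i := by
      rw [mul_e0]
      apply ext8 <;> simp [uB]
    have h3 := hm e0 (uB i)
    rw [h1, h, gv_zero] at h3
    have h4 := hm (uB i) e0
    rw [h2, h] at h4
    rw [e0_mul] at h3
    rw [mul_e0] at h4
    rcases hk with rfl | rfl | rfl | rfl | rfl
    · simpa using (congrFun h3 0).symm
    · simpa using (congrFun h3 1).symm
    · simpa using (congrFun h3 2).symm
    · simpa using (congrFun h3 3).symm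
    · rw [h4]; simp
  have h7 : gv g e7 = e7 := by rw [e7_eq, gv_sub, gv_zOne hg, h]
  set a0 := gv g (uA 0) with ha0
  set a1 := gv g (uA 1) with ha1
  set a2 := gv g (uA 2) with ha2
  set b0 := gv g (uB 0) with hb0
  set b1 := gv g (uB 1) with hb1
  set b2 := gv g (uB 2) with hb2
  let A : M3 F := !![a0 1, a1 1, a2 1; a0 2, a1 2, a2 2; a0 3, a1 3, a2 3]
  let B : M3 F := !![b0 4, b1 4, b2 4; b0 5, b1 5, b2 5; b0 6, b1 6, b2 6]
  -- the products
  have hdot : ∀ (i j : Fin 3), zornMul (uA i : O8 F) (uB j) = (if i = j then (1 : F) else 0) • (e0 : O8 F) := by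
    intro i j
    fin_cases i <;> fin_cases j <;> apply ext8 <;> simp [uA, uB, e0]
  have hd : ∀ (i j : Fin 3), zornMul (gv g (uA i)) (gv g (uB j)) = (if i = j then (1 : F) else 0) • (e0 : O8 F) := by
    intro i j
    rw [← hm, hdot, gv_smul, h]
  have hc2 : zornMul (uA 0 : O8 F) (uA 1) = uB 2 := by apply ext8 <;> simp [uA, uB]
  have hc0 : zornMul (uA 1 : O8 F) (uA 2) = uB 0 := by apply ext8 <;> simp [uA, uB]
  have hc1 : zornMul (uA 2 : O8 F) (uA 0) = uB 1 := by apply ext8 <;> simp [uA, uB]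
  have hb2' : zornMul a0 a1 = b2 := by rw [ha0, ha1, hb2, ← hm, hc2]
  have hb0' : zornMul a1 a2 = b0 := by rw [ha1, ha2, hb0, ← hm, hc0]
  have hb1' : zornMul a2 a0 = b1 := by rw [ha2, ha0, hb1, ← hm, hc1]
  have z00 : a0 0 = 0 := hplus 0 0 (by simp)
  have z01 : a1 0 = 0 := hplus 1 0 (by simp)
  have z02 : a2 0 = 0 := hplus 2 0 (by simp)
  have z07 : a0 7 = 0 := hplus 0 7 (by simp)
  have z17 : a1 7 = 0 := hplus 1 7 (by simp)
  have z27 : a2 7 = 0 := hplus 2 7 (by simp)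
  have z04 : a0 4 = 0 := hplus 0 4 (by simp)
  have z05 : a0 5 = 0 := hplus 0 5 (by simp)
  have z06 : a0 6 = 0 := hplus 0 6 (by simp)
  have z14 : a1 4 = 0 := hplus 1 4 (by simp)
  have z15 : a1 5 = 0 := hplus 1 5 (by simp)
  have z16 : a1 6 = 0 := hplus 1 6 (by simp)
  have z24 : a2 4 = 0 := hplus 2 4 (by simp)
  have z25 : a2 5 = 0 := hplus 2 5 (by simp)
  have z26 : a2 6 = 0 := hplus 2 6 (by simp)
  have y00 : b0 0 = 0 := hminus 0 0 (by simp)
  have y01 : b0 1 = 0 := hminus 0 1 (by simp)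
  have y02 : b0 2 = 0 := hminus 0 2 (by simp)
  have y03 : b0 3 = 0 := hminus 0 3 (by simp)
  have y07 : b0 7 = 0 := hminus 0 7 (by simp)
  have y10 : b1 0 = 0 := hminus 1 0 (by simp)
  have y11 : b1 1 = 0 := hminus 1 1 (by simp)
  have y12 : b1 2 = 0 := hminus 1 2 (by simp)
  have y13 : b1 3 = 0 := hminus 1 3 (by simp)
  have y17 : b1 7 = 0 := hminus 1 7 (by simp)
  have y20 : b2 0 = 0 := hminus 2 0 (by simp)
  have y21 : b2 1 = 0 := hminus 2 1 (by simp)
  have y22 : b2 2 = 0 := hminus 2 2 (by simp)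
  have y23 : b2 3 = 0 := hminus 2 3 (by simp)
  have y27 : b2 7 = 0 := hminus 2 7 (by simp)
  have hAB : Aᵀ * B = 1 := by
    have key : ∀ i j : Fin 3, (Aᵀ * B) i j = (1 : M3 F) i j := by
      intro i j
      have := congrFun (hd i j) 0
      fin_cases i <;> fin_cases j <;>
        simpa [A, B, Matrix.mul_apply, Fin.sum_univ_three, e0, ← ha0, ← ha1, ← ha2, ← hb0, ← hb1, ← hb2,
          z00, z01, z02, y07, y17, y27, Matrix.one_apply] using this
    exact Matrix.ext key
  have hdet : A.det = 1 := by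
    have h1 := congrFun (hd 2 2) 0
    rw [← ha2, ← hb2, ← hb2'] at h1
    have h2 : (Aᵀ * B) 0 0 = 1 := by rw [hAB]; simp
    have e4 := congrFun hb0' 4
    have e5 := congrFun hb0' 5
    have e6 := congrFun hb0' 6
    simp [z14, z15, z16, z24, z25, z26, z17, z27, z01, z02] at e4 e5 e6
    rw [Matrix.det_fin_three]
    simp only [Matrix.mul_apply, Fin.sum_univ_three, Matrix.transpose_apply] at h2
    simp [A, B] at h2 ⊢
    rw [← e4, ← e5, ← e6] at h2
    linear_combination h2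
  let A₁ : SL3 F := ⟨A, hdet⟩
  have hB : bM A₁ = B := by
    have h1 : ((A₁⁻¹ : SL3 F) : M3 F) * A = 1 := coe_inv_mul A₁
    have h2 : (A₁ : M3 F) = A := rfl
    have h3 : A * ((A₁⁻¹ : SL3 F) : M3 F) = 1 := by rw [← h2]; exact coe_mul_inv A₁
    calc bM A₁ = ((A₁⁻¹ : SL3 F) : M3 F)ᵀ * (Aᵀ * B) := by rw [hAB, mul_one]; rfl
      _ = (A * ((A₁⁻¹ : SL3 F) : M3 F))ᵀ * B := by rw [Matrix.transpose_mul, Matrix.mul_assoc]
      _ = B := by rw [h3, Matrix.transpose_one, Matrix.one_mul]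
  refine ⟨A₁, ?_⟩
  apply gv_ext
  intro v
  rw [gv_iota, hB]
  conv_lhs => rw [dec8 v]
  simp only [gv_add, gv_smul, h, h7, ← ha0, ← ha1, ← ha2, ← hb0, ← hb1, ← hb2]
  show _ = iotaV A B v
  apply ext8 <;> simp only [Pi.add_apply, Pi.smul_apply, smul_eq_mul] <;>
    simp [iotaV, A, B, e0, e7, z00, z01, z02, z07, z17, z27, z04, z05, z06, z14, z15, z16, z24, z25, z26,
      y00, y01, y02, y03, y07, y10, y11, y12, y13, y17, y20, y21, y22, y23, y27] <;> ring

end Cfsg.Agent.Lib.G2Spec
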