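import Cfsg.Agent.Lib.G2Spec.Fix

/-!
# Semisimple automorphisms lie in the diagonal torus up to conjugacy
-/

set_option autoImplicit false
set_option linter.unusedSectionVars false
set_option linter.unusedVariables false
set_option linter.unusedSimpArgs false
set_option maxRecDepth 100000

namespace Cfsg.Agent.Lib.G2Spec

open Cfsg Cfsg.Lie Cfsg.Agent.Lib.Chev Cfsg.Agent.Lib.SL3G250 Cfsg.Agent.Lib.ZornAlg Matrix Polynomial Module

variable {E : Type*} [Field E]

/-- Diagonal elements of `SL₃`. -/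
def dd (a b c : Eˣ) (h : a * b * c = 1) : SL3 E :=
  ⟨Matrix.diagonal ![(a : E), b, c], by
    rw [Matrix.det_diagonal, Fin.prod_univ_three]
    simp only [Matrix.cons_val_zero, Matrix.cons_val_one, Matrix.cons_val]
    have := congrArg Units.val h
    simpa using this⟩

lemma dd_inv_h {a b c : Eˣ} (h : a * b * c = 1) : a⁻¹ * b⁻¹ * c⁻¹ = 1 := by
  rw [← mul_inv, ← mul_inv, h, inv_one]

lemma coe_dd (a b c : Eˣ) (h : a * b * c = 1) : ((dd a b c h : SL3 E) : M3 E) = Matrix.diagonal ![(a : E), b, c] := rfl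

lemma dd_mul_inv (a b c : Eˣ) (h : a * b * c = 1) : dd a b c h * dd a⁻¹ b⁻¹ c⁻¹ (dd_inv_h h) = 1 := by
  apply Subtype.ext
  show ((dd a b c h : SL3 E) : M3 E) * ((dd a⁻¹ b⁻¹ c⁻¹ (dd_inv_h h) : SL3 E) : M3 E) = 1
  rw [coe_dd, coe_dd, Matrix.diagonal_mul_diagonal, ← Matrix.diagonal_one]
  congr 1
  funext i
  fin_cases i <;> simp

lemma dd_inv (a b c : Eˣ) (h : a * b * c = 1) : (dd a b c h)⁻¹ = dd a⁻¹ b⁻¹ c⁻¹ (dd_inv_h h) :=
  inv_eq_of_mul_eq_one_right (dd_mul_inv a b c h)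

lemma bM_dd (a b c : Eˣ) (h : a * b * c = 1) :
    bM (dd a b c h) = Matrix.diagonal ![((a⁻¹ : Eˣ) : E), ((b⁻¹ : Eˣ) : E), ((c⁻¹ : Eˣ) : E)] := by
  rw [bM, dd_inv, coe_dd, Matrix.diagonal_transpose]

/-- The torus element. -/
noncomputable def tt (a b c : Eˣ) (h : a * b * c = 1) : GL (Fin 8) E := iota (dd a b c h)

/-- The eigenvalues. -/
def lam (a b c : Eˣ) : Fin 8 → E := ![1, a, b, c, ((a⁻¹ : Eˣ) : E), ((b⁻¹ : Eˣ) : E), ((c⁻¹ : Eˣ) : E), 1]

lemma gv_tt (a b c : Eˣ) (h : a * b * c = 1) (v : O8 E) : gv (tt a b c h) v = fun i => lam a b c i * v i := by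
  rw [tt, gv_iota, bM_dd, coe_dd]
  apply ext8 <;> simp [iotaV, lam, Matrix.diagonal_apply]

lemma tt_mem (a b c : Eˣ) (h : a * b * c = 1) : tt a b c h ∈ G2 E := YG_le (iota_mem_YG _)

lemma tt_coe (a b c : Eˣ) (h : a * b * c = 1) : ((tt a b c h : GL (Fin 8) E) : M8 E) = Matrix.diagonal (lam a b c) := by
  apply m8_ext
  intro v
  have := gv_tt a b c h v
  rw [gv] at this
  rw [this]
  funext i
  simp [Matrix.mulVec_diagonal]

/-- Diagonalising elements of finite order of `SL₃`. -/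
theorem sl3_diag [IsAlgClosed E] (A : SL3 E) {m : ℕ} (hm : A ^ m = 1) (hm0 : (m : E) ≠ 0) :
    ∃ (P : SL3 E) (a b c : Eˣ) (h : a * b * c = 1), A = P * dd a b c h * P⁻¹ := by
  classical
  set f : Module.End E (Fin 3 → E) := Matrix.toLin' (A : M3 E) with hf
  have hA : ((A : M3 E)) ^ m = 1 := by
    have := congrArg (fun X : SL3 E => (X : M3 E)) hm
    simpa using this
  have hf1 : f ^ m = 1 := by
    rw [hf, ← Matrix.toLin'_pow, hA, Matrix.toLin'_one]
    rfl
  have hss : f.IsSemisimple := by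
    apply Module.End.isSemisimple_of_squarefree_aeval_eq_zero (p := X ^ m - C 1)
    · exact (Polynomial.separable_X_pow_sub_C (1 : E) hm0 one_ne_zero).squarefree
    · simp [hf1]
  let eigenDecomp := DirectSum.isInternal_submodule_of_iSupIndep_of_iSup_eq_top
    f.eigenspaces_iSupIndep hss.iSup_eigenspace_eq_top
  let I := (ν : E) × Fin (finrank E (f.eigenspace ν))
  let v : Basis I E (Fin 3 → E) := eigenDecomp.collectedBasis fun μ ↦ finBasis E (f.eigenspace μ)
  have : Fintype I := FiniteDimensional.fintypeBasisIndex v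
  let μ : I → E := Sigma.fst
  have hsv (i : I) : f (v i) = μ i • v i :=
    Module.End.mem_eigenspace_iff.mp (eigenDecomp.collectedBasis_mem _ i)
  have hcard : Fintype.card I = 3 := by
    have := Module.finrank_eq_card_basis v
    simpa using this.symm
  let e : I ≃ Fin 3 := Fintype.equivFinOfCardEq hcard
  let w : Basis (Fin 3) E (Fin 3 → E) := v.reindex e
  have hw (j : Fin 3) : f (w j) = μ (e.symm j) • w j := by
    simp only [w, Basis.reindex_apply]
    exact hsv _
  -- the matrix of the eigenbasis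
  let P0 : M3 E := Matrix.of fun i j => w j i
  have hP0 : (A : M3 E) * P0 = P0 * Matrix.diagonal (fun j => μ (e.symm j)) := by
    ext i j
    have h1 := congrFun (hw j) i
    simp only [hf, Matrix.toLin'_apply, Pi.smul_apply, smul_eq_mul] at h1
    rw [Matrix.mul_diagonal]
    simp only [Matrix.mul_apply, P0, Matrix.of_apply]
    rw [mul_comm (w j i)]
    rw [← h1]
    simp [Matrix.mulVec, dotProduct]
  have hdetP : P0.det ≠ 0 := by
    have h1 : P0 = (Pi.basisFun E (Fin 3)).toMatrix w := by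
      ext i j
      simp [P0, Basis.toMatrix_apply]
    rw [h1]
    have h2 := Module.Basis.isUnit_det (Pi.basisFun E (Fin 3)) w
    rw [Basis.det_apply] at h2
    exact h2.ne_zero
  set d := P0.det with hd
  have hd0 : d ≠ 0 := hdetP
  let D : M3 E := Matrix.diagonal ![d⁻¹, 1, 1]
  let P1 : M3 E := P0 * D
  have hdetD : D.det = d⁻¹ := by
    simp [D, Matrix.det_diagonal, Fin.prod_univ_three]
  have hdetP1 : P1.det = 1 := by
    simp only [P1, Matrix.det_mul, hdetD]
    exact mul_inv_cancel₀ hd0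
  let P : SL3 E := ⟨P1, hdetP1⟩
  let ν : Fin 3 → E := fun j => μ (e.symm j)
  have hP1 : (A : M3 E) * P1 = P1 * Matrix.diagonal ν := by
    simp only [P1]
    rw [← Matrix.mul_assoc, hP0, Matrix.mul_assoc, Matrix.mul_assoc]
    congr 1
    simp only [D, Matrix.diagonal_mul_diagonal]
    congr 1
    funext i
    exact mul_comm _ _
  have hdetA : (A : M3 E).det = 1 := A.2
  have hdetν : (Matrix.diagonal ν).det = 1 := by
    have h1 := congrArg Matrix.det hP1
    rw [Matrix.det_mul (A : M3 E) P1, Matrix.det_mul P1 (Matrix.diagonal ν), hdetA, hdetP1, one_mul, one_mul] at h1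
    exact h1.symm
  have hνprod : ν 0 * ν 1 * ν 2 = 1 := by
    rw [Matrix.det_diagonal, Fin.prod_univ_three] at hdetν
    exact hdetν
  have hν0 : ν 0 ≠ 0 := fun h => by rw [h] at hνprod; simp at hνprod
  have hν1 : ν 1 ≠ 0 := fun h => by rw [h] at hνprod; simp at hνprod
  have hν2 : ν 2 ≠ 0 := fun h => by rw [h] at hνprod; simp at hνprod
  let a : Eˣ := Units.mk0 _ hν0
  let b : Eˣ := Units.mk0 _ hν1
  let c : Eˣ := Units.mk0 _ hν2
  have habc : a * b * c = 1 := by
    apply Units.ext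
    simpa [a, b, c] using hνprod
  refine ⟨P, a, b, c, habc, ?_⟩
  rw [eq_mul_inv_iff_mul_eq]
  apply Subtype.ext
  show (A : M3 E) * P1 = P1 * ((dd a b c habc : SL3 E) : M3 E)
  rw [hP1, coe_dd]
  congr 2
  funext i
  fin_cases i <;> rfl

/-- Semisimple automorphisms are conjugate to torus elements. -/
theorem exists_conj_tt (p : ℕ) [hp : Fact p.Prime] [CharP E p] [IsAlgClosed E] {s : GL (Fin 8) E} (hs : s ∈ G2 E)
    {m : ℕ} (hm : s ^ m = 1) (hm0 : (m : E) ≠ 0) :
    ∃ h ∈ G2 E, ∃ (a b c : Eˣ) (habc : a * b * c = 1), h * s * h⁻¹ = tt a b c habc := by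
  obtain ⟨e, he, hes⟩ := exists_fixed_idem p hs hm hm0
  obtain ⟨h, hh, hhe⟩ := orbit e he
  have hh' : h ∈ G2 E := YG_le hh
  have h1 : gv (h * s * h⁻¹) e0 = e0 := by
    rw [← hhe, gv_mul, gv_mul, gv_inv_gv, hes]
  have hmem : h * s * h⁻¹ ∈ G2 E := mul_mem (mul_mem hh' hs) (inv_mem hh')
  obtain ⟨A, hA⟩ := stab hmem h1
  have hAm : A ^ m = 1 := by
    apply iota_inj
    rw [iota_pow, ← hA, iota_one]
    have : (h * s * h⁻¹) ^ m = h * s ^ m * h⁻¹ := by
      rw [conj_pow]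
    rw [this, hm]
    group
  obtain ⟨P, a, b, c, habc, hP⟩ := sl3_diag A hAm hm0
  refine ⟨(iota P)⁻¹ * h, mul_mem (inv_mem (YG_le (iota_mem_YG P))) hh', a, b, c, habc, ?_⟩
  have : (iota P)⁻¹ * h * s * ((iota P)⁻¹ * h)⁻¹ = (iota P)⁻¹ * (h * s * h⁻¹) * iota P := by group
  rw [this, hA, hP, iota_mul, iota_mul, iota_inv]
  show _ = iota (dd a b c habc)
  group

end Cfsg.Agent.Lib.G2Spec
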