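import Cfsg.Agent.Lib.G2Spec.Orbit

/-!
# Transitivity on idempotents, the automorphism group is generated by root elements,
and the isomorphism between the Chevalley group and the automorphism group
-/

set_option autoImplicit false
set_option linter.unusedSectionVars false
set_option linter.unusedVariables false
set_option linter.unusedSimpArgs false
set_option maxRecDepth 100000

namespace Cfsg.Agent.Lib.G2Spec

open Cfsg Cfsg.Lie Cfsg.Agent.Lib.Chev Cfsg.Agent.Lib.SL3G250 Cfsg.Agent.Lib.ZornAlg Matrix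

variable {F : Type*} [Field F]

/-- Trace one and norm zero. -/
def Idem (v : O8 F) : Prop := tr v = 1 ∧ nm v = 0

lemma Idem.of_gv {g : GL (Fin 8) F} (hg : g ∈ G2 F) {v : O8 F} (h : Idem v) : Idem (gv g v) :=
  ⟨by rw [tr_gv' hg]; exact h.1, by rw [nm_gv hg]; exact h.2⟩

lemma idem_yv (r : Fin 12) (t : F) {v : O8 F} (h : Idem v) : Idem (yv r t v) := by
  have := h.of_gv (yU_mem r t)
  rwa [gv_yU] at this

/-- Reaching a target with a root element. -/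
lemma reach_step {P Q : O8 F → Prop} (h : ∀ v, Q v → ∃ g ∈ YG F, P (gv g v)) {w : O8 F}
    {g' : GL (Fin 8) F} (hg' : g' ∈ YG F) (hw : Q (gv g' w)) : ∃ g ∈ YG F, P (gv g w) := by
  obtain ⟨g, hg, hP⟩ := h _ hw
  refine ⟨g * g', mul_mem hg hg', ?_⟩
  rwa [gv_mul]

lemma diff_ne_zero {v : O8 F} (h : Idem v) (h1 : v 1 = 0 ∨ v 4 = 0) (h2 : v 2 = 0 ∨ v 5 = 0) (h3 : v 3 = 0 ∨ v 6 = 0) :
    v 0 - v 7 ≠ 0 ∧ v 7 - v 0 ≠ 0 := by
  have ht : v 0 + v 7 = 1 := h.1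
  have hn : v 0 * v 7 = 0 := by
    have h4 := h.2
    simp only [nm] at h4
    have e1 : v 1 * v 4 = 0 := by rcases h1 with h1 | h1 <;> simp [h1]
    have e2 : v 2 * v 5 = 0 := by rcases h2 with h2 | h2 <;> simp [h2]
    have e3 : v 3 * v 6 = 0 := by rcases h3 with h3 | h3 <;> simp [h3]
    rw [e1, e2, e3] at h4
    linear_combination h4
  have key : v 0 - v 7 ≠ 0 := by
    intro h5
    have h6 : v 0 = v 7 := sub_eq_zero.mp h5
    rw [h6] at hn ht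
    have h7 : v 7 = 0 := by simpa using hn
    rw [h7] at ht
    simp at ht
  refine ⟨key, ?_⟩
  intro h5
  apply key
  linear_combination -h5

/-- The last step of the reduction. -/
lemma step_final (v : O8 F) (h : Idem v) (hk : v 1 ≠ 0) (h2 : v 2 = 0) (h3 : v 3 = 0) (h5 : v 5 = 0) (h6 : v 6 = 0) :
    ∃ g ∈ YG F, gv g v = e0 := by
  have ht : v 0 + v 7 = 1 := h.1
  have hn : v 0 * v 7 - v 1 * v 4 = 0 := by
    have h4 := h.2
    simp only [nm] at h4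
    rw [h2, h3] at h4
    linear_combination h4
  set k := v 1 with hkk
  obtain ⟨t, ht'⟩ : ∃ t, t * k = v 0 := ⟨v 0 / k, by field_simp⟩
  have h9 : v 4 = t * v 7 := by
    apply mul_left_cancel₀ hk
    linear_combination -hn - v 7 * ht'
  refine ⟨yU 7 1 * yU 4 (-1) * yU 7 1 * yU 7 k * yU 4 (-t), ?_, ?_⟩
  · exact mul_mem (mul_mem (mul_mem (mul_mem (yU_mem_YG _ _) (yU_mem_YG _ _)) (yU_mem_YG _ _)) (yU_mem_YG _ _)) (yU_mem_YG _ _)
  · simp only [gv_mul, gv_yU]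
    have e1 : yv 4 (-t) v = ![0, k, 0, 0, 0, 0, 0, 1] := by
      apply ext8 <;> simp [yv, yv4, h2, h3, h5, h6, ← hkk]
      · linear_combination -ht'
      · rw [h9]
        linear_combination (-t) * ht'
      · linear_combination ht + ht'
    rw [e1]
    have e2 : yv 7 k (![0, k, 0, 0, 0, 0, 0, 1] : O8 F) = ![0, 0, 0, 0, 0, 0, 0, 1] := by
      apply ext8 <;> simp [yv, yv7]
    rw [e2]
    have e3 : yv 7 (1 : F) (![0, 0, 0, 0, 0, 0, 0, 1] : O8 F) = ![0, -1, 0, 0, 0, 0, 0, 1] := by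
      apply ext8 <;> simp [yv, yv7]
    rw [e3]
    have e4 : yv 4 (-1 : F) (![0, -1, 0, 0, 0, 0, 0, 1] : O8 F) = ![1, -1, 0, 0, 0, 0, 0, 0] := by
      apply ext8 <;> simp [yv, yv4]
    rw [e4]
    apply ext8 <;> simp [yv, yv7, e0]

/-- Clearing the second vector. -/
lemma step_b (v : O8 F) (h : Idem v) (hk : v 1 ≠ 0) (h2 : v 2 = 0) (h3 : v 3 = 0) :
    ∃ g ∈ YG F, gv g v = e0 := by
  have fin_ : ∀ w : O8 F, Idem w ∧ w 1 ≠ 0 ∧ w 2 = 0 ∧ w 3 = 0 ∧ w 5 = 0 ∧ w 6 = 0 → ∃ g ∈ YG F, (fun w => w = e0) (gv g w) :=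
    fun w hw => step_final w hw.1 hw.2.1 hw.2.2.1 hw.2.2.2.1 hw.2.2.2.2.1 hw.2.2.2.2.2
  by_cases h4 : v 4 = 0
  · have hd := diff_ne_zero h (Or.inr h4) (Or.inl h2) (Or.inl h3)
    by_cases h5 : v 5 = 0
    · -- use `y₉`
      refine reach_step (P := fun w => w = e0) (Q := fun w => Idem w ∧ w 1 ≠ 0 ∧ w 2 = 0 ∧ w 3 = 0 ∧ w 5 = 0 ∧ w 6 = 0) fin_ (yU_mem_YG 9 (-(v 6 / (v 7 - v 0)))) ?_
      rw [gv_yU]
      have ht' : v 6 / (v 7 - v 0) * (v 7 - v 0) = v 6 := by field_simp [hd.2]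
      have e1 : yv 9 (-(v 6 / (v 7 - v 0))) v = ![v 0, v 1, 0, 0, 0, 0, 0, v 7] := by
        apply ext8 <;> simp [yv, yv9, h2, h3, h4, h5]
        linear_combination -ht'
      refine ⟨idem_yv _ _ h, ?_⟩
      rw [e1]
      simpa using hk
    · -- first clear `v 6`, then use `y₃`
      refine reach_step (P := fun w => w = e0) (Q := fun w => Idem w ∧ w 1 ≠ 0 ∧ w 2 = 0 ∧ w 3 = 0 ∧ w 5 = 0 ∧ w 6 = 0) fin_ (mul_mem (yU_mem_YG 3 (-(v 5 / (v 7 - v 0)))) (yU_mem_YG 11 (v 6 / v 5))) ?_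
      rw [gv_mul, gv_yU, gv_yU]
      have ht' : v 5 / (v 7 - v 0) * (v 7 - v 0) = v 5 := by field_simp [hd.2]
      have ht2 : v 6 / v 5 * v 5 = v 6 := by field_simp [h5]
      have e1 : yv 11 (v 6 / v 5) v = ![v 0, v 1, 0, 0, 0, v 5, 0, v 7] := by
        apply ext8 <;> simp [yv, yv11, h2, h3, h4]
        linear_combination -ht2
      have e2 : yv 3 (-(v 5 / (v 7 - v 0))) (![v 0, v 1, 0, 0, 0, v 5, 0, v 7] : O8 F) = ![v 0, v 1, 0, 0, 0, 0, 0, v 7] := by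
        apply ext8 <;> simp [yv, yv3]
        linear_combination -ht'
      refine ⟨idem_yv _ _ (idem_yv _ _ h), ?_⟩
      rw [e1, e2]
      simpa using hk
  · refine reach_step (P := fun w => w = e0) (Q := fun w => Idem w ∧ w 1 ≠ 0 ∧ w 2 = 0 ∧ w 3 = 0 ∧ w 5 = 0 ∧ w 6 = 0) fin_ (mul_mem (yU_mem_YG 5 (v 5 / v 4)) (yU_mem_YG 10 (v 6 / v 4))) ?_
    rw [gv_mul, gv_yU, gv_yU]
    have ht1 : v 5 / v 4 * v 4 = v 5 := by field_simp [h4]
    have ht2 : v 6 / v 4 * v 4 = v 6 := by field_simp [h4]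
    have e1 : yv 10 (v 6 / v 4) v = ![v 0, v 1, 0, 0, v 4, v 5, 0, v 7] := by
      apply ext8 <;> simp [yv, yv10, h2, h3]
      linear_combination -ht2
    have e2 : yv 5 (v 5 / v 4) (![v 0, v 1, 0, 0, v 4, v 5, 0, v 7] : O8 F) = ![v 0, v 1, 0, 0, v 4, 0, 0, v 7] := by
      apply ext8 <;> simp [yv, yv5]
      linear_combination -ht1
    refine ⟨idem_yv _ _ (idem_yv _ _ h), ?_⟩
    rw [e1, e2]
    simpa using hk

/-- Clearing the first vector. -/
lemma step_a (v : O8 F) (h : Idem v) (hk : v 1 ≠ 0) : ∃ g ∈ YG F, gv g v = e0 := by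
  refine reach_step (P := fun w => w = e0) (Q := fun w => Idem w ∧ w 1 ≠ 0 ∧ w 2 = 0 ∧ w 3 = 0)
    (fun w hw => step_b w hw.1 hw.2.1 hw.2.2.1 hw.2.2.2)
    (mul_mem (yU_mem_YG 6 (-(v 2 / v 1))) (yU_mem_YG 1 (-(v 3 / v 1)))) ?_
  rw [gv_mul, gv_yU, gv_yU]
  have ht1 : v 2 / v 1 * v 1 = v 2 := by field_simp [hk]
  have ht2 : v 3 / v 1 * v 1 = v 3 := by field_simp [hk]
  refine ⟨idem_yv _ _ (idem_yv _ _ h), ?_, ?_, ?_⟩
  · simpa [yv, yv6, yv1] using hk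
  · simp [yv, yv6, yv1]
    linear_combination -ht1
  · simp [yv, yv6, yv1]
    linear_combination -ht2

/-- Making the first coordinate of the first vector nonzero. -/
lemma step_c (v : O8 F) (h : Idem v) (hk : v 1 ≠ 0 ∨ v 2 ≠ 0 ∨ v 3 ≠ 0) : ∃ g ∈ YG F, gv g v = e0 := by
  by_cases h1 : v 1 = 0
  · by_cases h2 : v 2 = 0
    · have h3 : v 3 ≠ 0 := by
        rcases hk with hk | hk | hk
        · exact absurd h1 hk
        · exact absurd h2 hk
        · exact hk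
      refine reach_step (P := fun w => w = e0) (Q := fun w => Idem w ∧ w 1 ≠ 0)
        (fun w hw => step_a w hw.1 hw.2) (yU_mem_YG 10 (1 : F)) ?_
      rw [gv_yU]
      refine ⟨idem_yv _ _ h, ?_⟩
      simpa [yv, yv10, h1] using h3
    · refine reach_step (P := fun w => w = e0) (Q := fun w => Idem w ∧ w 1 ≠ 0)
        (fun w hw => step_a w hw.1 hw.2) (yU_mem_YG 5 (1 : F)) ?_
      rw [gv_yU]
      refine ⟨idem_yv _ _ h, ?_⟩
      simpa [yv, yv5, h1] using h2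
  · exact step_a v h h1

/-- Every idempotent of trace one is in the orbit of `e₀`. -/
theorem orbit (v : O8 F) (h : Idem v) : ∃ g ∈ YG F, gv g v = e0 := by
  by_cases hk : v 1 ≠ 0 ∨ v 2 ≠ 0 ∨ v 3 ≠ 0
  · exact step_c v h hk
  · push Not at hk
    obtain ⟨h1, h2, h3⟩ := hk
    have hd := diff_ne_zero h (Or.inl h1) (Or.inl h2) (Or.inl h3)
    by_cases h4 : v 4 = 0
    · refine reach_step (P := fun w => w = e0) (Q := fun w => Idem w ∧ (w 1 ≠ 0 ∨ w 2 ≠ 0 ∨ w 3 ≠ 0))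
        (fun w hw => step_c w hw.1 hw.2) (yU_mem_YG 7 (1 : F)) ?_
      rw [gv_yU]
      refine ⟨idem_yv _ _ h, Or.inl ?_⟩
      simpa [yv, yv7, h1, h4] using hd.1
    · by_cases h5 : v 5 = 0
      · refine reach_step (P := fun w => w = e0) (Q := fun w => Idem w ∧ (w 1 ≠ 0 ∨ w 2 ≠ 0 ∨ w 3 ≠ 0))
          (fun w hw => step_c w hw.1 hw.2) (yU_mem_YG 8 (1 : F)) ?_
        rw [gv_yU]
        refine ⟨idem_yv _ _ h, Or.inr (Or.inl ?_)⟩
        simpa [yv, yv8, h2, h5] using hd.1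
      · refine reach_step (P := fun w => w = e0) (Q := fun w => Idem w ∧ (w 1 ≠ 0 ∨ w 2 ≠ 0 ∨ w 3 ≠ 0))
          (fun w hw => step_c w hw.1 hw.2) (mul_mem (yU_mem_YG 7 (1 : F)) (yU_mem_YG 6 (v 4 / v 5))) ?_
        rw [gv_mul, gv_yU, gv_yU]
        refine ⟨idem_yv _ _ (idem_yv _ _ h), Or.inl ?_⟩
        have h6 : v 4 - v 4 / v 5 * v 5 = 0 := by
          field_simp [h5]
          ring
        simpa [yv, yv7, yv6, h1, h2, h3, h6] using hd.1

/-- The automorphism group is generated by the root elements. -/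
theorem G2_eq_YG : G2 F = YG F := by
  apply le_antisymm _ YG_le
  intro g hg
  have h1 : Idem (gv g e0) := Idem.of_gv hg ⟨tr_e0, nm_e0⟩
  obtain ⟨h, hh, hv⟩ := orbit _ h1
  have h2 : gv (h * g) e0 = e0 := by rwa [gv_mul]
  obtain ⟨A, hA⟩ := stab (mul_mem (YG_le hh) hg) h2
  have h3 : g = h⁻¹ * iota A := by rw [← hA]; group
  rw [h3]
  exact mul_mem (inv_mem hh) (iota_mem_YG A)

/-- Every automorphism has determinant-one root element factorisation. -/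
theorem exists_rel_of_G2 {y : GL (Fin 8) F} (hy : y ∈ G2 F) : ∃ g ∈ chevG2.group F, Rel g y := by
  rw [G2_eq_YG] at hy
  unfold YG at hy
  induction hy using Subgroup.closure_induction with
  | mem x hx =>
    obtain ⟨p, rfl⟩ := hx
    have hx : chevG2.x F p.1.1 p.2 = chevG2.xMat F p.1 p.2 := by
      simp [ChevalleyDatum.x, show p.1.1 < chevG2.nroots from p.1.2]
      rfl
    refine ⟨RelG2.checks.xG p.1.1 p.2, ?_, rel_gen p.1 p.2 _ ?_⟩
    · exact Subgroup.subset_closure ⟨p.1, p.2, by rw [RelG2.checks.coe_xG]; exact hx⟩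
    · rw [RelG2.checks.coe_xG]; exact hx
  | one => exact ⟨1, one_mem _, Rel.one⟩
  | mul a b _ _ ha hb =>
    obtain ⟨g, hg, hy⟩ := ha
    obtain ⟨g', hg', hy'⟩ := hb
    exact ⟨_, mul_mem hg hg', hy.mul hy'⟩
  | inv a _ ha =>
    obtain ⟨g, hg, hy⟩ := ha
    exact ⟨_, inv_mem hg, hy.inv⟩

end Cfsg.Agent.Lib.G2Spec
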