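import Cfsg.Agent.Lib.G2Spec.Upper
import Cfsg.Agent.Lib.G2Syl99

/-!
# Galois descent along a quadratic extension: a twisted copy of `SU₃` inside `G₂`
-/

set_option autoImplicit false
set_option linter.unusedSectionVars false
set_option linter.unusedVariables false
set_option linter.unusedSimpArgs false
set_option maxRecDepth 100000

namespace Cfsg.Agent.Lib.G2Spec

open Cfsg Cfsg.Lie Cfsg.Agent.Lib.ZornAlg Matrix
open Cfsg.Agent.Lib.G2Syl99 (M2 OO eZ glToAut phiE phi_mem phi_apply phiE_apply map_G2 glToAut_apply)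

section twist

variable {K : Type*} [Field K]

/-- The involution. -/
def thetaV (v : O8 K) : O8 K := ![v 7, -v 4, -v 5, -v 6, -v 1, -v 2, -v 3, v 0]

lemma thetaV_invol (v : O8 K) : thetaV (thetaV v) = v := by
  apply ext8 <;> simp [thetaV]

/-- The involution as a linear map. -/
def thetaL : O8 K →ₗ[K] O8 K where
  toFun := thetaV
  map_add' x y := by apply ext8 <;> simp [thetaV] <;> ring
  map_smul' c x := by apply ext8 <;> simp [thetaV]

/-- The involution as a matrix. -/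
noncomputable def theta (K : Type*) [Field K] : GL (Fin 8) K :=
  ofLin thetaL thetaL thetaV_invol thetaV_invol

lemma gv_theta (v : O8 K) : gv (theta K) v = thetaV v := gv_ofLin _ _ _ _ _

lemma theta_iotaV (A B : M3 K) (v : O8 K) : thetaV (iotaV A B v) = iotaV B A (thetaV v) := by
  apply ext8 <;> simp [thetaV, iotaV] <;> ring

/-- Entrywise action on pairs of matrices. -/
def sigO (σ : K →+* K) (x : OO K) : OO K := (x.1.map σ, x.2.map σ)

lemma sigO_sigO {σ : K →+* K} (hσ : ∀ x, σ (σ x) = x) (x : OO K) : sigO σ (sigO σ x) = x := by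
  refine Prod.ext ?_ ?_ <;> ext i j <;> simp [sigO, hσ]

lemma eZ_sig (σ : K →+* K) (v : O8 K) : eZ K (σ ∘ v) = sigO σ (eZ K v) := by
  show ((!![(σ ∘ v) 0, (σ ∘ v) 1; (σ ∘ v) 4, (σ ∘ v) 7], !![(σ ∘ v) 2, (σ ∘ v) 6; (σ ∘ v) 3, -(σ ∘ v) 5]) : OO K) =
    ((!![v 0, v 1; v 4, v 7] : M2 K).map σ, (!![v 2, v 6; v 3, -v 5] : M2 K).map σ)
  refine Prod.ext ?_ ?_ <;> ext i j <;> fin_cases i <;> fin_cases j <;> simp

lemma phi_sig (σ : K →+* K) (A C : GL (Fin 2) K) (x : OO K) :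
    sigO σ (phiE A C x) = phiE (Matrix.GeneralLinearGroup.map σ A) (Matrix.GeneralLinearGroup.map σ C) (sigO σ x) := by
  rw [phiE_apply, phiE_apply]
  have e : ∀ B : GL (Fin 2) K, ((Matrix.GeneralLinearGroup.map σ B)⁻¹ : GL (Fin 2) K) =
      Matrix.GeneralLinearGroup.map σ B⁻¹ := fun B => (map_inv _ _).symm
  have e2 : ∀ B : GL (Fin 2) K, ((Matrix.GeneralLinearGroup.map σ B : GL (Fin 2) K) : M2 K) = (B : M2 K).map σ :=
    fun _ => rfl
  rw [e, e2, e2, e2]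
  simp only [sigO]
  refine Prod.ext ?_ ?_
  · simp only [Matrix.map_mul]
  · simp only [Matrix.map_mul]

/-- The matrix of the automorphism attached to `A`. -/
noncomputable def ZZ (A : GL (Fin 2) K) : GL (Fin 8) K := (glToAut K).symm (phiE A A)

lemma eZ_gv_ZZ (A : GL (Fin 2) K) (v : O8 K) : eZ K (gv (ZZ A) v) = phiE A A (eZ K v) := by
  have h := glToAut_apply (ZZ A) (eZ K v)
  rw [ZZ, MulEquiv.apply_symm_apply] at h
  rw [h]
  simp [ZZ, gv]

lemma ZZ_mem (A : GL (Fin 2) K) : ZZ A ∈ G2 K := by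
  have h : phiE A A ∈ Cfsg.Agent.Lib.G2Syl99.autO K := phi_mem rfl
  rw [← map_G2] at h
  obtain ⟨a, ha, e⟩ := h
  have : a = ZZ A := by
    rw [ZZ, ← e]
    simp
  exact this ▸ ha

lemma phiE_mul (A B : GL (Fin 2) K) (x : OO K) : phiE (A * B) (A * B) x = phiE A A (phiE B B x) := by
  rw [phiE_apply, phiE_apply, phiE_apply]
  refine Prod.ext ?_ ?_
  · simp only [Units.val_mul, _root_.mul_inv_rev, Matrix.mul_assoc]
  · simp only [Units.val_mul, _root_.mul_inv_rev, Matrix.mul_assoc]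

/-- The cocycle relation for `Z`. -/
lemma gE_ZZ {σ : K →+* K} (hσ : ∀ x, σ (σ x) = x) {A R : GL (Fin 2) K}
    (hA : Matrix.GeneralLinearGroup.map σ A = A * R) (hR : ∀ v : O8 K, phiE R R (eZ K v) = eZ K (thetaV v)) :
    gE σ (ZZ A) = ZZ A * theta K := by
  apply gv_ext
  intro v
  rw [gv_mul, gv_theta]
  apply (eZ K).injective
  have hv : v = σ ∘ (σ ∘ v) := by
    funext i
    simp [hσ]
  conv_lhs => rw [hv, gE_mulVec, eZ_sig, eZ_gv_ZZ, phi_sig, hA, eZ_sig, sigO_sigO hσ, phiE_mul, hR]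
  rw [eZ_gv_ZZ]

/-- The scalar times rotation. -/
noncomputable def RR (r : K) (hr : r ≠ 0) : GL (Fin 2) K :=
  ⟨!![0, r; -r, 0], !![0, -r⁻¹; r⁻¹, 0],
    by ext i j; fin_cases i <;> fin_cases j <;> simp [Matrix.mul_apply, Fin.sum_univ_two, hr],
    by ext i j; fin_cases i <;> fin_cases j <;> simp [Matrix.mul_apply, Fin.sum_univ_two, hr]⟩

lemma RR_theta (r : K) (hr : r ≠ 0) (v : O8 K) : phiE (RR r hr) (RR r hr) (eZ K v) = eZ K (thetaV v) := by
  rw [phiE_apply]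
  show (((!![0, r; -r, 0] : M2 K) * !![v 0, v 1; v 4, v 7] * !![0, -r⁻¹; r⁻¹, 0],
    (!![0, r; -r, 0] : M2 K) * !![v 2, v 6; v 3, -v 5] * !![0, -r⁻¹; r⁻¹, 0]) : OO K) =
    (!![thetaV v 0, thetaV v 1; thetaV v 4, thetaV v 7], !![thetaV v 2, thetaV v 6; thetaV v 3, -thetaV v 5])
  refine Prod.ext ?_ ?_ <;> ext i j <;> fin_cases i <;> fin_cases j <;>
    simp [Matrix.mul_apply, Fin.sum_univ_two, thetaV, hr] <;> field_simp

/-- A suitable matrix. -/
noncomputable def AA (rb nu nub : K) (h : rb * (nub - nu) ≠ 0) : GL (Fin 2) K :=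
  Matrix.GeneralLinearGroup.mkOfDetNeZero !![1, rb; nu, nub * rb] (by
    rw [Matrix.det_fin_two_of]
    intro h0
    apply h
    linear_combination h0)

lemma map_AA {σ : K →+* K} (hσ : ∀ x, σ (σ x) = x) {r ν : K} (hr0 : r ≠ 0) (hr : σ r * r = -1) (h : σ r * (σ ν - ν) ≠ 0) :
    Matrix.GeneralLinearGroup.map σ (AA (σ r) ν (σ ν) h) = AA (σ r) ν (σ ν) h * RR r hr0 := by
  apply Units.ext
  ext i j
  have e1 : ((Matrix.GeneralLinearGroup.map σ (AA (σ r) ν (σ ν) h) : GL (Fin 2) K) : M2 K) =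
      (!![1, σ r; ν, σ ν * σ r] : M2 K).map σ := rfl
  have e2 : ((AA (σ r) ν (σ ν) h * RR r hr0 : GL (Fin 2) K) : M2 K) =
      (!![1, σ r; ν, σ ν * σ r] : M2 K) * !![0, r; -r, 0] := rfl
  rw [e1, e2]
  have hr' : σ r * r = -1 := hr
  fin_cases i <;> fin_cases j <;> simp [Matrix.mul_apply, Fin.sum_univ_two, hσ]
  · rw [hr]
    simp
  · rw [mul_assoc, hr]
    simp

/-- The twisting element. -/
theorem exists_Z {σ : K →+* K} (hσ : ∀ x, σ (σ x) = x) {r ν : K} (hr : σ r * r = -1) (hν : σ ν ≠ ν) :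
    ∃ Z ∈ G2 K, gE σ Z = Z * theta K := by
  have hr0 : r ≠ 0 := by
    rintro rfl
    simp at hr
  have hrb : σ r ≠ 0 := by
    intro h
    rw [h] at hr
    simp at hr
  have h : σ r * (σ ν - ν) ≠ 0 := mul_ne_zero hrb (sub_ne_zero.mpr hν)
  exact ⟨ZZ (AA (σ r) ν (σ ν) h), ZZ_mem _, gE_ZZ hσ (map_AA hσ hr0 hr h) (RR_theta r hr0)⟩

lemma comp_iotaV (σ : K →+* K) (A B : M3 K) (v : O8 K) :
    σ ∘ iotaV A B v = iotaV (A.map σ) (B.map σ) (σ ∘ v) := by
  apply ext8 <;> simp [iotaV]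

lemma gE_iota {σ : K →+* K} (hσ : ∀ x, σ (σ x) = x) {U : SL3 K} (h1 : (U : M3 K).map σ = bM U) (h2 : (bM U).map σ = U)
    (v : O8 K) : gv (gE σ (iota U)) v = iotaV (bM U) U v := by
  have hv : v = σ ∘ (σ ∘ v) := by
    funext i
    simp [hσ]
  conv_lhs => rw [hv, gE_mulVec, gv_iota, comp_iotaV, h1, h2, ← hv]

lemma gE_inv' (σ : K →+* K) (g : GL (Fin 8) K) : gE σ g⁻¹ = (gE σ g)⁻¹ := map_inv _ _

lemma theta_gE_iota {σ : K →+* K} (hσ : ∀ x, σ (σ x) = x) {U : SL3 K} (h1 : (U : M3 K).map σ = bM U) (h2 : (bM U).map σ = U) :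
    theta K * gE σ (iota U) = iota U * theta K := by
  apply gv_ext
  intro v
  rw [gv_mul, gv_mul, gE_iota hσ h1 h2, gv_theta, gv_theta, gv_iota, theta_iotaV]

/-- The conjugate is fixed. -/
lemma fixed_conj {σ : K →+* K} (hσ : ∀ x, σ (σ x) = x) {Z : GL (Fin 8) K} (hZ : gE σ Z = Z * theta K) {U : SL3 K}
    (h1 : (U : M3 K).map σ = bM U) (h2 : (bM U).map σ = U) :
    gE σ (Z * iota U * Z⁻¹) = Z * iota U * Z⁻¹ := by
  rw [gE_mul, gE_mul, gE_inv', hZ]
  have h3 := theta_gE_iota hσ h1 h2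
  calc Z * theta K * gE σ (iota U) * (Z * theta K)⁻¹ = Z * (theta K * gE σ (iota U)) * (theta K)⁻¹ * Z⁻¹ := by group
    _ = Z * (iota U * theta K) * (theta K)⁻¹ * Z⁻¹ := by rw [h3]
    _ = _ := by group

lemma bM_eq_of {U : SL3 K} {σ : K →+* K} (hU : (U : M3 K)ᵀ * (U : M3 K).map σ = 1) : (U : M3 K).map σ = bM U := by
  have h1 : bM U * (U : M3 K)ᵀ = 1 := by
    simp only [bM]
    rw [← Matrix.transpose_mul, coe_mul_inv, Matrix.transpose_one]
  calc (U : M3 K).map σ = (bM U * (U : M3 K)ᵀ) * (U : M3 K).map σ := by rw [h1, Matrix.one_mul]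
    _ = bM U := by rw [Matrix.mul_assoc, hU, Matrix.mul_one]

end twist

section descent

variable {F K : Type*} [Field F] [Field K]

/-- Descent of an automorphism fixed by an involution. -/
lemma descend (ι : F →+* K) (σ : K →+* K) (hfix : ∀ x, σ x = x → ∃ y, ι y = x) {y : GL (Fin 8) K} (hy : gE σ y = y)
    (hyG : y ∈ G2 K) : ∃ y₀ ∈ G2 F, gE ι y₀ = y := by
  have hent : ∀ (g : GL (Fin 8) K), gE σ g = g → ∀ i j, ∃ a, ι a = (g : M8 K) i j := by
    intro g hg i j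
    apply hfix
    have h1 := congrArg (fun X : GL (Fin 8) K => (X : M8 K) i j) hg
    simpa [gE_coe] using h1
  have hy' : gE σ y⁻¹ = y⁻¹ := by rw [gE_inv', hy]
  choose M hM using hent y hy
  choose M' hM' using hent y⁻¹ hy'
  have hmap : (Matrix.of M).map ι = (y : M8 K) := by
    ext i j
    exact hM i j
  have hmap' : (Matrix.of M').map ι = ((y⁻¹ : GL (Fin 8) K) : M8 K) := by
    ext i j
    exact hM' i j
  have hinj : ∀ X Y : M8 F, X.map ι = Y.map ι → X = Y := by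
    intro X Y h
    ext i j
    have := congrFun (congrFun h i) j
    exact ι.injective this
  have h1 : Matrix.of M * Matrix.of M' = 1 := by
    apply hinj
    rw [Matrix.map_mul, hmap, hmap']
    simp
  have h2 : Matrix.of M' * Matrix.of M = 1 := by
    apply hinj
    rw [Matrix.map_mul, hmap, hmap']
    simp
  let y₀ : GL (Fin 8) F := ⟨Matrix.of M, Matrix.of M', h1, h2⟩
  have hy₀ : gE ι y₀ = y := by
    apply Units.ext
    exact hmap
  refine ⟨y₀, ?_, hy₀⟩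
  rw [mem_G2]
  intro a b
  have hc : Function.Injective (fun v : O8 F => ι ∘ v) := by
    intro v w h
    funext i
    exact ι.injective (congrFun h i)
  apply hc
  show ι ∘ gv y₀ (zornMul a b) = ι ∘ zornMul (gv y₀ a) (gv y₀ b)
  rw [zorn_map, ← gE_mulVec, ← gE_mulVec, ← gE_mulVec, zorn_map, hy₀]
  exact mem_G2.mp hyG _ _

/-- A unitary matrix gives an automorphism. -/
theorem exists_of_su (ι : F →+* K) {σ : K →+* K} (hσ : ∀ x, σ (σ x) = x) (hfix : ∀ x, σ x = x → ∃ y, ι y = x)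
    {r ν : K} (hr : σ r * r = -1) (hν : σ ν ≠ ν) (U : SL3 K) (hU : (U : M3 K)ᵀ * (U : M3 K).map σ = 1) :
    ∃ y₀ ∈ G2 F, ∀ n : ℕ, y₀ ^ n = 1 ↔ U ^ n = 1 := by
  obtain ⟨Z, hZG, hZ⟩ := exists_Z hσ hr hν
  have h1 := bM_eq_of hU
  have h2 : (bM U).map σ = U := by
    rw [← h1]
    ext i j
    simp [hσ]
  have hfx := fixed_conj hσ hZ h1 h2
  have hmem : Z * iota U * Z⁻¹ ∈ G2 K := mul_mem (mul_mem hZG (YG_le (iota_mem_YG U))) (inv_mem hZG)
  obtain ⟨y₀, hy₀, e⟩ := descend ι σ hfix hfx hmem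
  refine ⟨y₀, hy₀, fun n => ?_⟩
  constructor
  · intro h
    have h3 : (Z * iota U * Z⁻¹) ^ n = 1 := by
      rw [← e, ← gE_pow, h, gE_one]
    rw [conj_pow, ← iota_pow] at h3
    have h4 : iota (U ^ n) = 1 := by
      have := congrArg (fun X => Z⁻¹ * X * Z) h3
      simpa [mul_assoc] using this
    apply iota_inj
    rw [h4, iota_one]
  · intro h
    apply gE_inj ι
    rw [gE_pow, e, gE_one, conj_pow, ← iota_pow, h, iota_one]
    simp

end descent

end Cfsg.Agent.Lib.G2Spec
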