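import Cfsg.Agent.Lib.G2Spec.Frob

/-!
# Unipotent automorphisms commuting with a torus element
-/

set_option autoImplicit false
set_option linter.unusedSectionVars false
set_option linter.unusedVariables false
set_option linter.unusedSimpArgs false
set_option maxRecDepth 100000

namespace Cfsg.Agent.Lib.G2Spec

open Cfsg Cfsg.Lie Cfsg.Agent.Lib.ZornAlg Matrix Polynomial Module

variable {E : Type*} [Field E]

/-- A nilpotent matrix is nilpotent of small order on small invariant subspaces. -/
lemma nil_on_sub {n : ℕ} (N : Matrix (Fin n) (Fin n) E) (hN : IsNilpotent N) (W : Submodule E (Fin n → E))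
    (hW : ∀ w ∈ W, N *ᵥ w ∈ W) {k : ℕ} (hk : finrank E W ≤ k) : ∀ w ∈ W, (N ^ k) *ᵥ w = 0 := by
  let f : Module.End E (Fin n → E) := Matrix.toLin' N
  have hf : ∀ j, f ^ j = Matrix.toLin' (N ^ j) := fun j => (Matrix.toLin'_pow N j).symm
  have hinv : ∀ w ∈ W, f w ∈ W := by
    intro w hw
    simpa [f] using hW w hw
  let g : Module.End E W := f.restrict hinv
  have hgpow : ∀ (j : ℕ) (w : W), ((g ^ j) w : Fin n → E) = (f ^ j) (w : Fin n → E) := by
    intro j
    induction j with
    | zero => intro w; simp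
    | succ j ih =>
      intro w
      rw [pow_succ', pow_succ', Module.End.mul_apply, Module.End.mul_apply]
      simp only [g, LinearMap.restrict_coe_apply]
      rw [← ih]
  have hg : IsNilpotent g := by
    obtain ⟨m, hm⟩ := hN
    refine ⟨m, ?_⟩
    ext1 w
    apply Subtype.ext
    rw [hgpow, hf, hm]
    simp
  have hcp := IsNilpotent.charpoly_eq_X_pow_finrank hg
  have hg0 : g ^ finrank E W = 0 := by
    have := LinearMap.aeval_self_charpoly g
    rw [hcp] at this
    simpa using this
  intro w hw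
  have h1 : (g ^ k) ⟨w, hw⟩ = 0 := by
    obtain ⟨d, rfl⟩ := Nat.exists_eq_add_of_le hk
    rw [pow_add, hg0, zero_mul]
    rfl
  have h2 := hgpow k ⟨w, hw⟩
  rw [h1, hf] at h2
  have h3 : Matrix.toLin' (N ^ k) w = 0 := h2.symm
  rwa [Matrix.toLin'_apply] at h3

/-- A nilpotent `3 × 3` matrix has cube zero. -/
lemma nil_fin {n : ℕ} (N : Matrix (Fin n) (Fin n) E) (hN : IsNilpotent N) : N ^ n = 0 := by
  have h1 : ∀ w ∈ (⊤ : Submodule E (Fin n → E)), (N ^ n) *ᵥ w = 0 := by
    apply nil_on_sub N hN ⊤ (fun _ _ => trivial)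
    simp
  apply Matrix.ext
  intro i j
  have := congrFun (h1 (Pi.single j 1) trivial) i
  simpa using this

section charp

variable (p : ℕ) [hp : Fact p.Prime] [CharP E p]

include p in
lemma unip_nil {n : ℕ} {U : Matrix (Fin n) (Fin n) E} [NeZero n] {e : ℕ} (h : U ^ (p ^ e) = 1) : IsNilpotent (U - 1) := by
  refine ⟨p ^ e, ?_⟩
  haveI : Nonempty (Fin n) := ⟨0⟩
  rw [sub_pow_char_pow_of_commute p e (Commute.one_right U), h, one_pow, sub_self]

include p in
lemma pow_p_of_nil {n : ℕ} {U : Matrix (Fin n) (Fin n) E} [NeZero n] : U ^ p - 1 = (U - 1) ^ p := by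
  haveI : Nonempty (Fin n) := ⟨0⟩
  rw [sub_pow_char_of_commute p (Commute.one_right U), one_pow]

include p in
lemma scalar_one {c : E} {e : ℕ} (h : c ^ (p ^ e) = 1) : c = 1 := by
  have h1 : (c - 1) ^ (p ^ e) = 0 := by
    rw [sub_pow_char_pow, h, one_pow, sub_self]
  exact sub_eq_zero.mp (pow_eq_zero_iff (pow_ne_zero _ hp.out.ne_zero) |>.mp h1)

end charp

/-! ### Coordinate subspaces -/

/-- The coordinate subspace. -/
def coordSub {n : ℕ} (S : Finset (Fin n)) : Submodule E (Fin n → E) where
  carrier := {v | ∀ i, i ∉ S → v i = 0}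
  add_mem' := by
    intro a b ha hb i hi
    simp [ha i hi, hb i hi]
  zero_mem' := by
    intro i _
    rfl
  smul_mem' := by
    intro c x hx i hi
    simp [hx i hi]

lemma finrank_coordSub {n : ℕ} (S : Finset (Fin n)) : finrank E (coordSub (E := E) S) ≤ S.card := by
  let f : coordSub (E := E) S →ₗ[E] (S → E) :=
    { toFun := fun v i => (v : Fin n → E) i
      map_add' := fun _ _ => rfl
      map_smul' := fun _ _ => rfl }
  have hf : Function.Injective f := by
    intro v w h
    apply Subtype.ext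
    funext i
    by_cases hi : i ∈ S
    · exact congrFun h ⟨i, hi⟩
    · rw [v.2 i hi, w.2 i hi]
  have := LinearMap.finrank_le_finrank_of_injective hf
  simpa using this

/-! ### Commuting with a torus element -/

section comm

variable {a b c : Eˣ} {h : a * b * c = 1} {u : GL (Fin 8) E}

lemma comm_coord (hc : u * tt a b c h = tt a b c h * u) {μ : E} {v : O8 E} (hv : ∀ i, lam a b c i * v i = μ * v i) (i : Fin 8)
    (hi : lam a b c i ≠ μ) : gv u v i = 0 := by
  have h1 : gv (tt a b c h) v = μ • v := by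
    rw [gv_tt]
    funext i
    simp [hv i]
  have h2 : gv (tt a b c h) (gv u v) = μ • gv u v := by
    rw [← gv_mul, ← hc, gv_mul, h1, gv_smul]
  rw [gv_tt] at h2
  have h3 := congrFun h2 i
  simp only [Pi.smul_apply, smul_eq_mul] at h3
  have h4 : (lam a b c i - μ) * gv u v i = 0 := by rw [sub_mul, h3]; ring
  exact (mul_eq_zero.mp h4).resolve_left (sub_ne_zero.mpr hi)

/-- Invariance of coordinate subspaces. -/
lemma comm_sub (hc : u * tt a b c h = tt a b c h * u) {μ : E} {S : Finset (Fin 8)} (hS : ∀ i, i ∈ S ↔ lam a b c i = μ) {v : O8 E}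
    (hv : v ∈ coordSub (E := E) S) : gv u v ∈ coordSub (E := E) S := by
  intro i hi
  apply comm_coord hc (μ := μ) (v := v)
  · intro j
    by_cases hj : j ∈ S
    · rw [(hS j).mp hj]
    · rw [hv j hj]
      simp
  · intro h1
    exact hi ((hS i).mpr h1)

end comm

end Cfsg.Agent.Lib.G2Spec
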