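import Cfsg.Agent.Lib.G2Spec.Unip

/-!
# Unipotent automorphisms commuting with a torus element: the two main cases
-/

set_option autoImplicit false
set_option linter.unusedSectionVars false
set_option linter.unusedVariables false
set_option linter.unusedSimpArgs false
set_option maxRecDepth 100000

namespace Cfsg.Agent.Lib.G2Spec

open Cfsg Cfsg.Lie Cfsg.Agent.Lib.ZornAlg Matrix Polynomial Module

variable {E : Type*} [Field E]

section basic

lemma unit_ne {a : Eˣ} (ha : a ≠ 1) : (a : E) ≠ 1 := by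
  intro h
  exact ha (Units.ext h)

lemma unit_inv_ne {a : Eˣ} (ha : a ≠ 1) : ((a⁻¹ : Eˣ) : E) ≠ 1 := by
  intro h
  apply ha
  have : a⁻¹ = 1 := Units.ext h
  exact inv_eq_one.mp this

lemma lam0 (a b c : Eˣ) : lam a b c 0 = 1 := rfl
lemma lam1 (a b c : Eˣ) : lam a b c 1 = a := rfl
lemma lam2 (a b c : Eˣ) : lam a b c 2 = b := rfl
lemma lam3 (a b c : Eˣ) : lam a b c 3 = c := rfl
lemma lam4 (a b c : Eˣ) : lam a b c 4 = ((a⁻¹ : Eˣ) : E) := rfl
lemma lam5 (a b c : Eˣ) : lam a b c 5 = ((b⁻¹ : Eˣ) : E) := rfl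
lemma lam6 (a b c : Eˣ) : lam a b c 6 = ((c⁻¹ : Eˣ) : E) := rfl
lemma lam7 (a b c : Eˣ) : lam a b c 7 = 1 := rfl

/-- An automorphism fixing four of the basis vectors is trivial. -/
lemma fix_all {g : GL (Fin 8) E} (hg : g ∈ G2 E) (h1 : gv g (uA 0) = uA 0) (h2 : gv g (uA 1) = uA 1)
    (h3 : gv g (uB 0) = uB 0) (h4 : gv g (uB 1) = uB 1) : g = 1 := by
  have hm := mem_G2.mp hg
  have e1 : zornMul (uA 0 : O8 E) (uB 0) = e0 := by apply ext8 <;> simp [uA, uB, e0]
  have e2 : zornMul (uB 1 : O8 E) (uA 1) = e7 := by apply ext8 <;> simp [uA, uB, e7]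
  have e3 : zornMul (uA 0 : O8 E) (uA 1) = uB 2 := by apply ext8 <;> simp [uA, uB]
  have e4 : zornMul (uB 0 : O8 E) (uB 1) = -uA 2 := by apply ext8 <;> simp [uA, uB]
  have v0 : gv g e0 = e0 := by rw [← e1, hm, h1, h3]
  have v7 : gv g e7 = e7 := by rw [← e2, hm, h4, h2]
  have v3 : gv g (uB 2) = uB 2 := by rw [← e3, hm, h1, h2]
  have v4 : gv g (uA 2) = uA 2 := by
    have h5 : gv g (-uA 2) = -uA 2 := by rw [← e4, hm, h3, h4]
    rw [gv_neg] at h5
    exact neg_injective h5
  apply gv_ext
  intro v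
  rw [gv_one]
  conv_lhs => rw [dec8 v]
  simp only [gv_add, gv_smul, v0, v7, v3, v4, h1, h2, h3, h4]
  exact (dec8 v).symm

/-- The orthogonality lemma. -/
lemma orth_nil (h2 : (2 : E) ≠ 0) {u : GL (Fin 8) E} (hu : u ∈ G2 E) (hN : IsNilpotent ((u : M8 E) - 1))
    (W : Submodule E (O8 E)) (hW : ∀ w ∈ W, ((u : M8 E) - 1) *ᵥ w ∈ W) (hdim : finrank E W ≤ 4)
    (hnd : ∀ w ∈ W, (∀ y ∈ W, zPolar w y = 0) → w = 0) : ∀ x ∈ W, ((u : M8 E) - 1) ^ 3 *ᵥ x = 0 := by
  set N : M8 E := (u : M8 E) - 1 with hNdef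
  have hn : ∀ y, gv u y = y + N *ᵥ y := by
    intro y
    rw [hNdef, Matrix.sub_mulVec, Matrix.one_mulVec]
    simp [gv]
  have star : ∀ y z : O8 E, zPolar (N *ᵥ y) z + zPolar y (N *ᵥ z) + zPolar (N *ᵥ y) (N *ᵥ z) = 0 := by
    intro y z
    have h3 := polar_gv hu y z
    rw [hn, hn] at h3
    simp only [polar_add_left, polar_add_right] at h3
    linear_combination h3
  have hsymm : ∀ y z : O8 E, zPolar y z = zPolar z y := by
    intro y z
    simp [zPolar]
    ring
  intro x hx
  by_contra hne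
  have pw : ∀ k, (N ^ (k + 1)) *ᵥ x = N *ᵥ ((N ^ k) *ᵥ x) := by
    intro k
    rw [pow_succ', Matrix.mulVec_mulVec]
  set x1 := N *ᵥ x with hx1
  set x2 := N *ᵥ x1 with hx2
  set w := N *ᵥ x2 with hw
  have e3 : N ^ 3 *ᵥ x = w := by
    rw [pw, pw, pw, pow_zero, Matrix.one_mulVec]
  rw [e3] at hne
  have hx1W : x1 ∈ W := hW _ hx
  have hx2W : x2 ∈ W := hW _ hx1W
  have hwW : w ∈ W := hW _ hx2W
  have hNw : N *ᵥ w = 0 := by
    have h4 := nil_on_sub N hN W hW hdim x hx
    rw [pw, pw, pw, pw, pow_zero, Matrix.one_mulVec] at h4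
    exact h4
  have hperp : ∀ z, zPolar w (N *ᵥ z) = 0 := by
    intro z
    have h4 := star w z
    rw [hNw] at h4
    simpa [zPolar] using h4
  have b1 : zPolar w x1 = 0 := hperp x
  have b2 : zPolar w x2 = 0 := hperp x1
  have b3 : zPolar w w = 0 := hperp x2
  have b4 : zPolar x2 x2 = 0 := by
    have h4 := star x1 x2
    rw [← hx2, ← hw] at h4
    rw [hsymm x1 w, hsymm x2 w, b1, b2] at h4
    linear_combination h4
  have b5 : zPolar x2 x1 = 0 := by
    have h4 := star x1 x1
    rw [← hx2, hsymm x1 x2, b4] at h4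
    have h5 : (2 : E) * zPolar x2 x1 = 0 := by linear_combination h4
    exact (mul_eq_zero.mp h5).resolve_left h2
  have b6 : zPolar w x = 0 := by
    have h4 := star x2 x
    rw [← hw, ← hx1, b5, b1] at h4
    linear_combination h4
  -- the smaller subspace
  let ℓ : O8 E →ₗ[E] E :=
    { toFun := fun y => zPolar w y
      map_add' := fun y z => polar_add_right w y z
      map_smul' := fun c y => polar_smul_right w y c }
  let W' : Submodule E (O8 E) := W ⊓ LinearMap.ker ℓ
  have hW'inv : ∀ y ∈ W', N *ᵥ y ∈ W' := by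
    intro y hy
    refine ⟨hW _ hy.1, ?_⟩
    exact hperp y
  have hxW' : x ∈ W' := ⟨hx, b6⟩
  have hlt : W' < W := by
    refine lt_of_le_of_ne inf_le_left ?_
    intro heq
    apply hne
    apply hnd w hwW
    intro y hy
    have : y ∈ W' := by rw [heq]; exact hy
    exact this.2
  have hfin : finrank E W' ≤ 3 := by
    have := Submodule.finrank_lt_finrank_of_lt hlt
    omega
  have h5 := nil_on_sub N hN W' hW'inv hfin x hxW'
  rw [e3] at h5
  exact hne h5

end basic

section charp

variable (p : ℕ) [hp : Fact p.Prime] [CharP E p]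
variable {a b c : Eˣ} {h : a * b * c = 1} {u : GL (Fin 8) E}

include p in
lemma mem_eig_e0 (a b c : Eˣ) (i : Fin 8) : lam a b c i * (e0 : O8 E) i = 1 * (e0 : O8 E) i := by
  fin_cases i <;> simp [e0, lam]

include p in
/-- Without trivial eigenvalue the idempotent is fixed. -/
lemma k0_fix (hu : u ∈ G2 E) {e : ℕ} (hue : u ^ (p ^ e) = 1) (hc : u * tt a b c h = tt a b c h * u)
    (ha : a ≠ 1) (hb : b ≠ 1) (hcc : c ≠ 1) : gv u e0 = e0 := by
  set w : O8 E := gv u e0 with hw
  have hcoord : ∀ i, lam a b c i ≠ 1 → w i = 0 := fun i hi => comm_coord hc (mem_eig_e0 p a b c) i hi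
  have w1 : w 1 = 0 := hcoord 1 (unit_ne ha)
  have w2 : w 2 = 0 := hcoord 2 (unit_ne hb)
  have w3 : w 3 = 0 := hcoord 3 (unit_ne hcc)
  have w4 : w 4 = 0 := hcoord 4 (unit_inv_ne ha)
  have w5 : w 5 = 0 := hcoord 5 (unit_inv_ne hb)
  have w6 : w 6 = 0 := hcoord 6 (unit_inv_ne hcc)
  have hid : zornMul w w = w := by
    rw [hw, ← mem_G2.mp hu, show zornMul (e0 : O8 E) e0 = e0 by apply ext8 <;> simp [e0]]
  have h7 : w 7 * w 7 = w 7 := by
    have := congrFun hid 7
    simpa [w4, w5, w6, w1, w2, w3] using this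
  have hws : w 0 + w 7 = 1 := by
    have := tr_gv' hu (e0 : O8 E)
    rwa [tr_e0] at this
  by_cases h77 : w 7 = 0
  · have h01 : w 0 = 1 := by rw [h77] at hws; linear_combination hws
    apply ext8 <;> simp [e0, w1, w2, w3, w4, w5, w6, h01, h77]
  · exfalso
    have h71 : w 7 = 1 := by
      have : w 7 * (w 7 - 1) = 0 := by rw [mul_sub, h7]; ring
      rcases mul_eq_zero.mp this with h8 | h8
      · exact absurd h8 h77
      · exact sub_eq_zero.mp h8
    have h00 : w 0 = 0 := by rw [h71] at hws; linear_combination hws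
    have hwe : w = e7 := by
      apply ext8 <;> simp [e7, w1, w2, w3, w4, w5, w6, h00, h71]
    have h2swap : gv u e7 = e0 := by
      have : (e7 : O8 E) = zOne - e0 := e7_eq
      rw [this, gv_sub, gv_zOne hu, ← hw, hwe, this]
      abel
    by_cases hp2 : p = 2
    · -- characteristic two
      subst hp2
      have h2E : (2 : E) = 0 := by
        have := CharP.cast_eq_zero E 2
        exact_mod_cast this
      set w' : O8 E := gv u (uA 0) with hw'
      have e1 : zornMul (e7 : O8 E) w' = w' := by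
        have h3 := mem_G2.mp hu e0 (uA 0)
        rw [show zornMul (e0 : O8 E) (uA 0) = uA 0 by apply ext8 <;> simp [e0, uA], ← hw, hwe] at h3
        exact h3.symm
      have e2 : zornMul w' (e7 : O8 E) = 0 := by
        have h3 := mem_G2.mp hu (uA 0) e0
        rw [show zornMul (uA 0 : O8 E) e0 = 0 by apply ext8 <;> simp [e0, uA], ← hw, hwe, gv_zero] at h3
        exact h3.symm
      have c0 : w' 0 = 0 := by
        have := congrFun e1 0
        simpa [e7] using this.symm
      have c1 : w' 1 = 0 := by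
        have := congrFun e2 1
        simpa [e7] using this
      have c2 : w' 2 = 0 := by
        have := congrFun e2 2
        simpa [e7] using this
      have c3 : w' 3 = 0 := by
        have := congrFun e2 3
        simpa [e7] using this
      have c7 : w' 7 = 0 := by
        have := congrFun e2 7
        simpa [e7] using this
      have hv0 : ∀ i, lam a b c i * (uA 0 : O8 E) i = (a : E) * (uA 0 : O8 E) i := by
        intro i
        fin_cases i <;> simp [uA, lam]
      have hsq : ∀ x : Eˣ, x ≠ 1 → ((x⁻¹ : Eˣ) : E) ≠ x := by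
        intro x hx he
        apply unit_ne hx
        have h3 : (x : E) * x = 1 := by
          have h4 : ((x⁻¹ : Eˣ) : E) * x = 1 := by simp
          rwa [he] at h4
        have h5 : ((x : E) - 1) * ((x : E) - 1) = 0 := by
          linear_combination h3 + (1 - (x : E)) * h2E
        have := mul_self_eq_zero.mp h5
        exact sub_eq_zero.mp this
      have c4 : w' 4 = 0 := comm_coord hc hv0 4 (hsq a ha)
      have c5 : w' 5 = 0 := by
        apply comm_coord hc hv0 5
        intro he
        apply hcc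
        have h3 : b⁻¹ = a := Units.ext he
        have h4 : a * b = 1 := by rw [← h3]; simp
        rw [h4, one_mul] at h
        exact h
      have c6 : w' 6 = 0 := by
        apply comm_coord hc hv0 6
        intro he
        apply hb
        have h3 : c⁻¹ = a := Units.ext he
        have h4 : a * c = 1 := by rw [← h3]; simp
        have h5 : a * b * c = a * c * b := by ac_rfl
        rw [h5, h4, one_mul] at h
        exact h
      have hz : w' = 0 := by
        apply ext8 <;> simp [c0, c1, c2, c3, c4, c5, c6, c7]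
      have hz' : (uA 0 : O8 E) = 0 := by
        apply gv_inj u
        rw [← hw', hz, gv_zero]
      have := congrFun hz' 1
      simp [uA] at this
    · -- odd characteristic
      have hodd : Odd (p ^ e) := (hp.out.odd_of_ne_two hp2).pow
      obtain ⟨n, hn⟩ := hodd
      have key : ∀ k : ℕ, gv (u ^ (2 * k)) e0 = e0 := by
        intro k
        induction k with
        | zero => simp
        | succ k ih =>
          rw [show 2 * (k + 1) = 2 * k + 1 + 1 by ring, pow_succ, gv_mul, pow_succ, gv_mul, ← hw, hwe, h2swap, ih]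
      have h3 : gv (u ^ (2 * n + 1)) e0 = e7 := by
        rw [pow_succ', gv_mul, key, ← hw, hwe]
      rw [← hn, hue, gv_one] at h3
      have := congrFun h3 0
      simp [e0, e7] at this

include p in
/-- Without trivial eigenvalue the automorphism comes from `SL₃`. -/
lemma k0_iota (hu : u ∈ G2 E) {e : ℕ} (hue : u ^ (p ^ e) = 1) (hc : u * tt a b c h = tt a b c h * u)
    (ha : a ≠ 1) (hb : b ≠ 1) (hcc : c ≠ 1) :
    ∃ A : SL3 E, u = iota A ∧ A ^ (p ^ e) = 1 ∧ A * dd a b c h = dd a b c h * A := by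
  obtain ⟨A, hA⟩ := stab hu (k0_fix p hu hue hc ha hb hcc)
  refine ⟨A, hA, ?_, ?_⟩
  · apply iota_inj
    rw [iota_pow, ← hA, hue, iota_one]
  · apply iota_inj
    rw [iota_mul, iota_mul, ← hA]
    exact hc

lemma coe_pow_sl {A : SL3 E} (k : ℕ) : ((A ^ k : SL3 E) : M3 E) = (A : M3 E) ^ k := by
  induction k with
  | zero => rfl
  | succ k ih =>
    rw [pow_succ, pow_succ, ← ih]
    exact Matrix.SpecialLinearGroup.coe_mul _ _

include p in
lemma sl_nil {A : SL3 E} {e : ℕ} (h1 : A ^ (p ^ e) = 1) : ((A : M3 E) - 1) ^ 3 = 0 := by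
  apply nil_fin
  apply unip_nil p (e := e)
  rw [← coe_pow_sl, h1]
  rfl

include p in
/-- Odd characteristic: order `p`. -/
lemma sl_pow_p (hp2 : p ≠ 2) {A : SL3 E} {e : ℕ} (h1 : A ^ (p ^ e) = 1) : A ^ p = 1 := by
  apply Subtype.ext
  show ((A ^ p : SL3 E) : M3 E) = 1
  rw [coe_pow_sl]
  have h2 := sl_nil p h1
  have h3 : 3 ≤ p := by
    have := hp.out.two_le
    omega
  have h4 := pow_p_of_nil p (U := (A : M3 E))
  obtain ⟨d, hd⟩ := Nat.exists_eq_add_of_le h3
  have h5 : ((A : M3 E) - 1) ^ p = 0 := by rw [hd, pow_add, h2, zero_mul]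
  rw [h5] at h4
  exact sub_eq_zero.mp h4

include p in
/-- Characteristic two: order dividing four. -/
lemma sl_pow_four (hp2 : p = 2) {A : SL3 E} {e : ℕ} (h1 : A ^ (p ^ e) = 1) : A ^ 4 = 1 := by
  subst hp2
  apply Subtype.ext
  show ((A ^ 4 : SL3 E) : M3 E) = 1
  rw [coe_pow_sl]
  have h2 := sl_nil 2 h1
  have h4 : ((A : M3 E) - 1) ^ (2 ^ 2) = (A : M3 E) ^ (2 ^ 2) - 1 ^ (2 ^ 2) :=
    sub_pow_char_pow_of_commute 2 2 (Commute.one_right _)
  rw [show (2 : ℕ) ^ 2 = 3 + 1 by norm_num, pow_add, h2, zero_mul, one_pow] at h4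
  exact (sub_eq_zero.mp h4.symm)

include p in
/-- Distinct eigenvalues. -/
lemma sl_distinct {A : SL3 E} {e : ℕ} (h1 : A ^ (p ^ e) = 1) (hcomm : A * dd a b c h = dd a b c h * A)
    (hab : a ≠ b) (hbc : b ≠ c) (hac : a ≠ c) : A = 1 := by
  have hM : (A : M3 E) * Matrix.diagonal ![(a : E), b, c] = Matrix.diagonal ![(a : E), b, c] * (A : M3 E) := by
    have := congrArg (fun X : SL3 E => (X : M3 E)) hcomm
    exact this
  have hent : ∀ i j, (A : M3 E) i j * (![(a : E), b, c] j - ![(a : E), b, c] i) = 0 := by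
    intro i j
    have := congrFun (congrFun hM i) j
    rw [Matrix.mul_diagonal, Matrix.diagonal_mul] at this
    rw [mul_sub, this]
    ring
  have ne : ∀ x y : Eˣ, x ≠ y → (x : E) - y ≠ 0 := fun x y hxy h => hxy (Units.ext (sub_eq_zero.mp h))
  have hoff : ∀ i j, i ≠ j → (A : M3 E) i j = 0 := by
    intro i j hij
    have h2 := hent i j
    have h3 : ![(a : E), b, c] j - ![(a : E), b, c] i ≠ 0 := by
      fin_cases i <;> fin_cases j <;> first
        | exact absurd rfl hij
        | exact ne _ _ hab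
        | exact ne _ _ hbc
        | exact ne _ _ hac
        | exact ne _ _ hab.symm
        | exact ne _ _ hbc.symm
        | exact ne _ _ hac.symm
    exact (mul_eq_zero.mp h2).resolve_right h3
  have hdiag : (A : M3 E) = Matrix.diagonal (fun i => (A : M3 E) i i) := by
    ext i j
    by_cases hij : i = j
    · subst hij
      simp
    · rw [hoff i j hij, Matrix.diagonal_apply_ne _ hij]
  have hpow : (A : M3 E) ^ (p ^ e) = 1 := by
    rw [← coe_pow_sl, h1]
    rfl
  rw [hdiag, Matrix.diagonal_pow] at hpow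
  have hone : ∀ i, (A : M3 E) i i = 1 := by
    intro i
    have h2 := congrFun (congrFun hpow i) i
    simp only [Matrix.diagonal_apply_eq, Matrix.one_apply_eq, Pi.pow_apply] at h2
    exact scalar_one p h2
  apply Subtype.ext
  show (A : M3 E) = 1
  rw [hdiag]
  rw [← Matrix.diagonal_one]
  congr 1
  funext i
  exact hone i

include p in
/-- Two equal eigenvalues in characteristic two. -/
lemma sl_two_equal (hp2 : p = 2) {A : SL3 E} {e : ℕ} (h1 : A ^ (p ^ e) = 1) (hcomm : A * dd a b c h = dd a b c h * A)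
    (hab : a = b) (hac : a ≠ c) : A ^ 2 = 1 := by
  subst hp2
  have hM : (A : M3 E) * Matrix.diagonal ![(a : E), b, c] = Matrix.diagonal ![(a : E), b, c] * (A : M3 E) := by
    have := congrArg (fun X : SL3 E => (X : M3 E)) hcomm
    exact this
  have hent : ∀ i j, (A : M3 E) i j * (![(a : E), b, c] j - ![(a : E), b, c] i) = 0 := by
    intro i j
    have := congrFun (congrFun hM i) j
    rw [Matrix.mul_diagonal, Matrix.diagonal_mul] at this
    rw [mul_sub, this]
    ring
  have hne : (a : E) - c ≠ 0 := fun h => hac (Units.ext (sub_eq_zero.mp h))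
  have hne' : (c : E) - a ≠ 0 := fun h => hac (Units.ext (sub_eq_zero.mp h).symm)
  subst hab
  have a02 : (A : M3 E) 0 2 = 0 := (mul_eq_zero.mp (hent 0 2)).resolve_right (by simpa using hne')
  have a12 : (A : M3 E) 1 2 = 0 := (mul_eq_zero.mp (hent 1 2)).resolve_right (by simpa using hne')
  have a20 : (A : M3 E) 2 0 = 0 := (mul_eq_zero.mp (hent 2 0)).resolve_right (by simpa using hne)
  have a21 : (A : M3 E) 2 1 = 0 := (mul_eq_zero.mp (hent 2 1)).resolve_right (by simpa using hne)
  set N : M3 E := (A : M3 E) - 1 with hN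
  have hpow : (A : M3 E) ^ (2 ^ e) = 1 := by
    rw [← coe_pow_sl, h1]
    rfl
  have hnil : IsNilpotent N := unip_nil 2 hpow
  -- the third vector
  let v2 : Fin 3 → E := ![0, 0, 1]
  have hAv : ∀ k : ℕ, (A : M3 E) ^ k *ᵥ v2 = ((A : M3 E) 2 2) ^ k • v2 := by
    intro k
    induction k with
    | zero => simp
    | succ k ih =>
      rw [pow_succ' (A : M3 E), ← Matrix.mulVec_mulVec, ih, Matrix.mulVec_smul, pow_succ, mul_smul]
      congr 1
      funext i
      fin_cases i <;> simp [v2, Matrix.mulVec, dotProduct, Fin.sum_univ_three, a02, a12]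
  have hd : (A : M3 E) 2 2 = 1 := by
    have h2 := hAv (2 ^ e)
    rw [hpow, Matrix.one_mulVec] at h2
    have h3 := congrFun h2 2
    simp [v2] at h3
    exact scalar_one 2 h3.symm
  have hNv : N *ᵥ v2 = 0 := by
    funext i
    fin_cases i <;> simp [N, v2, Matrix.mulVec, dotProduct, Fin.sum_univ_three, a02, a12, hd, Matrix.sub_apply, Matrix.one_apply]
  have hsub : ∀ w ∈ coordSub (E := E) ({0, 1} : Finset (Fin 3)), (N ^ 2) *ᵥ w = 0 := by
    apply nil_on_sub N hnil
    · intro w hw i hi
      have hw2 : w 2 = 0 := hw 2 (by decide)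
      have hi2 : i = 2 := by
        fin_cases i
        · exact absurd (by decide) hi
        · exact absurd (by decide) hi
        · rfl
      subst hi2
      simp [N, Matrix.mulVec, dotProduct, Fin.sum_univ_three, a20, a21, hd, hw2, Matrix.sub_apply, Matrix.one_apply]
    · exact (finrank_coordSub _).trans (by decide)
  have hN2 : N ^ 2 = 0 := by
    apply Matrix.ext
    intro i j
    have key : (N ^ 2) *ᵥ (Pi.single j 1) = 0 := by
      fin_cases j
      · apply hsub
        intro k hk
        fin_cases k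
        · exact absurd (by decide) hk
        · exact absurd (by decide) hk
        · simp
      · apply hsub
        intro k hk
        fin_cases k
        · exact absurd (by decide) hk
        · exact absurd (by decide) hk
        · simp
      · have : (Pi.single (2 : Fin 3) (1 : E) : Fin 3 → E) = v2 := by
          funext k
          fin_cases k <;> simp [v2]
        show (N ^ 2) *ᵥ (Pi.single (2 : Fin 3) (1 : E)) = 0
        rw [this, pow_two, ← Matrix.mulVec_mulVec, hNv, Matrix.mulVec_zero]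
    have := congrFun key i
    simpa using this
  apply Subtype.ext
  show ((A ^ 2 : SL3 E) : M3 E) = 1
  rw [coe_pow_sl]
  have h4 := pow_p_of_nil 2 (U := (A : M3 E))
  rw [← hN, hN2] at h4
  exact sub_eq_zero.mp h4

end charp

end Cfsg.Agent.Lib.G2Spec
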