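import Cfsg.Agent.Lib.G2Spec.Unip2

/-!
# Unipotent automorphisms commuting with a torus element: summary
-/

set_option autoImplicit false
set_option linter.unusedSectionVars false
set_option linter.unusedVariables false
set_option linter.unusedSimpArgs false
set_option maxRecDepth 100000

namespace Cfsg.Agent.Lib.G2Spec

open Cfsg Cfsg.Lie Cfsg.Agent.Lib.ZornAlg Matrix Polynomial Module

variable {E : Type*} [Field E]

section charp

variable (p : ℕ) [hp : Fact p.Prime] [CharP E p]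
variable {a b c : Eˣ} {h : a * b * c = 1} {u : GL (Fin 8) E}

include p in
/-- The group element from the matrix power. -/
lemma gv_pow_fix {U : M8 E} {v : O8 E} (hN : ((U - 1) ^ p) *ᵥ v = 0) : (U ^ p) *ᵥ v = v := by
  have h1 := pow_p_of_nil p (U := U)
  rw [← h1, Matrix.sub_mulVec, Matrix.one_mulVec, sub_eq_zero] at hN
  exact hN

include p in
/-- One trivial eigenvalue. -/
lemma k1_pow (hu : u ∈ G2 E) {e : ℕ} (hue : u ^ (p ^ e) = 1) (hc : u * tt a b c h = tt a b c h * u)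
    (hc1 : c = 1) (ha : a ≠ 1) : u ^ p = 1 := by
  subst hc1
  have hb : b = a⁻¹ := by
    rw [mul_one] at h
    exact eq_inv_of_mul_eq_one_right h
  subst hb
  set U : M8 E := (u : M8 E) with hU
  have hUe : U ^ (p ^ e) = 1 := by
    have := congrArg (fun X : GL (Fin 8) E => (X : M8 E)) hue
    simpa using this
  have hnil : IsNilpotent (U - 1) := unip_nil p hUe
  have hNv : ∀ v, (U - 1) *ᵥ v = gv u v - v := by
    intro v
    rw [Matrix.sub_mulVec, Matrix.one_mulVec]
    rfl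
  have hv1 : (a : E) ≠ 1 := unit_ne ha
  have hv2 : ((a⁻¹ : Eˣ) : E) ≠ 1 := unit_inv_ne ha
  have hinvinv : ((a⁻¹⁻¹ : Eˣ) : E) = a := by simp
  have hone : (((1 : Eˣ)⁻¹ : Eˣ) : E) = 1 := by simp
  have inv_sub : ∀ (μ : E) (S : Finset (Fin 8)), (∀ i, i ∈ S ↔ lam a a⁻¹ 1 i = μ) →
      ∀ w ∈ coordSub (E := E) S, (U - 1) *ᵥ w ∈ coordSub (E := E) S := by
    intro μ S hS w hw
    rw [hNv]
    exact Submodule.sub_mem _ (comm_sub hc hS hw) hw
  have key : ∀ v ∈ ({uA 0, uA 1, uB 0, uB 1} : Set (O8 E)), (U ^ p) *ᵥ v = v := by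
    by_cases hcase : ((a⁻¹ : Eˣ) : E) = a
    · -- `a = -1`
      have h2 : (2 : E) ≠ 0 := by
        intro h20
        apply hv1
        have h3 : (a : E) * a = 1 := by
          have h4 : ((a⁻¹ : Eˣ) : E) * a = 1 := by simp
          rwa [hcase] at h4
        have h5 : ((a : E) - 1) * ((a : E) - 1) = 0 := by
          linear_combination h3 + (1 - (a : E)) * h20
        exact sub_eq_zero.mp (mul_self_eq_zero.mp h5)
      have hS : ∀ i, i ∈ ({1, 2, 4, 5} : Finset (Fin 8)) ↔ lam a a⁻¹ 1 i = a := by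
        intro i
        have hcase' : ((a : E))⁻¹ = a := by
          rw [← Units.val_inv_eq_inv_val]
          exact hcase
        fin_cases i <;> simp [lam, hcase', hinvinv, hone, hv1.symm, ha, Ne.symm ha]
      have hp3 : 3 ≤ p := by
        have h3 := hp.out.two_le
        have h4 : p ≠ 2 := by
          rintro rfl
          apply h2
          have := CharP.cast_eq_zero E 2
          exact_mod_cast this
        omega
      have hmem : ∀ v ∈ coordSub (E := E) ({1, 2, 4, 5} : Finset (Fin 8)), (U ^ p) *ᵥ v = v := by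
        intro v hv
        apply gv_pow_fix p
        have hnd : ∀ w ∈ coordSub (E := E) ({1, 2, 4, 5} : Finset (Fin 8)),
            (∀ y ∈ coordSub (E := E) ({1, 2, 4, 5} : Finset (Fin 8)), zPolar w y = 0) → w = 0 := by
          intro w hw hy
          have hA0 : (uA 0 : O8 E) ∈ coordSub (E := E) ({1, 2, 4, 5} : Finset (Fin 8)) := by
            intro i hi
            fin_cases i <;> simp [uA] at hi ⊢
          have hA1 : (uA 1 : O8 E) ∈ coordSub (E := E) ({1, 2, 4, 5} : Finset (Fin 8)) := by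
            intro i hi
            fin_cases i <;> simp [uA] at hi ⊢
          have hB0 : (uB 0 : O8 E) ∈ coordSub (E := E) ({1, 2, 4, 5} : Finset (Fin 8)) := by
            intro i hi
            fin_cases i <;> simp [uB] at hi ⊢
          have hB1 : (uB 1 : O8 E) ∈ coordSub (E := E) ({1, 2, 4, 5} : Finset (Fin 8)) := by
            intro i hi
            fin_cases i <;> simp [uB] at hi ⊢
          have w4 := hy _ hA0
          have w5 := hy _ hA1
          have w1 := hy _ hB0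
          have w2 := hy _ hB1
          simp [zPolar, uA, uB] at w1 w2 w4 w5
          have z0 : w 0 = 0 := hw 0 (by decide)
          have z3 : w 3 = 0 := hw 3 (by decide)
          have z6 : w 6 = 0 := hw 6 (by decide)
          have z7 : w 7 = 0 := hw 7 (by decide)
          apply ext8 <;> simp [z0, z3, z6, z7, w1, w2, w4, w5]
        have h3 := orth_nil h2 hu hnil (coordSub (E := E) ({1, 2, 4, 5} : Finset (Fin 8))) (inv_sub _ _ hS) ((finrank_coordSub _).trans (by decide)) hnd v hv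
        obtain ⟨d, hd⟩ := Nat.exists_eq_add_of_le hp3
        rw [hd, add_comm, pow_add, ← Matrix.mulVec_mulVec, h3, Matrix.mulVec_zero]
      intro v hv
      apply hmem
      rcases hv with rfl | rfl | rfl | rfl <;>
      · intro i hi
        fin_cases i <;> simp [uA, uB] at hi ⊢
    · -- generic case
      have hne : (a : E) ≠ ((a⁻¹ : Eˣ) : E) := fun h => hcase h.symm
      have hcase' : ((a : E))⁻¹ ≠ a := by
        rw [← Units.val_inv_eq_inv_val]
        exact hcase
      have hne' : (a : E) ≠ ((a : E))⁻¹ := fun h => hcase' h.symm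
      have hv2' : ((a : E))⁻¹ ≠ 1 := by
        rw [← Units.val_inv_eq_inv_val]
        exact hv2
      have hS1 : ∀ i, i ∈ ({1, 5} : Finset (Fin 8)) ↔ lam a a⁻¹ 1 i = a := by
        intro i
        fin_cases i <;> simp [lam, hinvinv, hone, hv1.symm, hcase', ha, hv2'.symm, hne', Ne.symm ha]
      have hS2 : ∀ i, i ∈ ({2, 4} : Finset (Fin 8)) ↔ lam a a⁻¹ 1 i = ((a⁻¹ : Eˣ) : E) := by
        intro i
        fin_cases i <;> simp [lam, hinvinv, hone, hv2.symm, hne', hcase', ha, Ne.symm ha]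
      have hp2 : 2 ≤ p := hp.out.two_le
      obtain ⟨d, hd⟩ := Nat.exists_eq_add_of_le hp2
      have hm1 : ∀ v ∈ coordSub (E := E) ({1, 5} : Finset (Fin 8)), (U ^ p) *ᵥ v = v := by
        intro v hv
        apply gv_pow_fix p
        have h3 := nil_on_sub (k := 2) (U - 1) hnil (coordSub (E := E) ({1, 5} : Finset (Fin 8))) (inv_sub _ _ hS1) ((finrank_coordSub _).trans (by decide)) v hv
        rw [hd, add_comm, pow_add, ← Matrix.mulVec_mulVec, h3, Matrix.mulVec_zero]
      have hm2 : ∀ v ∈ coordSub (E := E) ({2, 4} : Finset (Fin 8)), (U ^ p) *ᵥ v = v := by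
        intro v hv
        apply gv_pow_fix p
        have h3 := nil_on_sub (k := 2) (U - 1) hnil (coordSub (E := E) ({2, 4} : Finset (Fin 8))) (inv_sub _ _ hS2) ((finrank_coordSub _).trans (by decide)) v hv
        rw [hd, add_comm, pow_add, ← Matrix.mulVec_mulVec, h3, Matrix.mulVec_zero]
      intro v hv
      rcases hv with rfl | rfl | rfl | rfl
      · apply hm1
        intro i hi
        fin_cases i <;> simp [uA] at hi ⊢
      · apply hm2
        intro i hi
        fin_cases i <;> simp [uA] at hi ⊢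
      · apply hm2
        intro i hi
        fin_cases i <;> simp [uB] at hi ⊢
      · apply hm1
        intro i hi
        fin_cases i <;> simp [uB] at hi ⊢
  have hgv : ∀ v, gv (u ^ p) v = (U ^ p) *ᵥ v := by
    intro v
    simp [gv, hU]
  apply fix_all (pow_mem hu p)
  · rw [hgv]; exact key _ (by simp)
  · rw [hgv]; exact key _ (by simp)
  · rw [hgv]; exact key _ (by simp)
  · rw [hgv]; exact key _ (by simp)

/-! ### Rotation -/

/-- The cyclic permutation matrix. -/
def Pc (E : Type*) [Field E] : SL3 E :=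
  ⟨!![0, 1, 0; 0, 0, 1; 1, 0, 0], by
    rw [Matrix.det_fin_three]
    simp⟩

lemma Pc_dd (a b c : Eˣ) (h : a * b * c = 1) (h' : b * c * a = 1) : Pc E * dd a b c h = dd b c a h' * Pc E := by
  apply Subtype.ext
  show ((Pc E : SL3 E) : M3 E) * ((dd a b c h : SL3 E) : M3 E) = ((dd b c a h' : SL3 E) : M3 E) * ((Pc E : SL3 E) : M3 E)
  rw [coe_dd, coe_dd]
  ext i j
  fin_cases i <;> fin_cases j <;> simp [Pc, Matrix.mul_apply, Fin.sum_univ_three, Matrix.diagonal_apply]

omit [CharP E p] hp in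
/-- Rotating the parameters. -/
lemma rot_tt (h' : b * c * a = 1) (hc : u * tt a b c h = tt a b c h * u) :
    (iota (Pc E) * u * (iota (Pc E))⁻¹) * tt b c a h' = tt b c a h' * (iota (Pc E) * u * (iota (Pc E))⁻¹) := by
  have e : iota (Pc E) * tt a b c h = tt b c a h' * iota (Pc E) := by
    rw [tt, tt, ← iota_mul, ← iota_mul, Pc_dd]
  have e' : tt b c a h' = iota (Pc E) * tt a b c h * (iota (Pc E))⁻¹ := by
    rw [e]
    group
  rw [e']
  calc _ = iota (Pc E) * (u * tt a b c h) * (iota (Pc E))⁻¹ := by group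
    _ = iota (Pc E) * (tt a b c h * u) * (iota (Pc E))⁻¹ := by rw [hc]
    _ = _ := by group

omit [CharP E p] hp in
lemma rot_pow (n : ℕ) (h1 : (iota (Pc E) * u * (iota (Pc E))⁻¹) ^ n = 1) : u ^ n = 1 := by
  rw [conj_pow] at h1
  exact (conj_eq_one_iff).mp h1

omit [CharP E p] hp in
lemma rot_pow' (n : ℕ) (h1 : u ^ n = 1) : (iota (Pc E) * u * (iota (Pc E))⁻¹) ^ n = 1 := by
  rw [conj_pow, h1]
  group

omit [CharP E p] hp in
lemma rot_mem (hu : u ∈ G2 E) : iota (Pc E) * u * (iota (Pc E))⁻¹ ∈ G2 E :=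
  mul_mem (mul_mem (YG_le (iota_mem_YG _)) hu) (inv_mem (YG_le (iota_mem_YG _)))

lemma rot_h (h : a * b * c = 1) : b * c * a = 1 := by
  rw [← h]
  ac_rfl

lemma tfinv (x y : Eˣ) (hxy : x * y = 1) : tf (x : E) = tf (y : E) := by
  have : y = x⁻¹ := eq_inv_of_mul_eq_one_right hxy
  subst this
  rw [Units.val_inv_eq_inv_val, tf_inv]

include p in
lemma k1_a (hu : u ∈ G2 E) {e : ℕ} (hue : u ^ (p ^ e) = 1) (hc : u * tt a b c h = tt a b c h * u)
    (hs : ¬ (a = 1 ∧ b = 1 ∧ c = 1)) (h1 : a = 1) : u ^ p = 1 := by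
  subst h1
  have hbc : b * c = 1 := by simpa using h
  have hb : b ≠ 1 := by
    rintro rfl
    apply hs
    refine ⟨rfl, rfl, ?_⟩
    simpa using hbc
  have hk := k1_pow p (a := b) (b := c) (c := 1) (h := rot_h h) (u := iota (Pc E) * u * (iota (Pc E))⁻¹)
    (rot_mem hu) (rot_pow' _ hue) (rot_tt _ hc) rfl hb
  exact rot_pow p hk

include p in
lemma k1_b (hu : u ∈ G2 E) {e : ℕ} (hue : u ^ (p ^ e) = 1) (hc : u * tt a b c h = tt a b c h * u)
    (hs : ¬ (a = 1 ∧ b = 1 ∧ c = 1)) (h1 : b = 1) : u ^ p = 1 := by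
  have hk := k1_a p (a := b) (b := c) (c := a) (h := rot_h h) (u := iota (Pc E) * u * (iota (Pc E))⁻¹)
    (rot_mem hu) (rot_pow' _ hue) (rot_tt _ hc) (fun e => hs ⟨e.2.2, e.1, e.2.1⟩) h1
  exact rot_pow p hk

include p in
/-- One trivial eigenvalue, any position. -/
lemma k1_gen (hu : u ∈ G2 E) {e : ℕ} (hue : u ^ (p ^ e) = 1) (hc : u * tt a b c h = tt a b c h * u)
    (hs : ¬ (a = 1 ∧ b = 1 ∧ c = 1)) (h1 : a = 1 ∨ b = 1 ∨ c = 1) :
    u ^ p = 1 ∧ (tf (a : E) = tf (b : E) ∨ tf (b : E) = tf (c : E) ∨ tf (c : E) = tf (a : E)) := by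
  rcases h1 with h1 | h1 | h1
  · refine ⟨k1_a p hu hue hc hs h1, Or.inr (Or.inl (tfinv _ _ ?_))⟩
    subst h1
    simpa using h
  · refine ⟨k1_b p hu hue hc hs h1, Or.inr (Or.inr (tfinv _ _ ?_))⟩
    subst h1
    rw [← h]
    simp [mul_comm]
  · subst h1
    have hab : a * b = 1 := by simpa using h
    have ha : a ≠ 1 := by
      rintro rfl
      apply hs
      refine ⟨rfl, ?_, rfl⟩
      simpa using hab
    exact ⟨k1_pow p hu hue hc rfl ha, Or.inl (tfinv _ _ hab)⟩

include p in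
lemma two_eq_1 (hp2 : p = 2) (hu : u ∈ G2 E) {e : ℕ} (hue : u ^ (p ^ e) = 1) (hc : u * tt a b c h = tt a b c h * u)
    (ha : a ≠ 1) (hb : b ≠ 1) (hcc : c ≠ 1) (hab : a = b) (hac : a ≠ c) : u ^ 2 = 1 := by
  obtain ⟨A, rfl, hA, hcomm⟩ := k0_iota p hu hue hc ha hb hcc
  rw [← iota_pow, sl_two_equal p hp2 hA hcomm hab hac, iota_one]

include p in
lemma two_eq_2 (hp2 : p = 2) (hu : u ∈ G2 E) {e : ℕ} (hue : u ^ (p ^ e) = 1) (hc : u * tt a b c h = tt a b c h * u)
    (ha : a ≠ 1) (hb : b ≠ 1) (hcc : c ≠ 1) (hbc : b = c) (hba : b ≠ a) : u ^ 2 = 1 := by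
  have hk := two_eq_1 p hp2 (a := b) (b := c) (c := a) (h := rot_h h) (u := iota (Pc E) * u * (iota (Pc E))⁻¹)
    (rot_mem hu) (rot_pow' _ hue) (rot_tt _ hc) hb hcc ha hbc hba
  exact rot_pow 2 hk

include p in
lemma two_eq_3 (hp2 : p = 2) (hu : u ∈ G2 E) {e : ℕ} (hue : u ^ (p ^ e) = 1) (hc : u * tt a b c h = tt a b c h * u)
    (ha : a ≠ 1) (hb : b ≠ 1) (hcc : c ≠ 1) (hca : c = a) (hcb : c ≠ b) : u ^ 2 = 1 := by
  have hk := two_eq_2 p hp2 (a := b) (b := c) (c := a) (h := rot_h h) (u := iota (Pc E) * u * (iota (Pc E))⁻¹)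
    (rot_mem hu) (rot_pow' _ hue) (rot_tt _ hc) hb hcc ha hca hcb
  exact rot_pow 2 hk

/-- Two traces equal. -/
def Pair (a b c : Eˣ) : Prop := tf (a : E) = tf (b : E) ∨ tf (b : E) = tf (c : E) ∨ tf (c : E) = tf (a : E)

include p in
/-- Odd characteristic. -/
theorem unip_odd (hp2 : p ≠ 2) (hu : u ∈ G2 E) {e : ℕ} (hue : u ^ (p ^ e) = 1) (hc : u * tt a b c h = tt a b c h * u)
    (hs : ¬ (a = 1 ∧ b = 1 ∧ c = 1)) : u ^ p = 1 ∧ (u ≠ 1 → Pair a b c) := by
  by_cases h1 : a = 1 ∨ b = 1 ∨ c = 1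
  · obtain ⟨e1, e2⟩ := k1_gen p hu hue hc hs h1
    exact ⟨e1, fun _ => e2⟩
  · push Not at h1
    obtain ⟨ha, hb, hcc⟩ := h1
    obtain ⟨A, rfl, hA, hcomm⟩ := k0_iota p hu hue hc ha hb hcc
    refine ⟨?_, ?_⟩
    · rw [← iota_pow, sl_pow_p p hp2 hA, iota_one]
    · intro hne
      by_contra hpair
      simp only [Pair, not_or] at hpair
      apply hne
      rw [sl_distinct p hA hcomm (fun e => hpair.1 (by rw [e])) (fun e => hpair.2.1 (by rw [e]))
        (fun e => hpair.2.2 (by rw [e])), iota_one]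

include p in
/-- Characteristic two. -/
theorem unip_two (hp2 : p = 2) (hu : u ∈ G2 E) {e : ℕ} (hue : u ^ (p ^ e) = 1) (hc : u * tt a b c h = tt a b c h * u)
    (hs : ¬ (a = 1 ∧ b = 1 ∧ c = 1)) : (u ^ 2 = 1 ∧ (u ≠ 1 → Pair a b c)) ∨ (a = b ∧ b = c ∧ u ^ 4 = 1) := by
  subst hp2
  by_cases h1 : a = 1 ∨ b = 1 ∨ c = 1
  · obtain ⟨e1, e2⟩ := k1_gen 2 hu hue hc hs h1
    exact Or.inl ⟨e1, fun _ => e2⟩
  · push Not at h1
    obtain ⟨ha, hb, hcc⟩ := h1
    have tf_eq_of : ∀ x y : Eˣ, x = y → tf (x : E) = tf (y : E) := fun x y e => by rw [e]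
    by_cases hab : a = b
    · by_cases hbc : b = c
      · right
        refine ⟨hab, hbc, ?_⟩
        obtain ⟨A, rfl, hA, hcomm⟩ := k0_iota 2 hu hue hc ha hb hcc
        rw [← iota_pow, sl_pow_four 2 rfl hA, iota_one]
      · left
        obtain ⟨A, rfl, hA, hcomm⟩ := k0_iota 2 hu hue hc ha hb hcc
        refine ⟨?_, fun _ => Or.inl (tf_eq_of _ _ hab)⟩
        rw [← iota_pow, sl_two_equal 2 rfl hA hcomm hab (by rwa [hab]), iota_one]
    · by_cases hbc : b = c
      · left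
        exact ⟨two_eq_2 2 rfl hu hue hc ha hb hcc hbc (fun e => hab e.symm), fun _ => Or.inr (Or.inl (tf_eq_of _ _ hbc))⟩
      · by_cases hca : c = a
        · left
          exact ⟨two_eq_3 2 rfl hu hue hc ha hb hcc hca (fun e => hbc e.symm), fun _ => Or.inr (Or.inr (tf_eq_of _ _ hca))⟩
        · left
          obtain ⟨A, rfl, hA, hcomm⟩ := k0_iota 2 hu hue hc ha hb hcc
          have hA1 := sl_distinct 2 hA hcomm hab hbc (fun e => hca e.symm)
          rw [hA1, iota_one]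
          exact ⟨one_pow _, fun h1 => absurd rfl h1⟩

end charp

end Cfsg.Agent.Lib.G2Spec
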