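import Cfsg.Agent.Lib.G2Spec.Unip3
import Cfsg.Agent.Lib.G2Spec.Frob

/-!
# Upper bound: every element order divides one of the expected numbers
-/

set_option autoImplicit false
set_option linter.unusedSectionVars false
set_option linter.unusedVariables false
set_option linter.unusedSimpArgs false
set_option maxRecDepth 100000

namespace Cfsg.Agent.Lib.G2Spec

open Cfsg Cfsg.Lie Cfsg.Agent.Lib.ZornAlg Matrix Polynomial Module

section unip

variable {F : Type*} [Field F] (p : ℕ) [hp : Fact p.Prime] [CharP F p]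

lemma coe_gl_pow (u : GL (Fin 8) F) (n : ℕ) : ((u ^ n : GL (Fin 8) F) : M8 F) = (u : M8 F) ^ n := by
  simp

lemma gl_eq_one_of (u : GL (Fin 8) F) (n : ℕ) (h : ((u : M8 F) - 1) ^ (p ^ n) = 0) : u ^ (p ^ n) = 1 := by
  apply Units.ext
  rw [coe_gl_pow]
  have h1 := sub_pow_char_pow_of_commute p n (Commute.one_right (u : M8 F))
  rw [h, one_pow] at h1
  simpa [sub_eq_zero] using h1.symm

include p in
lemma nil8 {u : GL (Fin 8) F} {e : ℕ} (hue : u ^ (p ^ e) = 1) : ((u : M8 F) - 1) ^ 8 = 0 := by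
  apply nil_fin
  apply unip_nil p (e := e)
  rw [← coe_gl_pow, hue]
  simp

lemma pow_seven (hp7 : p = 7) {u : GL (Fin 8) F} (hu : u ∈ G2 F) {e : ℕ} (hue : u ^ (p ^ e) = 1) :
    u ^ 7 = 1 := by
  subst hp7
  have h2 : (2 : F) ≠ 0 := by
    intro h
    have h1 : ((2 : ℕ) : F) = 0 := by exact_mod_cast h
    rw [CharP.cast_eq_zero_iff F 7] at h1
    omega
  set N : M8 F := (u : M8 F) - 1 with hN
  have hnil : IsNilpotent N := ⟨8, nil8 7 hue⟩
  let W : Submodule F (O8 F) :=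
    { carrier := {x | tr x = 0}
      add_mem' := by
        intro a b ha hb
        simp only [Set.mem_setOf_eq] at *
        rw [tr_add, ha, hb, add_zero]
      zero_mem' := by simp [tr]
      smul_mem' := by
        intro c x hx
        simp only [Set.mem_setOf_eq] at *
        rw [tr_smul, hx, mul_zero] }
  have hWne : W ≠ ⊤ := by
    intro h
    have h1 : (zOne : O8 F) ∈ W := by rw [h]; trivial
    have h3 : tr (zOne : O8 F) = 0 := h1
    rw [tr_zOne] at h3
    exact h2 h3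
  have hW7 : finrank F W ≤ 7 := by
    have := Submodule.finrank_lt hWne
    simp only [finrank_fintype_fun_eq_card, Fintype.card_fin] at this
    omega
  have hnv : ∀ y, N *ᵥ y = gv u y - y := by
    intro y
    rw [hN, Matrix.sub_mulVec, Matrix.one_mulVec]
    rfl
  have hinv : ∀ w ∈ W, N *ᵥ w ∈ W := by
    intro w hw
    have hw' : tr w = 0 := hw
    show tr (N *ᵥ w) = 0
    rw [hnv, tr_sub, tr_gv' hu, hw', sub_zero]
  have h7 := nil_on_sub N hnil W hinv hW7
  have hone : N *ᵥ (zOne : O8 F) = 0 := by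
    rw [hnv, gv_zOne hu, sub_self]
  have hall : N ^ 7 = 0 := by
    apply m8_ext
    intro v
    have hsplit : v = ((2 : F)⁻¹ * tr v) • (zOne : O8 F) + (v - ((2 : F)⁻¹ * tr v) • (zOne : O8 F)) := by
      abel
    have hwmem : v - ((2 : F)⁻¹ * tr v) • (zOne : O8 F) ∈ W := by
      show tr _ = 0
      rw [tr_sub, tr_smul, tr_zOne]
      field_simp
      ring
    rw [hsplit, Matrix.mulVec_add, Matrix.mulVec_smul, h7 _ hwmem]
    have e7 : N ^ 7 = N ^ 6 * N := pow_succ _ _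
    rw [e7, ← Matrix.mulVec_mulVec, hone]
    simp
  exact gl_eq_one_of 7 u 1 (by simpa using hall)

/-- The exponent of a unipotent automorphism. -/
lemma unip_bound {u : GL (Fin 8) F} (hu : u ∈ G2 F) {e : ℕ} (hue : u ^ (p ^ e) = 1) :
    (p = 2 ∧ u ^ 8 = 1) ∨ (p = 3 ∧ u ^ 9 = 1) ∨ (p = 5 ∧ u ^ 25 = 1) ∨ u ^ p = 1 := by
  have h8 := nil8 p hue
  by_cases h2 : p = 2
  · subst h2
    refine Or.inl ⟨rfl, ?_⟩
    exact gl_eq_one_of 2 u 3 (by simpa using h8)
  by_cases h3 : p = 3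
  · subst h3
    refine Or.inr (Or.inl ⟨rfl, ?_⟩)
    refine gl_eq_one_of 3 u 2 ?_
    have : (3 : ℕ) ^ 2 = 8 + 1 := by norm_num
    rw [this, pow_succ, h8, zero_mul]
  by_cases h5 : p = 5
  · subst h5
    refine Or.inr (Or.inr (Or.inl ⟨rfl, ?_⟩))
    refine gl_eq_one_of 5 u 2 ?_
    have : (5 : ℕ) ^ 2 = 8 + 17 := by norm_num
    rw [this, pow_add, h8, zero_mul]
  refine Or.inr (Or.inr (Or.inr ?_))
  by_cases h7 : p = 7
  · subst h7
    exact pow_seven 7 rfl hu hue
  have hp8 : 8 ≤ p := by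
    have hpp := hp.out
    by_contra hlt
    push Not at hlt
    interval_cases p <;> first | omega | (exact absurd hpp (by norm_num))
  have := gl_eq_one_of p u 1 (by
    rw [pow_one, ← Nat.sub_add_cancel hp8, pow_add, h8, mul_zero])
  simpa using this

end unip

section group

variable {G : Type*} [Group G]

/-- A group element decomposed according to coprime exponents. -/
lemma dvd_of_parts {g : G} {x y A B : ℕ} (hN : orderOf g = x * y) (hc : Nat.Coprime x y)
    (hs : (g ^ x) ^ A = 1) (hu : (g ^ y) ^ B = 1) : orderOf g ∣ A * B := by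
  have hxy : x * y ≠ 0 ∨ True := Or.inr trivial
  have h1 : orderOf g ∣ x * A := by
    rw [orderOf_dvd_iff_pow_eq_one, pow_mul]
    exact hs
  have h2 : orderOf g ∣ y * B := by
    rw [orderOf_dvd_iff_pow_eq_one, pow_mul]
    exact hu
  rw [hN] at h1 h2 ⊢
  have h3 : y ∣ A := by
    by_cases hx : x = 0
    · subst hx
      have : y = 1 := by simpa using hc
      simp [this]
    · exact (Nat.mul_dvd_mul_iff_left (Nat.pos_of_ne_zero hx)).mp h1
  have h4 : x ∣ B := by
    by_cases hy : y = 0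
    · subst hy
      have : x = 1 := by simpa using hc
      simp [this]
    · rw [mul_comm x y] at h2
      exact (Nat.mul_dvd_mul_iff_left (Nat.pos_of_ne_zero hy)).mp h2
  rw [mul_comm x y]
  exact mul_dvd_mul h3 h4

end group

section main

variable {F : Type*} [Field F] (p : ℕ) [hp : Fact p.Prime]
variable {E : Type*} [Field E] (ι : F →+* E)

lemma tt_pow_one {a b c : Eˣ} (h : a * b * c = 1) {L : ℕ} (ha : a ^ L = 1) (hb : b ^ L = 1)
    (hc : c ^ L = 1) : (tt a b c h) ^ L = 1 := by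
  apply Units.ext
  have e : ∀ x : Eˣ, x ^ L = 1 → (x : E) ^ L = 1 := fun x hx => by
    rw [← Units.val_pow_eq_pow_val, hx, Units.val_one]
  have e' : ∀ x : Eˣ, x ^ L = 1 → ((x⁻¹ : Eˣ) : E) ^ L = 1 := fun x hx => by
    rw [← Units.val_pow_eq_pow_val, inv_pow, hx, inv_one, Units.val_one]
  rw [Units.val_pow_eq_pow_val, tt_coe, Matrix.diagonal_pow, Units.val_one]
  rw [← Matrix.diagonal_one]
  congr 1
  funext i
  fin_cases i
  · simp [lam]
  · simpa [lam] using e a ha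
  · simpa [lam] using e b hb
  · simpa [lam] using e c hc
  · simpa [lam] using e' a ha
  · simpa [lam] using e' b hb
  · simpa [lam] using e' c hc
  · simp [lam]

lemma charpoly_conj0 {n : Type*} [Fintype n] [DecidableEq n] (h g : GL n E) :
    ((h * g * h⁻¹ : GL n E) : Matrix n n E).charpoly = (g : Matrix n n E).charpoly := by
  rw [Units.val_mul, Units.val_mul, Matrix.coe_units_inv]
  exact Matrix.charpoly_units_conj h _

lemma charpoly_conj' (h g : GL (Fin 8) E) :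
    ((h * g * h⁻¹ : GL (Fin 8) E) : M8 E).charpoly = (g : M8 E).charpoly := charpoly_conj0 h g

/-- The data of a semisimple element. -/
lemma semi_data [IsAlgClosed E] [CharP E p] {φ : E →+* E}
    (hφ : ∀ y, φ (ι y) = ι y) {s : GL (Fin 8) F} (hs : s ∈ G2 F) {m : ℕ} (hm : s ^ m = 1)
    (hm0 : (m : E) ≠ 0) :
    ∃ h ∈ G2 E, ∃ (a b c : Eˣ) (habc : a * b * c = 1),
      h * gE ι s * h⁻¹ = tt a b c habc ∧ TS φ a b c := by
  have hm1 : (gE ι s) ^ m = 1 := by rw [← gE_pow, hm, gE_one]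
  obtain ⟨h, hh, a, b, c, habc, hc⟩ := exists_conj_tt p (gE_mem ι hs) hm1 hm0
  refine ⟨h, hh, a, b, c, habc, hc, ?_⟩
  have h2 : ((gE ι s : GL (Fin 8) E) : M8 E).charpoly = ∏ i, (X - C (lam a b c i)) := by
    rw [← charpoly_conj' h, hc, tt_coe]
    exact Matrix.charpoly_diagonal _
  have h3 : ((s : M8 F).charpoly).map ι = ∏ i, (X - C (lam a b c i)) := by
    rw [← h2]
    exact (gE_charpoly ι s).symm
  exact TS_of_charpoly ι hφ h3

/-- Transfer of a power relation. -/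
lemma pow_of_conj {h : GL (Fin 8) E} {s : GL (Fin 8) F} {t : GL (Fin 8) E}
    (hc : h * gE ι s * h⁻¹ = t) {L : ℕ} (hL : t ^ L = 1) : s ^ L = 1 := by
  apply gE_inj ι
  rw [gE_pow, gE_one]
  rw [← hc, conj_pow] at hL
  have h2 : h * (gE ι s ^ L) = h := by
    have := congrArg (fun X => X * h) hL
    simpa using this
  simpa using h2

/-- The conclusion from two compatible elements. -/
theorem upper_core [Fintype F] [IsAlgClosed E] [CharP E p] [CharP F p] {q : ℕ} (hq1 : 1 ≤ q) {φ : E →+* E}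
    (hφq : ∀ x, φ x = x ^ q) (hφ : ∀ y, φ (ι y) = ι y) {g : GL (Fin 8) F} (hg : g ∈ G2 F) :
    orderOf g ∣ q ^ 2 - 1 ∨ orderOf g ∣ q ^ 2 + q + 1 ∨ orderOf g ∣ q ^ 2 - q + 1 ∨
      orderOf g ∣ (q - 1) * p ∨ orderOf g ∣ (q + 1) * p ∨ (p = 2 ∧ orderOf g ∣ 12) ∨
      (p = 2 ∧ orderOf g ∣ 8) ∨ (p = 3 ∧ orderOf g ∣ 9) ∨ (p = 5 ∧ orderOf g ∣ 25) ∨ orderOf g ∣ p := by
  have hN0 : orderOf g ≠ 0 := by
    have : IsOfFinOrder g := isOfFinOrder_of_finite g
    exact (orderOf_pos_iff.mpr this).ne'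
  obtain ⟨e, m, hpm, hN⟩ := Nat.exists_eq_pow_mul_and_not_dvd hN0 p hp.out.ne_one
  have hcop : Nat.Coprime (p ^ e) m := Nat.Coprime.pow_left _ ((Nat.Prime.coprime_iff_not_dvd hp.out).mpr hpm)
  set s := g ^ (p ^ e) with hs_def
  set u := g ^ m with hu_def
  have hsG : s ∈ G2 F := pow_mem hg _
  have huG : u ∈ G2 F := pow_mem hg _
  have hsm : s ^ m = 1 := by
    rw [hs_def, ← pow_mul, ← hN, pow_orderOf_eq_one]
  have hue : u ^ (p ^ e) = 1 := by
    rw [hu_def, ← pow_mul, mul_comm, ← hN, pow_orderOf_eq_one]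
  have hm0 : (m : E) ≠ 0 := by
    rw [Ne, CharP.cast_eq_zero_iff E p m]
    exact hpm
  have hcomm : u * s = s * u := by
    rw [hu_def, hs_def, ← pow_add, ← pow_add, add_comm]
  have parts : ∀ {A B : ℕ}, s ^ A = 1 → u ^ B = 1 → orderOf g ∣ A * B := fun {A B} h1 h2 =>
    dvd_of_parts hN hcop h1 h2
  obtain ⟨h, hh, a, b, c, habc, hconj, hTS⟩ := semi_data p ι hφ hsG hsm hm0
  set v := h * gE ι u * h⁻¹ with hv
  have hvG : v ∈ G2 E := mul_mem (mul_mem hh (gE_mem ι huG)) (inv_mem hh)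
  have hve : v ^ (p ^ e) = 1 := by
    rw [hv, conj_pow, ← gE_pow, hue, gE_one]
    simp
  have hvc : v * tt a b c habc = tt a b c habc * v := by
    rw [← hconj, hv]
    have h1 : gE ι u * gE ι s = gE ι s * gE ι u := by rw [← gE_mul, hcomm, gE_mul]
    calc h * gE ι u * h⁻¹ * (h * gE ι s * h⁻¹) = h * (gE ι u * gE ι s) * h⁻¹ := by group
      _ = h * (gE ι s * gE ι u) * h⁻¹ := by rw [h1]
      _ = _ := by group
  have hvu : ∀ {L : ℕ}, v ^ L = 1 → u ^ L = 1 := fun {L} hL => pow_of_conj ι rfl hL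
  have hts : ∀ {L : ℕ}, a ^ L = 1 → b ^ L = 1 → c ^ L = 1 → s ^ L = 1 := fun {L} h1 h2 h3 =>
    pow_of_conj ι hconj (tt_pow_one habc h1 h2 h3)
  by_cases hall : a = 1 ∧ b = 1 ∧ c = 1
  · -- the unipotent case
    obtain ⟨rfl, rfl, rfl⟩ := hall
    have hs1 : s = 1 := by
      have := hts (L := 1) (by simp) (by simp) (by simp)
      simpa using this
    have hge : g ^ (p ^ e) = 1 := hs1
    rcases unip_bound p hg hge with ⟨e1, e2⟩ | ⟨e1, e2⟩ | ⟨e1, e2⟩ | e2
    · exact Or.inr (Or.inr (Or.inr (Or.inr (Or.inr (Or.inr (Or.inl ⟨e1, orderOf_dvd_of_pow_eq_one e2⟩))))))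
    · exact Or.inr (Or.inr (Or.inr (Or.inr (Or.inr (Or.inr (Or.inr (Or.inl ⟨e1, orderOf_dvd_of_pow_eq_one e2⟩)))))))
    · exact Or.inr (Or.inr (Or.inr (Or.inr (Or.inr (Or.inr (Or.inr (Or.inr (Or.inl ⟨e1, orderOf_dvd_of_pow_eq_one e2⟩))))))))
    · exact Or.inr (Or.inr (Or.inr (Or.inr (Or.inr (Or.inr (Or.inr (Or.inr (Or.inr (orderOf_dvd_of_pow_eq_one e2)))))))))
  have key : (v ^ p = 1 ∧ (v ≠ 1 → Pair a b c)) ∨ (p = 2 ∧ a = b ∧ b = c ∧ v ^ 4 = 1) := by
    by_cases hp2 : p = 2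
    · rcases unip_two p hp2 hvG hve hvc hall with ⟨e1, e2⟩ | ⟨e1, e2, e3⟩
      · left
        rw [hp2]
        exact ⟨e1, e2⟩
      · exact Or.inr ⟨hp2, e1, e2, e3⟩
    · exact Or.inl (unip_odd p hp2 hvG hve hvc hall)
  rcases key with ⟨e1, e2⟩ | ⟨e1, rfl, rfl, e4⟩
  · have hup : u ^ p = 1 := hvu e1
    by_cases hv1 : v = 1
    · have hu1 : u ^ 1 = 1 := hvu (by simpa using hv1)
      have hgood := good_of_signed hq1 habc (signed_of_TS hφq hTS)
      rcases hgood with ⟨h1, h2, h3⟩ | ⟨h1, h2, h3⟩ | ⟨h1, h2, h3⟩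
      · left
        simpa using parts (hts h1 h2 h3) hu1
      · right; left
        simpa using parts (hts h1 h2 h3) hu1
      · right; right; left
        simpa using parts (hts h1 h2 h3) hu1
    · have hpair := e2 hv1
      have hss : SS q a a ∧ SS q b b ∧ SS q c c := by
        rcases hpair with h1 | h1 | h1
        · exact fix_of_pair hφq hTS h1
        · obtain ⟨x1, x2, x3⟩ := fix_of_pair hφq hTS.rot h1
          exact ⟨x3, x1, x2⟩
        · obtain ⟨x1, x2, x3⟩ := fix_of_pair hφq hTS.rot.rot h1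
          exact ⟨x2, x3, x1⟩
      obtain ⟨x1, x2, x3⟩ := hss
      rcases ss_fix habc x1 x2 x3 hq1 with ⟨y1, y2, y3⟩ | ⟨y1, y2, y3⟩
      · right; right; right; left
        exact parts (hts y1 y2 y3) hup
      · right; right; right; right; left
        exact parts (hts y1 y2 y3) hup
  · -- `a = b = c`
    have h3 : a ^ 3 = 1 := by
      rw [pow_succ, pow_two]
      exact habc
    have hs3 : s ^ 3 = 1 := hts h3 h3 h3
    have hu4 : u ^ 4 = 1 := hvu e4
    right; right; right; right; right; left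
    exact ⟨e1, by simpa using parts hs3 hu4⟩

end main

section final

variable {F : Type*} [Field F] [Fintype F] (p k : ℕ) [hp : Fact p.Prime] [CharP F p]

include p in
/-- The final upper bound. -/
theorem upper (hF : Fintype.card F = p ^ k) {g : GL (Fin 8) F} (hg : g ∈ G2 F) :
    orderOf g ∣ (p ^ k) ^ 2 - 1 ∨ orderOf g ∣ (p ^ k) ^ 2 + p ^ k + 1 ∨ orderOf g ∣ (p ^ k) ^ 2 - p ^ k + 1 ∨
      orderOf g ∣ (p ^ k - 1) * p ∨ orderOf g ∣ (p ^ k + 1) * p ∨ (p = 2 ∧ orderOf g ∣ 12) ∨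
      (p = 2 ∧ orderOf g ∣ 8) ∨ (p = 3 ∧ orderOf g ∣ 9) ∨ (p = 5 ∧ orderOf g ∣ 25) ∨ orderOf g ∣ p := by
  haveI : CharP (AlgebraicClosure F) p :=
    charP_of_injective_algebraMap (algebraMap F (AlgebraicClosure F)).injective p
  haveI : ExpChar (AlgebraicClosure F) p := ExpChar.prime hp.out
  have hq1 : 1 ≤ p ^ k := Nat.one_le_pow _ _ hp.out.pos
  refine upper_core p (algebraMap F (AlgebraicClosure F)) hq1 (φ := iterateFrobenius (AlgebraicClosure F) p k)
    (fun x => iterateFrobenius_def p k x) (fun y => ?_) hg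
  rw [iterateFrobenius_def, ← map_pow, ← hF, FiniteField.pow_card]

end final

end Cfsg.Agent.Lib.G2Spec
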