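import Cfsg.Agent.Lib.SL3G250

/-!
# The action of root elements of `G₂` on the Lie algebra: the short roots
-/

set_option autoImplicit false
set_option linter.unusedSectionVars false
set_option linter.unusedVariables false
set_option linter.unusedSimpArgs false
set_option maxRecDepth 100000

namespace Cfsg.Agent.Lib.G2Spec

open Cfsg Cfsg.Lie Cfsg.Agent.Lib.Chev Cfsg.Agent.Lib.SL3G250 Matrix

variable {F : Type*} [Field F]

/-- The action of `x_2(t)`. -/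
def nv2 (t : F) (v : V14 F) : V14 F :=
  mkV (![v (hh 0) - 2 * t * v (ee 9), v (hh 1) - 3 * t * v (ee 9)]) (![v (ee 0) + 3 * t * v (ee 3) - 3 * t ^ 2 * v (ee 7) + t ^ 3 * v (ee 10), v (ee 1) + 3 * t * v (ee 4) + 3 * t ^ 2 * v (ee 8) - t ^ 3 * v (ee 11), v (ee 2) + t * v (hh 0) - t ^ 2 * v (ee 9), v (ee 3) - 2 * t * v (ee 7) + t ^ 2 * v (ee 10), v (ee 4) + 2 * t * v (ee 8) - t ^ 2 * v (ee 11), v (ee 5), v (ee 6), v (ee 7) - t * v (ee 10), v (ee 8) - t * v (ee 11), v (ee 9), v (ee 10), v (ee 11)])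

theorem raw2_0 : rawEx chevG2 2 (hh 0) = [(4, 1, 1)] := by decide +kernel
theorem raw2_1 : rawEx chevG2 2 (hh 1) = [(4, 0, 1)] := by decide +kernel
theorem raw2_2 : rawEx chevG2 2 (ee 0) = [] := by decide +kernel
theorem raw2_3 : rawEx chevG2 2 (ee 1) = [] := by decide +kernel
theorem raw2_4 : rawEx chevG2 2 (ee 2) = [] := by decide +kernel
theorem raw2_5 : rawEx chevG2 2 (ee 3) = [(2, 3, 1)] := by decide +kernel
theorem raw2_6 : rawEx chevG2 2 (ee 4) = [(3, 3, 1)] := by decide +kernel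
theorem raw2_7 : rawEx chevG2 2 (ee 5) = [] := by decide +kernel
theorem raw2_8 : rawEx chevG2 2 (ee 6) = [] := by decide +kernel
theorem raw2_9 : rawEx chevG2 2 (ee 7) = [(5, -2, 1), (2, -3, 2)] := by decide +kernel
theorem raw2_10 : rawEx chevG2 2 (ee 8) = [(6, 2, 1), (3, 3, 2)] := by decide +kernel
theorem raw2_11 : rawEx chevG2 2 (ee 9) = [(0, -2, 1), (1, -3, 1), (4, -1, 2)] := by decide +kernel
theorem raw2_12 : rawEx chevG2 2 (ee 10) = [(9, -1, 1), (5, 1, 2), (2, 1, 3)] := by decide +kernel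
theorem raw2_13 : rawEx chevG2 2 (ee 11) = [(10, -1, 1), (6, -1, 2), (3, -1, 3)] := by decide +kernel

theorem x2_mulVec (t : F) (v : V14 F) : chevG2.x F 2 t *ᵥ v = nv2 t v := by
  funext row
  rw [x_mulVec_row chevG2 (by decide) t v row, sum14]
  simp only [raw2_0, raw2_1, raw2_2, raw2_3, raw2_4, raw2_5, raw2_6, raw2_7, raw2_8, raw2_9, raw2_10, raw2_11, raw2_12, raw2_13]
  revert row
  apply idx_ind
  · intro i
    fin_cases i <;> simp [sumEx, nv2, flat_hh, flat_ee, mkV_hh, mkV_ee] <;> ring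
  · intro s
    fin_cases s <;> simp [sumEx, nv2, flat_hh, flat_ee, mkV_hh, mkV_ee] <;> ring

/-- The action of `x_3(t)`. -/
def nv3 (t : F) (v : V14 F) : V14 F :=
  mkV (![v (hh 0) - t * v (ee 8), v (hh 1) - 3 * t * v (ee 8)]) (![v (ee 0) - 3 * t * v (ee 2) + 3 * t ^ 2 * v (ee 4) + t ^ 3 * v (ee 6), v (ee 1), v (ee 2) - 2 * t * v (ee 4) - t ^ 2 * v (ee 6), v (ee 3) - t * v (hh 0) + t * v (hh 1) - t ^ 2 * v (ee 8), v (ee 4) + t * v (ee 6), v (ee 5) - 3 * t * v (ee 7) - 3 * t ^ 2 * v (ee 9) - t ^ 3 * v (ee 11), v (ee 6), v (ee 7) + 2 * t * v (ee 9) + t ^ 2 * v (ee 11), v (ee 8), v (ee 9) + t * v (ee 11), v (ee 10), v (ee 11)])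

theorem raw3_0 : rawEx chevG2 3 (hh 0) = [(5, -1, 1)] := by decide +kernel
theorem raw3_1 : rawEx chevG2 3 (hh 1) = [(5, 1, 1)] := by decide +kernel
theorem raw3_2 : rawEx chevG2 3 (ee 0) = [] := by decide +kernel
theorem raw3_3 : rawEx chevG2 3 (ee 1) = [] := by decide +kernel
theorem raw3_4 : rawEx chevG2 3 (ee 2) = [(2, -3, 1)] := by decide +kernel
theorem raw3_5 : rawEx chevG2 3 (ee 3) = [] := by decide +kernel
theorem raw3_6 : rawEx chevG2 3 (ee 4) = [(4, -2, 1), (2, 3, 2)] := by decide +kernel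
theorem raw3_7 : rawEx chevG2 3 (ee 5) = [] := by decide +kernel
theorem raw3_8 : rawEx chevG2 3 (ee 6) = [(6, 1, 1), (4, -1, 2), (2, 1, 3)] := by decide +kernel
theorem raw3_9 : rawEx chevG2 3 (ee 7) = [(7, -3, 1)] := by decide +kernel
theorem raw3_10 : rawEx chevG2 3 (ee 8) = [(0, -1, 1), (1, -3, 1), (5, -1, 2)] := by decide +kernel
theorem raw3_11 : rawEx chevG2 3 (ee 9) = [(9, 2, 1), (7, -3, 2)] := by decide +kernel
theorem raw3_12 : rawEx chevG2 3 (ee 10) = [] := by decide +kernel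
theorem raw3_13 : rawEx chevG2 3 (ee 11) = [(11, 1, 1), (9, 1, 2), (7, -1, 3)] := by decide +kernel

theorem x3_mulVec (t : F) (v : V14 F) : chevG2.x F 3 t *ᵥ v = nv3 t v := by
  funext row
  rw [x_mulVec_row chevG2 (by decide) t v row, sum14]
  simp only [raw3_0, raw3_1, raw3_2, raw3_3, raw3_4, raw3_5, raw3_6, raw3_7, raw3_8, raw3_9, raw3_10, raw3_11, raw3_12, raw3_13]
  revert row
  apply idx_ind
  · intro i
    fin_cases i <;> simp [sumEx, nv3, flat_hh, flat_ee, mkV_hh, mkV_ee] <;> ring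
  · intro s
    fin_cases s <;> simp [sumEx, nv3, flat_hh, flat_ee, mkV_hh, mkV_ee] <;> ring

/-- The action of `x_4(t)`. -/
def nv4 (t : F) (v : V14 F) : V14 F :=
  mkV (![v (hh 0) - t * v (ee 7), v (hh 1)]) (![v (ee 0), v (ee 1) - 3 * t * v (ee 2) - 3 * t ^ 2 * v (ee 3) - t ^ 3 * v (ee 5), v (ee 2) + 2 * t * v (ee 3) + t ^ 2 * v (ee 5), v (ee 3) + t * v (ee 5), v (ee 4) + 2 * t * v (hh 0) - t * v (hh 1) - t ^ 2 * v (ee 7), v (ee 5), v (ee 6) - 3 * t * v (ee 8) + 3 * t ^ 2 * v (ee 9) + t ^ 3 * v (ee 10), v (ee 7), v (ee 8) - 2 * t * v (ee 9) - t ^ 2 * v (ee 10), v (ee 9) + t * v (ee 10), v (ee 10), v (ee 11)])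

theorem raw4_0 : rawEx chevG2 4 (hh 0) = [(6, 2, 1)] := by decide +kernel
theorem raw4_1 : rawEx chevG2 4 (hh 1) = [(6, -1, 1)] := by decide +kernel
theorem raw4_2 : rawEx chevG2 4 (ee 0) = [] := by decide +kernel
theorem raw4_3 : rawEx chevG2 4 (ee 1) = [] := by decide +kernel
theorem raw4_4 : rawEx chevG2 4 (ee 2) = [(3, -3, 1)] := by decide +kernel
theorem raw4_5 : rawEx chevG2 4 (ee 3) = [(4, 2, 1), (3, -3, 2)] := by decide +kernel
theorem raw4_6 : rawEx chevG2 4 (ee 4) = [] := by decide +kernel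
theorem raw4_7 : rawEx chevG2 4 (ee 5) = [(5, 1, 1), (4, 1, 2), (3, -1, 3)] := by decide +kernel
theorem raw4_8 : rawEx chevG2 4 (ee 6) = [] := by decide +kernel
theorem raw4_9 : rawEx chevG2 4 (ee 7) = [(0, -1, 1), (1, 0, 1), (6, -1, 2)] := by decide +kernel
theorem raw4_10 : rawEx chevG2 4 (ee 8) = [(8, -3, 1)] := by decide +kernel
theorem raw4_11 : rawEx chevG2 4 (ee 9) = [(10, -2, 1), (8, 3, 2)] := by decide +kernel
theorem raw4_12 : rawEx chevG2 4 (ee 10) = [(11, 1, 1), (10, -1, 2), (8, 1, 3)] := by decide +kernel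
theorem raw4_13 : rawEx chevG2 4 (ee 11) = [] := by decide +kernel

theorem x4_mulVec (t : F) (v : V14 F) : chevG2.x F 4 t *ᵥ v = nv4 t v := by
  funext row
  rw [x_mulVec_row chevG2 (by decide) t v row, sum14]
  simp only [raw4_0, raw4_1, raw4_2, raw4_3, raw4_4, raw4_5, raw4_6, raw4_7, raw4_8, raw4_9, raw4_10, raw4_11, raw4_12, raw4_13]
  revert row
  apply idx_ind
  · intro i
    fin_cases i <;> simp [sumEx, nv4, flat_hh, flat_ee, mkV_hh, mkV_ee] <;> ring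
  · intro s
    fin_cases s <;> simp [sumEx, nv4, flat_hh, flat_ee, mkV_hh, mkV_ee] <;> ring

/-- The action of `x_7(t)`. -/
def nv7 (t : F) (v : V14 F) : V14 F :=
  mkV (![v (hh 0) + t * v (ee 4), v (hh 1)]) (![v (ee 0), v (ee 1), v (ee 2) - t * v (ee 1), v (ee 3) - t ^ 2 * v (ee 1) + 2 * t * v (ee 2), v (ee 4), v (ee 5) - t ^ 3 * v (ee 1) + 3 * t ^ 2 * v (ee 2) + 3 * t * v (ee 3), v (ee 6), v (ee 7) - 2 * t * v (hh 0) + t * v (hh 1) - t ^ 2 * v (ee 4), v (ee 8) - t * v (ee 6), v (ee 9) + t ^ 2 * v (ee 6) - 2 * t * v (ee 8), v (ee 10) + t ^ 3 * v (ee 6) - 3 * t ^ 2 * v (ee 8) + 3 * t * v (ee 9), v (ee 11)])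

theorem raw7_0 : rawEx chevG2 7 (hh 0) = [(9, -2, 1)] := by decide +kernel
theorem raw7_1 : rawEx chevG2 7 (hh 1) = [(9, 1, 1)] := by decide +kernel
theorem raw7_2 : rawEx chevG2 7 (ee 0) = [] := by decide +kernel
theorem raw7_3 : rawEx chevG2 7 (ee 1) = [(4, -1, 1), (5, -1, 2), (7, -1, 3)] := by decide +kernel
theorem raw7_4 : rawEx chevG2 7 (ee 2) = [(5, 2, 1), (7, 3, 2)] := by decide +kernel
theorem raw7_5 : rawEx chevG2 7 (ee 3) = [(7, 3, 1)] := by decide +kernel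
theorem raw7_6 : rawEx chevG2 7 (ee 4) = [(0, 1, 1), (1, 0, 1), (9, -1, 2)] := by decide +kernel
theorem raw7_7 : rawEx chevG2 7 (ee 5) = [] := by decide +kernel
theorem raw7_8 : rawEx chevG2 7 (ee 6) = [(10, -1, 1), (11, 1, 2), (12, 1, 3)] := by decide +kernel
theorem raw7_9 : rawEx chevG2 7 (ee 7) = [] := by decide +kernel
theorem raw7_10 : rawEx chevG2 7 (ee 8) = [(11, -2, 1), (12, -3, 2)] := by decide +kernel
theorem raw7_11 : rawEx chevG2 7 (ee 9) = [(12, 3, 1)] := by decide +kernel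
theorem raw7_12 : rawEx chevG2 7 (ee 10) = [] := by decide +kernel
theorem raw7_13 : rawEx chevG2 7 (ee 11) = [] := by decide +kernel

theorem x7_mulVec (t : F) (v : V14 F) : chevG2.x F 7 t *ᵥ v = nv7 t v := by
  funext row
  rw [x_mulVec_row chevG2 (by decide) t v row, sum14]
  simp only [raw7_0, raw7_1, raw7_2, raw7_3, raw7_4, raw7_5, raw7_6, raw7_7, raw7_8, raw7_9, raw7_10, raw7_11, raw7_12, raw7_13]
  revert row
  apply idx_ind
  · intro i
    fin_cases i <;> simp [sumEx, nv7, flat_hh, flat_ee, mkV_hh, mkV_ee] <;> ring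
  · intro s
    fin_cases s <;> simp [sumEx, nv7, flat_hh, flat_ee, mkV_hh, mkV_ee] <;> ring

/-- The action of `x_8(t)`. -/
def nv8 (t : F) (v : V14 F) : V14 F :=
  mkV (![v (hh 0) + t * v (ee 3), v (hh 1) + 3 * t * v (ee 3)]) (![v (ee 0), v (ee 1), v (ee 2) - t * v (ee 0), v (ee 3), v (ee 4) + t ^ 2 * v (ee 0) - 2 * t * v (ee 2), v (ee 5), v (ee 6) + t ^ 3 * v (ee 0) - 3 * t ^ 2 * v (ee 2) + 3 * t * v (ee 4), v (ee 7) - t * v (ee 5), v (ee 8) + t * v (hh 0) - t * v (hh 1) - t ^ 2 * v (ee 3), v (ee 9) - t ^ 2 * v (ee 5) + 2 * t * v (ee 7), v (ee 10), v (ee 11) - t ^ 3 * v (ee 5) + 3 * t ^ 2 * v (ee 7) + 3 * t * v (ee 9)])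

theorem raw8_0 : rawEx chevG2 8 (hh 0) = [(10, 1, 1)] := by decide +kernel
theorem raw8_1 : rawEx chevG2 8 (hh 1) = [(10, -1, 1)] := by decide +kernel
theorem raw8_2 : rawEx chevG2 8 (ee 0) = [(4, -1, 1), (6, 1, 2), (8, 1, 3)] := by decide +kernel
theorem raw8_3 : rawEx chevG2 8 (ee 1) = [] := by decide +kernel
theorem raw8_4 : rawEx chevG2 8 (ee 2) = [(6, -2, 1), (8, -3, 2)] := by decide +kernel
theorem raw8_5 : rawEx chevG2 8 (ee 3) = [(0, 1, 1), (1, 3, 1), (10, -1, 2)] := by decide +kernel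
theorem raw8_6 : rawEx chevG2 8 (ee 4) = [(8, 3, 1)] := by decide +kernel
theorem raw8_7 : rawEx chevG2 8 (ee 5) = [(9, -1, 1), (11, -1, 2), (13, -1, 3)] := by decide +kernel
theorem raw8_8 : rawEx chevG2 8 (ee 6) = [] := by decide +kernel
theorem raw8_9 : rawEx chevG2 8 (ee 7) = [(11, 2, 1), (13, 3, 2)] := by decide +kernel
theorem raw8_10 : rawEx chevG2 8 (ee 8) = [] := by decide +kernel
theorem raw8_11 : rawEx chevG2 8 (ee 9) = [(13, 3, 1)] := by decide +kernel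
theorem raw8_12 : rawEx chevG2 8 (ee 10) = [] := by decide +kernel
theorem raw8_13 : rawEx chevG2 8 (ee 11) = [] := by decide +kernel

theorem x8_mulVec (t : F) (v : V14 F) : chevG2.x F 8 t *ᵥ v = nv8 t v := by
  funext row
  rw [x_mulVec_row chevG2 (by decide) t v row, sum14]
  simp only [raw8_0, raw8_1, raw8_2, raw8_3, raw8_4, raw8_5, raw8_6, raw8_7, raw8_8, raw8_9, raw8_10, raw8_11, raw8_12, raw8_13]
  revert row
  apply idx_ind
  · intro i
    fin_cases i <;> simp [sumEx, nv8, flat_hh, flat_ee, mkV_hh, mkV_ee] <;> ring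
  · intro s
    fin_cases s <;> simp [sumEx, nv8, flat_hh, flat_ee, mkV_hh, mkV_ee] <;> ring

/-- The action of `x_9(t)`. -/
def nv9 (t : F) (v : V14 F) : V14 F :=
  mkV (![v (hh 0) + 2 * t * v (ee 2), v (hh 1) + 3 * t * v (ee 2)]) (![v (ee 0), v (ee 1), v (ee 2), v (ee 3) + t * v (ee 0), v (ee 4) + t * v (ee 1), v (ee 5), v (ee 6), v (ee 7) - t ^ 2 * v (ee 0) - 2 * t * v (ee 3), v (ee 8) + t ^ 2 * v (ee 1) + 2 * t * v (ee 4), v (ee 9) - t * v (hh 0) - t ^ 2 * v (ee 2), v (ee 10) + t ^ 3 * v (ee 0) + 3 * t ^ 2 * v (ee 3) - 3 * t * v (ee 7), v (ee 11) - t ^ 3 * v (ee 1) - 3 * t ^ 2 * v (ee 4) - 3 * t * v (ee 8)])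

theorem raw9_0 : rawEx chevG2 9 (hh 0) = [(11, -1, 1)] := by decide +kernel
theorem raw9_1 : rawEx chevG2 9 (hh 1) = [(11, 0, 1)] := by decide +kernel
theorem raw9_2 : rawEx chevG2 9 (ee 0) = [(5, 1, 1), (9, -1, 2), (12, 1, 3)] := by decide +kernel
theorem raw9_3 : rawEx chevG2 9 (ee 1) = [(6, 1, 1), (10, 1, 2), (13, -1, 3)] := by decide +kernel
theorem raw9_4 : rawEx chevG2 9 (ee 2) = [(0, 2, 1), (1, 3, 1), (11, -1, 2)] := by decide +kernel
theorem raw9_5 : rawEx chevG2 9 (ee 3) = [(9, -2, 1), (12, 3, 2)] := by decide +kernel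
theorem raw9_6 : rawEx chevG2 9 (ee 4) = [(10, 2, 1), (13, -3, 2)] := by decide +kernel
theorem raw9_7 : rawEx chevG2 9 (ee 5) = [] := by decide +kernel
theorem raw9_8 : rawEx chevG2 9 (ee 6) = [] := by decide +kernel
theorem raw9_9 : rawEx chevG2 9 (ee 7) = [(12, -3, 1)] := by decide +kernel
theorem raw9_10 : rawEx chevG2 9 (ee 8) = [(13, -3, 1)] := by decide +kernel
theorem raw9_11 : rawEx chevG2 9 (ee 9) = [] := by decide +kernel
theorem raw9_12 : rawEx chevG2 9 (ee 10) = [] := by decide +kernel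
theorem raw9_13 : rawEx chevG2 9 (ee 11) = [] := by decide +kernel

theorem x9_mulVec (t : F) (v : V14 F) : chevG2.x F 9 t *ᵥ v = nv9 t v := by
  funext row
  rw [x_mulVec_row chevG2 (by decide) t v row, sum14]
  simp only [raw9_0, raw9_1, raw9_2, raw9_3, raw9_4, raw9_5, raw9_6, raw9_7, raw9_8, raw9_9, raw9_10, raw9_11, raw9_12, raw9_13]
  revert row
  apply idx_ind
  · intro i
    fin_cases i <;> simp [sumEx, nv9, flat_hh, flat_ee, mkV_hh, mkV_ee] <;> ring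
  · intro s
    fin_cases s <;> simp [sumEx, nv9, flat_hh, flat_ee, mkV_hh, mkV_ee] <;> ring

end Cfsg.Agent.Lib.G2Spec
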